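import Cfsg.Agent.Lib.SUStem.Defs
import Cfsg.Agent.Lib.PresU.Conc2
import Cfsg.Agent.Lib.PresU.OInj

/-!
# Block homomorphisms between unitary groups of Gram matrices

An isometric embedding `E` of Gram matrices `J₁ → J₂` gives a homomorphism `SUg σ J₁ →* SUg σ J₂`,
`X ↦ 1 + E (X - 1) E⁺` where `E⁺` is the adjoint of `E`.
-/

set_option autoImplicit false
set_option linter.unusedSectionVars false
set_option linter.unusedVariables false
set_option linter.unusedSimpArgs false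

namespace Cfsg.Agent.Lib.SUStem.Bk

open Matrix Cfsg.Agent.Lib.PresU

variable {K : Type*} [Field K] {σ : K →+* K}
variable {I₁ I₂ : Type*} [Fintype I₁] [DecidableEq I₁] [Fintype I₂] [DecidableEq I₂]

/-- The adjoint of a rectangular matrix. -/
def adjE (σ : K →+* K) (J₁ : Matrix I₁ I₁ K) (J₂ : Matrix I₂ I₂ K) (E : Matrix I₂ I₁ K) : Matrix I₁ I₂ K :=
  J₁ * (E.map σ)ᵀ * J₂

/-- An isometric embedding of Gram matrices. -/
structure Dat (σ : K →+* K) (J₁ : Matrix I₁ I₁ K) (J₂ : Matrix I₂ I₂ K) (E : Matrix I₂ I₁ K) : Prop where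
  hσ : ∀ x, σ (σ x) = x
  iso : Eᵀ * J₂ * E.map σ = J₁
  sq1 : J₁ * J₁ = 1
  sym1 : J₁ᵀ = J₁
  sym2 : J₂ᵀ = J₂
  map1 : J₁.map σ = J₁
  map2 : J₂.map σ = J₂

variable {J₁ : Matrix I₁ I₁ K} {J₂ : Matrix I₂ I₂ K} {E : Matrix I₂ I₁ K}

lemma Dat.map_map (D : Dat σ J₁ J₂ E) : (E.map σ).map σ = E := by
  ext r t
  simp [D.hσ]

lemma Dat.adj_mul (D : Dat σ J₁ J₂ E) : adjE σ J₁ J₂ E * E = 1 := by
  have h := congrArg (fun M => M.map σ) D.iso
  simp only [Matrix.map_mul, D.map1, D.map2, D.map_map] at h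
  have e : (Eᵀ).map σ = (E.map σ)ᵀ := by
    ext r t
    simp
  rw [e] at h
  rw [adjE, Matrix.mul_assoc, Matrix.mul_assoc, ← Matrix.mul_assoc (E.map σ)ᵀ, h, D.sq1]

/-- The block map on matrices. -/
def bkM (σ : K →+* K) (J₁ : Matrix I₁ I₁ K) (J₂ : Matrix I₂ I₂ K) (E : Matrix I₂ I₁ K)
    (X : Matrix I₁ I₁ K) : Matrix I₂ I₂ K := 1 + E * (X - 1) * adjE σ J₁ J₂ E

lemma bkM_one : bkM σ J₁ J₂ E 1 = 1 := by
  simp [bkM]

lemma Dat.bkM_mul (D : Dat σ J₁ J₂ E) (X Y : Matrix I₁ I₁ K) :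
    bkM σ J₁ J₂ E (X * Y) = bkM σ J₁ J₂ E X * bkM σ J₁ J₂ E Y := by
  have e1 : E * (X - 1) * adjE σ J₁ J₂ E * (E * (Y - 1) * adjE σ J₁ J₂ E) =
      E * ((X - 1) * (Y - 1)) * adjE σ J₁ J₂ E := by
    calc E * (X - 1) * adjE σ J₁ J₂ E * (E * (Y - 1) * adjE σ J₁ J₂ E)
        = E * (X - 1) * (adjE σ J₁ J₂ E * E) * (Y - 1) * adjE σ J₁ J₂ E := by
          simp only [Matrix.mul_assoc]
      _ = _ := by rw [D.adj_mul]; simp only [Matrix.mul_assoc, Matrix.mul_one]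
  have e2 : X * Y - 1 = (X - 1) + (Y - 1) + (X - 1) * (Y - 1) := by
    noncomm_ring
  rw [bkM, bkM, bkM, mul_add, add_mul, add_mul, one_mul, mul_one, one_mul, e1, e2]
  simp only [Matrix.mul_add, Matrix.add_mul]
  abel

lemma Dat.det_bkM (D : Dat σ J₁ J₂ E) (X : Matrix I₁ I₁ K) : (bkM σ J₁ J₂ E X).det = X.det := by
  rw [bkM, Matrix.mul_assoc, Matrix.det_one_add_mul_comm, Matrix.mul_assoc, D.adj_mul, Matrix.mul_one]
  congr 1
  abel

lemma Dat.isU_bkM (D : Dat σ J₁ J₂ E) {X : Matrix I₁ I₁ K} (hX : IsU σ J₁ X) : IsU σ J₂ (bkM σ J₁ J₂ E X) := by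
  unfold IsU at *
  set C := E.map σ with hC
  set P := Xᵀ - 1 with hP
  set R := X.map σ - 1 with hR
  have key : P * J₁ + J₁ * R + P * J₁ * R = 0 := by
    have e1 : Xᵀ = P + 1 := by rw [hP]; abel
    have e2 : X.map σ = R + 1 := by rw [hR]; abel
    rw [e1, e2] at hX
    have e3 : (P + 1) * J₁ * (R + 1) = P * J₁ * R + P * J₁ + J₁ * R + J₁ := by
      noncomm_ring
    rw [e3] at hX
    have e4 : P * J₁ * R + P * J₁ + J₁ * R = 0 := add_eq_right.1 hX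
    rw [← e4]
    abel
  have key2 : R * J₁ + J₁ * P + J₁ * P * J₁ * R * J₁ = 0 := by
    have h := congrArg (fun M => J₁ * M * J₁) key
    simp only [Matrix.mul_zero, Matrix.zero_mul] at h
    have e1 : J₁ * (P * J₁) * J₁ = J₁ * P := by
      rw [Matrix.mul_assoc, Matrix.mul_assoc, D.sq1, Matrix.mul_one]
    have e2 : J₁ * (J₁ * R) * J₁ = R * J₁ := by
      rw [← Matrix.mul_assoc, D.sq1, Matrix.one_mul]
    rw [← h]
    simp only [Matrix.mul_add, Matrix.add_mul, e1, e2]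
    simp only [Matrix.mul_assoc]
    abel
  have hadjT : (adjE σ J₁ J₂ E)ᵀ = J₂ * C * J₁ := by
    rw [adjE, transpose_mul, transpose_mul, transpose_transpose, D.sym1, D.sym2, Matrix.mul_assoc]
  have hadjM : (adjE σ J₁ J₂ E).map σ = J₁ * Eᵀ * J₂ := by
    rw [adjE, Matrix.map_mul, Matrix.map_mul, D.map1, D.map2]
    congr 2
    ext r t
    simp [D.hσ]
  have hXT : (X - 1)ᵀ = P := by
    rw [transpose_sub, transpose_one]
  have hXM : (X - 1).map σ = R := by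
    rw [Matrix.map_sub _ (map_sub σ), Matrix.map_one _ (map_zero σ) (map_one σ)]
  have hT : (bkM σ J₁ J₂ E X)ᵀ = 1 + J₂ * C * J₁ * P * Eᵀ := by
    rw [bkM, transpose_add, transpose_one, transpose_mul, transpose_mul, hadjT, hXT]
    simp only [Matrix.mul_assoc]
  have hM : (bkM σ J₁ J₂ E X).map σ = 1 + C * R * (J₁ * Eᵀ * J₂) := by
    rw [bkM, Matrix.map_add _ (map_add σ), Matrix.map_one _ (map_zero σ) (map_one σ), Matrix.map_mul,
      Matrix.map_mul, hadjM, hXM]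
  rw [hT, hM]
  have hiso : Eᵀ * (J₂ * C) = J₁ := by
    rw [← Matrix.mul_assoc]
    exact D.iso
  set Q := J₂ * C with hQ
  set Q' := Eᵀ * J₂ with hQ'
  have e1 : J₁ * Eᵀ * J₂ = J₁ * Q' := by rw [hQ', Matrix.mul_assoc]
  have hQC : Q' * C = J₁ := by
    rw [hQ', Matrix.mul_assoc]
    exact hiso
  rw [e1]
  have e0 : (1 + Q * J₁ * P * Eᵀ) * J₂ * (1 + C * R * (J₁ * Q')) =
      J₂ + Q * (R * J₁ + J₁ * P + J₁ * P * J₁ * R * J₁) * Q' := by
    have t1 : Q * J₁ * P * Eᵀ * J₂ = Q * (J₁ * P) * Q' := by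
      rw [hQ']
      simp only [Matrix.mul_assoc]
    have t2 : J₂ * (C * R * (J₁ * Q')) = Q * (R * J₁) * Q' := by
      rw [hQ]
      simp only [Matrix.mul_assoc]
    have t3 : Q * (J₁ * P) * Q' * (C * R * (J₁ * Q')) = Q * (J₁ * P * J₁ * R * J₁) * Q' := by
      calc Q * (J₁ * P) * Q' * (C * R * (J₁ * Q')) = Q * (J₁ * P) * (Q' * C) * R * (J₁ * Q') := by
            simp only [Matrix.mul_assoc]
        _ = _ := by
            rw [hQC]
            simp only [Matrix.mul_assoc]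
    calc (1 + Q * J₁ * P * Eᵀ) * J₂ * (1 + C * R * (J₁ * Q'))
        = J₂ + J₂ * (C * R * (J₁ * Q')) + Q * J₁ * P * Eᵀ * J₂ +
            Q * J₁ * P * Eᵀ * J₂ * (C * R * (J₁ * Q')) := by
          simp only [Matrix.add_mul, Matrix.mul_add, Matrix.one_mul, Matrix.mul_one]
          abel
      _ = J₂ + Q * (R * J₁) * Q' + Q * (J₁ * P) * Q' + Q * (J₁ * P * J₁ * R * J₁) * Q' := by
          rw [t1, t2, t3]
      _ = _ := by
          simp only [Matrix.mul_add, Matrix.add_mul]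
          abel
  rw [e0, key2]
  simp

/-- The block homomorphism. -/
def bk (D : Dat σ J₁ J₂ E) : SUg σ J₁ →* SUg σ J₂ where
  toFun x := ⟨⟨bkM σ J₁ J₂ E x.1.1, by rw [D.det_bkM]; exact x.1.2⟩, D.isU_bkM x.2⟩
  map_one' := SUg_ext bkM_one
  map_mul' x y := SUg_ext (D.bkM_mul _ _)

lemma coe_bk (D : Dat σ J₁ J₂ E) (x : SUg σ J₁) : (bk D x).1.1 = bkM σ J₁ J₂ E x.1.1 := rfl

end Cfsg.Agent.Lib.SUStem.Bk
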