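import Cfsg.Agent.Lib.SUStem.Tools
import Cfsg.Agent.Lib.PresU.Conc

/-!
# Counts: the fixed field, the unipotent subgroup, the order of `GG`; the order of the kernel is prime to `p`
-/

set_option autoImplicit false
set_option linter.unusedSectionVars false
set_option linter.unusedVariables false
set_option linter.unusedSimpArgs false

namespace Cfsg.Agent.Lib.SUStem

open Cfsg Subgroup Matrix
open Cfsg.Agent.Lib.PresSU3 (GG qq tt ac nrm cstr_mul cstr_inv cstr_zero qq_mul qq_zero qq_inv qq_congr tt_qq cstr_tt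
  tt_mul tt_inv hσ_frob exists_gen_units)
open Cfsg.Agent.Lib.HermCount.Field

universe u

variable {F : Type u} [Field F] [Fintype F] {q : ℕ} (hF : Fintype.card F = q ^ 2)

include hF

/-- The number of elements of trace zero and of fixed elements. -/
theorem card_fix_anti : Nat.card {x : F // x ^ q = x} = q ∧ Nat.card {e : F // e + e ^ q = 0} = q := by
  classical
  have hq := two_le hF
  have hq0 : q ≠ 0 := by omega
  obtain ⟨θ, hθ⟩ := exists_frob_ne hF
  set σ := frobHom hF with hσ
  have hσσ : ∀ x, σ (σ x) = x := hσ_frob hF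
  have hθ' : σ θ ≠ θ := hθ
  set s := θ - σ θ with hs
  have hs0 : s ≠ 0 := sub_ne_zero.2 hθ'.symm
  have hss : s ^ q = -s := by
    change σ s = -s
    rw [hs, map_sub, hσσ]
    ring
  let τ : F →+ F :=
    { toFun := fun b => b + b ^ q
      map_zero' := by simp [hq0]
      map_add' := by
        intro a b
        rw [frob_add hF]
        ring }
  have hker : Nat.card τ.ker = Nat.card {e : F // e + e ^ q = 0} := rfl
  have hrange : Nat.card τ.range = Nat.card {x : F // x ^ q = x} := by
    refine Nat.card_congr ⟨fun x => ⟨x.1, ?_⟩, fun x => ⟨x.1, ?_⟩, fun x => rfl, fun x => rfl⟩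
    · obtain ⟨b, hb⟩ := x.2
      have : (x : F) = b + b ^ q := hb.symm
      rw [this, frob_add hF, frob_frob hF]
      ring
    · obtain ⟨b, hb⟩ := exists_trace hF x.1 x.2
      exact ⟨b, hb⟩
  have hbij : Nat.card {e : F // e + e ^ q = 0} = Nat.card {x : F // x ^ q = x} := by
    refine Nat.card_congr ⟨fun e => ⟨e.1 * s, ?_⟩, fun x => ⟨x.1 / s, ?_⟩, fun e => ?_, fun x => ?_⟩
    · rw [mul_pow, hss]
      have : (e : F) ^ q = -e := by linear_combination e.2
      rw [this]
      ring
    · rw [div_pow, hss, x.2]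
      field_simp
      ring
    · apply Subtype.ext
      simp only
      field_simp
    · apply Subtype.ext
      simp only
      field_simp
  have h1 : Nat.card F = Nat.card τ.range * Nat.card τ.ker := by
    rw [AddSubgroup.card_eq_card_quotient_mul_card_addSubgroup τ.ker,
      Nat.card_congr (QuotientAddGroup.quotientKerEquivRange τ).toEquiv]
  rw [hker, hrange, hbij, Nat.card_eq_fintype_card, hF, ← pow_two] at h1
  have h2 : q = Nat.card {x : F // x ^ q = x} := Nat.pow_left_injective (n := 2) (by norm_num) h1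
  rw [hbij]
  exact ⟨h2.symm, h2.symm⟩

theorem card_kF : Nat.card (Cfsg.Agent.Lib.PresU.kF hF) = q := by
  refine (Nat.card_congr ?_).trans (card_fix_anti hF).1
  exact ⟨fun x => ⟨x.1, x.2⟩, fun x => ⟨x.1, x.2⟩, fun x => rfl, fun x => rfl⟩

/-- The order of the special unitary group. -/
theorem card_SU3 : Nat.card (Cfsg.SU 3 F q) = q ^ 3 * ((q ^ 2 - 1) * (q ^ 3 + 1)) := by
  have h := Cfsg.Agent.Lib.Classical.HermOrders.card_SU hF 3 (by norm_num)
  have hq := two_le hF
  simp only [Finset.prod_range_succ, Finset.prod_range_zero, one_mul] at h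
  have e0 : Even 0 := by decide
  have e1 : ¬ Even 1 := by decide
  have e2 : Even 2 := by decide
  rw [if_pos e0, if_neg e1, if_pos e2] at h
  norm_num at h
  have h2 : (q + 1) * Nat.card (Cfsg.SU 3 F q) = (q + 1) * (q ^ 3 * ((q ^ 2 - 1) * (q ^ 3 + 1))) := by
    rw [h]
    ring
  exact Nat.eq_of_mul_eq_mul_left (by omega) h2

/-- The order of the special unitary group of the form with a Witt basis. -/
theorem card_GG : Nat.card (GG (frobHom hF)) = q ^ 3 * ((q ^ 2 - 1) * (q ^ 3 + 1)) := by
  obtain ⟨e⟩ := Cfsg.Agent.Lib.PresSU3.exists_iso hF (two_le hF)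
  rw [Nat.card_congr e.toEquiv, card_SU3 hF]

/-- The order of the unipotent subgroup. -/
theorem card_UU : Nat.card (UU (hσ_frob hF)) = q ^ 3 := by
  classical
  choose bb hbb using htr_frob hF
  set σ := frobHom hF with hσ
  have hσσ : ∀ x, σ (σ x) = x := hσ_frob hF
  have hc : ∀ (a : F) (e : {e : F // e + e ^ q = 0}), (bb a + e.1) + σ (bb a + e.1) + a * σ a = 0 := by
    intro a e
    have h1 := hbb a
    have h2 : (e : F) + σ e = 0 := e.2
    rw [map_add]
    linear_combination h1 + h2
  let f : F × {e : F // e + e ^ q = 0} → UU hσσ := fun x => ⟨qq hσσ x.1 (bb x.1 + x.2.1) (hc x.1 x.2), ⟨_, _, _, rfl⟩⟩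
  have hf : Function.Bijective f := by
    constructor
    · rintro ⟨a, e⟩ ⟨a', e'⟩ h
      have h1 : qq hσσ a (bb a + e.1) (hc a e) = qq hσσ a' (bb a' + e'.1) (hc a' e') := congrArg Subtype.val h
      obtain ⟨h2, h3⟩ := Cfsg.Agent.Lib.PresSU3.qq_inj hσσ h1
      subst h2
      have h4 : (e : F) = e' := add_left_cancel h3
      exact Prod.ext rfl (Subtype.ext h4)
    · rintro ⟨_, a, b, h, rfl⟩
      have h1 : (b - bb a) + (b - bb a) ^ q = 0 := by
        have h2 : (b - bb a) ^ q = σ (b - bb a) := rfl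
        rw [h2, map_sub]
        linear_combination h - hbb a
      refine ⟨(a, ⟨b - bb a, h1⟩), ?_⟩
      apply Subtype.ext
      change qq hσσ a (bb a + (b - bb a)) (hc a ⟨_, h1⟩) = qq hσσ a b h
      exact qq_congr hσσ _ rfl (by ring)
  rw [← Nat.card_congr (Equiv.ofBijective f hf), Nat.card_prod, Nat.card_eq_fintype_card, hF, (card_fix_anti hF).2]
  ring

/-- The index of the unipotent subgroup. -/
theorem index_UU (hq : 2 ≤ q) : (UU (hσ_frob hF)).index = (q ^ 2 - 1) * (q ^ 3 + 1) := by
  have h1 := (UU (hσ_frob hF)).card_mul_index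
  rw [card_UU, card_GG] at h1
  exact Nat.eq_of_mul_eq_mul_left (by positivity) h1

/-- The kernel has exponent dividing `(q² - 1)(q³ + 1)`, for `q ≥ 3`. -/
theorem pow_ker_GG (hq : 3 ≤ q) {Γ : Type*} [Group Γ] [Finite Γ] {π : Γ →* GG (frobHom hF)} (hπ : IsStemExtension π)
    {z : Γ} (hz : π z = 1) : z ^ ((q ^ 2 - 1) * (q ^ 3 + 1)) = 1 := by
  haveI : Finite (GG (frobHom hF)) := Finite.of_injective (fun g : GG (frobHom hF) => g.1.1)
    (fun _ _ h => Cfsg.Agent.Lib.PresSU3.GG_ext h)
  have h := pow_index_U hF hq hπ.2.1 hπ.1 hz (hπ.2.2 hz)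
  rwa [Subgroup.index_comap_of_surjective _ hπ.1, index_UU hF (by omega)] at h

end Cfsg.Agent.Lib.SUStem
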