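import Cfsg.Agent.Lib.SUStem.Ell2

/-!
# The cyclic torus of `PSU₃`
-/

set_option autoImplicit false
set_option linter.unusedSectionVars false
set_option linter.unusedVariables false
set_option linter.unusedSimpArgs false

namespace Cfsg.Agent.Lib.SUStem

open Cfsg Subgroup Matrix
open scoped commutatorElement

universe u

variable {F : Type u} [Field F] [Fintype F] {q : ℕ} (hF : Fintype.card F = q ^ 2)

include hF

/-- `SU₃` is perfect. -/
theorem perfect_SU3 (hq : 3 ≤ q) : commutator ↥(Cfsg.SU 3 F q) = ⊤ := by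
  have h1 := Cfsg.Agent.Lib.Classical.HermSimple.commutator_eq_top
    (Cfsg.Agent.Lib.Classical.HermBridge.hform hF 3) (Cfsg.Agent.Lib.Classical.HermBridge.invol_frob hF)
    (Cfsg.Agent.Lib.Classical.HermBridge.perfect_hyp hF (by norm_num) (by omega))
    (by rw [Module.finrank_fin_fun])
  exact Cfsg.Agent.Lib.Classical.SympSimple.commutator_eq_top_of_mulEquiv
    (Cfsg.Agent.Lib.Classical.HermBridge.suEquiv 3 q) h1

omit hF in
lemma gcd_dvd_cyc (q : ℕ) (hq : 1 ≤ q) : Nat.gcd 3 (q + 1) ∣ q ^ 2 - q + 1 := by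
  have h0 : q ≤ q ^ 2 := by nlinarith
  have hz : ((Nat.gcd 3 (q + 1) : ℕ) : ℤ) ∣ ((q ^ 2 - q + 1 : ℕ) : ℤ) := by
    have e : ((q ^ 2 - q + 1 : ℕ) : ℤ) = ((q : ℤ) + 1) * ((q : ℤ) - 2) + 3 := by
      push_cast [Nat.cast_sub h0]
      ring
    rw [e]
    have h1 : ((Nat.gcd 3 (q + 1) : ℕ) : ℤ) ∣ ((q + 1 : ℕ) : ℤ) := by exact_mod_cast Nat.gcd_dvd_right _ _
    have h2 : ((Nat.gcd 3 (q + 1) : ℕ) : ℤ) ∣ ((3 : ℕ) : ℤ) := by exact_mod_cast Nat.gcd_dvd_left _ _
    push_cast at h1 h2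
    exact dvd_add (h1.mul_right _) h2
  exact_mod_cast hz

/-- The transfer bound from the cyclic torus. -/
theorem pow_ker_Cyc (hq : 3 ≤ q) {Γ : Type*} [Group Γ] [Finite Γ] {π : Γ →* ↥(Cfsg.SU 3 F q)}
    (hπ : IsStemExtension π) {z : Γ} (hz : π z = 1) : z ^ (q ^ 3 * (q ^ 2 - 1) * (q + 1)) = 1 := by
  classical
  obtain ⟨p, hpc⟩ := CharP.exists F
  obtain ⟨n, hpp, hqn⟩ := FiniteField.card F p
  haveI : Fact p.Prime := ⟨hpp⟩
  haveI : Finite ↥(Cfsg.SU 3 F q) := Finite.of_injective (fun g => g.1.1) (fun a b h => Subtype.ext (Subtype.ext h))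
  obtain ⟨x, hx⟩ := Cfsg.Agent.Lib.Witt.SU3Tori.exists_order_four (p := p) hF
  have hper := perfect_SU3 hF hq
  let π₂ : Γ →* Cfsg.PSU 3 F q := (QuotientGroup.mk' (center ↥(Cfsg.SU 3 F q))).comp π
  have hπ₂ : Function.Surjective π₂ := (QuotientGroup.mk'_surjective _).comp hπ.1
  let H : Subgroup Γ := (zpowers x).comap π₂
  have hcen : ∀ a, π₂ a = 1 → a ∈ center Γ := by
    intro a ha
    apply lift_center hπ hper
    exact (QuotientGroup.eq_one_iff _).1 ha
  obtain ⟨c, hc⟩ := hπ₂ x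
  have hH : ∀ a ∈ H, ∃ (k : ℤ) (b : Γ), b ∈ center Γ ∧ a = c ^ k * b := by
    intro a ha
    obtain ⟨k, hk⟩ := Subgroup.mem_zpowers_iff.1 ha
    refine ⟨k, (c ^ k)⁻¹ * a, hcen _ ?_, by group⟩
    rw [map_mul, map_inv, map_zpow, hc, hk, inv_mul_cancel]
  have h1 : z ^ H.index = 1 := by
    refine pow_index_H (π := π) H (R := ⊥) ?_ ?_ hz (hπ.2.1 hz) (hπ.2.2 hz)
    · intro y hy _
      exact (Subgroup.mem_bot).1 hy
    · intro a ha b hb
      obtain ⟨k, u, hu, rfl⟩ := hH a ha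
      obtain ⟨l, v, hv, rfl⟩ := hH b hb
      rw [Subgroup.mem_bot, commutatorElement_eq_one_iff_commute]
      have hu' : ∀ y, y * u = u * y := fun y => mem_center_iff.1 hu y
      have hv' : ∀ y, y * v = v * y := fun y => mem_center_iff.1 hv y
      have h2 : Commute (c ^ k) (c ^ l) := (Commute.refl c).zpow_zpow k l
      exact Commute.mul_left (Commute.mul_right h2 (hv' (c ^ k))) (Commute.mul_right (hu' (c ^ l)).symm (hu' v).symm)
  have h2 : H.index = (zpowers x).index := Subgroup.index_comap_of_surjective _ hπ₂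
  have h3 : (zpowers x).index = q ^ 3 * (q ^ 2 - 1) * (q + 1) := by
    have h4 := (zpowers x).card_mul_index
    rw [Nat.card_zpowers, hx] at h4
    have h5 := Cfsg.Agent.Lib.Classical.HermOrders.card_PSU hF 3 (by norm_num)
    have e0 : Even 0 := by decide
    have e1 : ¬ Even 1 := by decide
    have e2 : Even 2 := by decide
    simp only [Finset.prod_range_succ, Finset.prod_range_zero, one_mul, e0, e1, e2, if_true, if_false] at h5
    rw [← h4] at h5
    have h6 : Nat.gcd 3 (q + 1) ∣ q ^ 2 - q + 1 := gcd_dvd_cyc q (by omega)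
    have h7 := Nat.div_mul_cancel h6
    have h8 := Cfsg.Agent.Lib.Witt.SU3Tori.cyc_mul_succ q (by omega)
    have h9 : 3 * (3 - 1) / 2 = 3 := by norm_num
    have h10 : q ^ (1 + 1) = q ^ 2 := rfl
    have h11 : q ^ (2 + 1) = q ^ 3 := rfl
    have h12 : q ^ (0 + 1) = q := by simp
    rw [h9, h10, h11, h12] at h5
    have hpos : 0 < (q ^ 2 - q + 1) * (q + 1) := by positivity
    refine Nat.eq_of_mul_eq_mul_right hpos ?_
    generalize hc : q ^ 2 - q + 1 = C at *
    generalize hi : (zpowers x).index = I at *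
    generalize hg : Nat.gcd 3 (q + 1) = g at *
    generalize hm : C / g = m at *
    rw [← h8] at h5
    subst h7
    nlinarith [h5]
  rwa [h2, h3] at h1

end Cfsg.Agent.Lib.SUStem
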