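import Cfsg.Agent.Lib.SUStem.Std
import Cfsg.Agent.Lib.Schur.SpStem.Sec
import Cfsg.Agent.S0242

/-!
# The stabiliser of an anisotropic line in `SU₃`
-/

set_option autoImplicit false
set_option linter.unusedSectionVars false
set_option linter.unusedVariables false
set_option linter.unusedSimpArgs false

namespace Cfsg.Agent.Lib.SUStem

open Cfsg Subgroup Matrix
open scoped commutatorElement
open Cfsg.Agent.Lib.PresSU3 (GG fw PP3 herm_P GG_ext)
open Cfsg.Agent.Lib.PresU (Inv Inc incM coe_Inc M2_det kF)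
open Cfsg.Agent.Lib.PresSp.M2 (M2)
open Cfsg.Agent.Lib.HermCount.Field
open Cfsg.Agent.Lib.Schur.SLnStem (comm_eq central_ker comm_ker)
open Cfsg.Agent.Lib.Schur.SpStem (conj_lift commute_lift)

universe u

section general

variable {Γ G : Type*} [Group Γ] [Group G] {π : Γ →* G}

/-- The transfer bound, for any subgroup of the extension. -/
theorem pow_index_H [Finite Γ] (H : Subgroup Γ) {R : Subgroup Γ}
    (hR1 : ∀ y ∈ R, π y = 1 → y = 1) (hR2 : ∀ x ∈ H, ∀ y ∈ H, ⁅x, y⁆ ∈ R) {z : Γ} (hz : π z = 1)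
    (hzc : z ∈ center Γ) (hz' : z ∈ commutator Γ) : z ^ H.index = 1 := by
  have h1 := Cfsg.Agent.Lib.Schur.Stem.pow_index_mem_commutator H hzc hz'
  have h2 : (commutator H).map H.subtype ≤ R := by
    rw [_root_.commutator_def, Subgroup.map_commutator, Subgroup.commutator_le]
    rintro _ ⟨x, -, rfl⟩ _ ⟨y, -, rfl⟩
    exact hR2 x x.2 y y.2
  exact hR1 _ (h2 h1) (by rw [map_pow, hz, one_pow])

/-- A stem extension of a perfect group is perfect. -/
theorem perfect_of_stem (hπ : IsStemExtension π) (hG : commutator G = ⊤) : commutator Γ = ⊤ := by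
  rw [eq_top_iff]
  intro g _
  have h1 : (commutator Γ).map π = commutator G := by
    rw [_root_.commutator_def, _root_.commutator_def, Subgroup.map_commutator, ← MonoidHom.range_eq_map,
      MonoidHom.range_eq_top.2 hπ.1]
  have h2 : π g ∈ (commutator Γ).map π := by
    rw [h1, hG]
    trivial
  obtain ⟨c, hc, e⟩ := h2
  have h3 : c⁻¹ * g ∈ commutator Γ := hπ.2.2 (by rw [MonoidHom.mem_ker, map_mul, map_inv, e, inv_mul_cancel])
  have h4 : g = c * (c⁻¹ * g) := by group
  rw [h4]
  exact mul_mem hc h3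

/-- A lift of a central element of a perfect group is central in a stem extension. -/
theorem lift_center (hπ : IsStemExtension π) (hG : commutator G = ⊤) {t : Γ} (ht : π t ∈ center G) : t ∈ center Γ := by
  rw [mem_center_iff]
  intro g
  have h1 := commute_lift hπ.2.1 (perfect_of_stem hπ hG) (MonoidHom.id Γ) t (fun k => by
    exact (mem_center_iff.1 ht (π k)).symm) g
  exact h1.symm

end general

section concrete

variable {F : Type u} [Field F] [Fintype F] {q : ℕ} (hF : Fintype.card F = q ^ 2)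

include hF

lemma prime_dvd_q {p : ℕ} [Fact p.Prime] [CharP F p] (hq : 2 ≤ q) : p ∣ q := by
  have hp : p.Prime := Fact.out
  obtain ⟨n, hpp, hqn⟩ := FiniteField.card F p
  have hdvd : q ∣ p ^ (n : ℕ) := by
    rw [← hqn, hF]
    exact dvd_pow_self q (by norm_num)
  obtain ⟨f, hf, rfl⟩ := (Nat.dvd_prime_pow hp).1 hdvd
  have hf0 : f ≠ 0 := by
    rintro rfl
    simp at hq
  exact dvd_pow_self p hf0

lemma coprime_m0 {p : ℕ} [Fact p.Prime] [CharP F p] (hq : 2 ≤ q) : Nat.Coprime p ((q ^ 2 - 1) * (q ^ 3 + 1)) := by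
  have hp : p.Prime := Fact.out
  have hd := prime_dvd_q hF (p := p) hq
  rw [Nat.Prime.coprime_iff_not_dvd hp]
  intro h
  rcases (Nat.Prime.dvd_mul hp).1 h with h | h
  · have h1 : p ∣ q ^ 2 := hd.trans (dvd_pow_self q (by norm_num))
    have h2 : p ∣ q ^ 2 - (q ^ 2 - 1) := Nat.dvd_sub h1 h
    have h3 : q ^ 2 - (q ^ 2 - 1) = 1 := by
      have : 1 ≤ q ^ 2 := Nat.one_le_pow _ _ (by omega)
      omega
    rw [h3] at h2
    exact hp.one_lt.ne' (Nat.dvd_one.1 h2)
  · have h1 : p ∣ q ^ 3 := hd.trans (dvd_pow_self q (by norm_num))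
    have h2 : p ∣ 1 := (Nat.dvd_add_right h1).1 h
    exact hp.one_lt.ne' (Nat.dvd_one.1 h2)

/-- The exponent of the kernel for the standard group. -/
theorem pow_ker_SU (hq : 3 ≤ q) {Γ : Type*} [Group Γ] [Finite Γ] {π : Γ →* ↥(Cfsg.SU 3 F q)} (hπ : IsStemExtension π)
    {z : Γ} (hz : π z = 1) : z ^ ((q ^ 2 - 1) * (q ^ 3 + 1)) = 1 := by
  obtain ⟨e⟩ := Cfsg.Agent.Lib.PresSU3.exists_iso hF (by omega)
  have h2 := Cfsg.Agent.Lib.Schur.SpStem.stem_comp hπ e.symm
  refine pow_ker_GG hF hq h2 ?_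
  change e.symm (π z) = 1
  rw [hz, map_one]

/-- The stabiliser is perfect. -/
theorem perfect_LL (hq : 4 ≤ q) : commutator (LL q F) = ⊤ := by
  classical
  haveI : Fintype (kF hF) := Fintype.ofFinite _
  obtain ⟨e⟩ := exists_equiv_LL hF (by omega)
  have hc : 4 ≤ Fintype.card (kF hF) := by
    rw [← Nat.card_eq_fintype_card, card_kF hF]
    exact hq
  have h1 := Cfsg.Agent.Lib.Schur.SpStem.sl2_perfect (F := kF hF) hc
  rw [eq_top_iff]
  intro x _
  have h2 : e.symm x ∈ commutator (M2 (kF hF)) := by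
    rw [h1]
    trivial
  have h3 : (commutator (M2 (kF hF))).map e.toMonoidHom = commutator (LL q F) := by
    rw [_root_.commutator_def, _root_.commutator_def, Subgroup.map_commutator, ← MonoidHom.range_eq_map,
      MonoidHom.range_eq_top.2 e.surjective]
  rw [← h3]
  exact ⟨_, h2, by simp⟩

/-- The central extension has a section over the stabiliser. -/
theorem exists_section_LL (hq : 4 ≤ q) {Γ : Type*} [Group Γ] [Finite Γ] {π : Γ →* ↥(Cfsg.SU 3 F q)}
    (hπ : IsStemExtension π) : ∃ ρ : LL q F →* Γ, ∀ l, π (ρ l) = l := by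
  classical
  haveI : Fintype (kF hF) := Fintype.ofFinite _
  obtain ⟨p, hpc⟩ := CharP.exists F
  obtain ⟨n, hpp, hqn⟩ := FiniteField.card F p
  haveI : Fact p.Prime := ⟨hpp⟩
  haveI : CharP (kF hF) p := (RingHom.charP_iff (kF hF).subtype (kF hF).subtype_injective p).2 hpc
  obtain ⟨e⟩ := exists_equiv_LL hF (by omega)
  have hper := perfect_LL hF hq
  obtain ⟨ρ, hρ⟩ := Cfsg.Agent.Lib.Schur.SpStem.exists_section_of_inj hπ.1 hπ.2.1 hper (ρ := (LL q F).subtype) (by
    intro z hz
    have hstem := Cfsg.Agent.Lib.Schur.SpStem.pull_stem (ρ := (LL q F).subtype) hπ.1 hπ.2.1 hper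
    have h2 := Cfsg.Agent.Lib.Schur.SpStem.stem_comp hstem e.symm
    -- the kernel has order prime to `p`
    have hker : ∀ y, (e.symm.toMonoidHom.comp (Cfsg.Agent.Lib.Schur.SpStem.pullF π (LL q F).subtype)) y = 1 →
        y ^ ((q ^ 2 - 1) * (q ^ 3 + 1)) = 1 := by
      intro y hy
      have h3 : Cfsg.Agent.Lib.Schur.SpStem.pullF π (LL q F).subtype y = 1 := by
        have h4 : e.symm (Cfsg.Agent.Lib.Schur.SpStem.pullF π (LL q F).subtype y) = 1 := hy
        exact (map_eq_one_iff e.symm e.symm.injective).1 h4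
      have h5 : π (Cfsg.Agent.Lib.Schur.SpStem.pullG π (LL q F).subtype y) = 1 := by
        rw [Cfsg.Agent.Lib.Schur.SpStem.pull_map, h3, map_one]
      have h6 := pow_ker_SU hF (by omega) hπ h5
      rw [← map_pow] at h6
      -- the pair determines the element
      apply Subtype.ext
      apply Subtype.ext
      apply Prod.ext
      · exact h6
      · have h7 : Cfsg.Agent.Lib.Schur.SpStem.pullF π (LL q F).subtype (y ^ ((q ^ 2 - 1) * (q ^ 3 + 1))) = 1 := by
          rw [map_pow, h3, one_pow]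
        exact h7
    have hcop := coprime_m0 hF (p := p) (by omega)
    refine Cfsg.Agent.Lib.SUStem.sl2_trivial_of_coprime h2 (p := p) ?_ ?_
    · intro y hy ho
      have h3 := orderOf_dvd_of_pow_eq_one (hker y hy)
      rw [ho] at h3
      exact (Fact.out : p.Prime).one_lt.ne' (Nat.dvd_one.1 (by simpa [Nat.Coprime, Nat.gcd_eq_left h3] using hcop))
    · change e.symm (Cfsg.Agent.Lib.Schur.SpStem.pullF π (LL q F).subtype z) = 1
      rw [hz, map_one])
  exact ⟨ρ, hρ⟩

end concrete

end Cfsg.Agent.Lib.SUStem
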