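import Cfsg.Agent.Lib.SUStem.Ell
import Cfsg.Agent.Lib.Witt.SU3Tori

/-!
# The stabiliser of an anisotropic line in `SU₃`: the order, the bound for the kernel
-/

set_option autoImplicit false
set_option linter.unusedSectionVars false
set_option linter.unusedVariables false
set_option linter.unusedSimpArgs false

namespace Cfsg.Agent.Lib.SUStem

open Cfsg Subgroup Matrix
open scoped commutatorElement
open Cfsg.Agent.Lib.PresU (kF)
open Cfsg.Agent.Lib.PresSp.M2 (M2)
open Cfsg.Agent.Lib.HermCount.Field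

universe u

variable {F : Type u} [Field F] [Fintype F] {q : ℕ}

/-- Diagonal elements. -/
def dg (d : Fin 3 → F) (hn : ∀ i, d i ^ (q + 1) = 1) (hdet : d 0 * d 1 * d 2 = 1) : ↥(Cfsg.SU 3 F q) :=
  ⟨⟨diagonal d, by rw [det_diagonal, Fin.prod_univ_three]; exact hdet⟩, by
    intro u v
    change hermForm 3 F q (diagonal d *ᵥ u) (diagonal d *ᵥ v) = hermForm 3 F q u v
    simp only [hermForm, mulVec_diagonal]
    refine Finset.sum_congr rfl fun i _ => ?_
    have h := hn i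
    rw [pow_succ] at h
    rw [mul_pow]
    linear_combination (u i * v i ^ q) * h⟩

lemma coe_dg (d : Fin 3 → F) (hn : ∀ i, d i ^ (q + 1) = 1) (hdet : d 0 * d 1 * d 2 = 1) :
    (dg (q := q) d hn hdet).1.1 = diagonal d := rfl

/-- The stabiliser of the line spanned by the last basis vector. -/
def XX (q : ℕ) (F : Type u) [Field F] : Subgroup ↥(Cfsg.SU 3 F q) where
  carrier := {g | ∃ a : Fˣ, g.1.1 *ᵥ Pi.single 2 1 = (a : F) • Pi.single 2 1}
  mul_mem' := by
    rintro x y ⟨a, ha⟩ ⟨b, hb⟩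
    refine ⟨a * b, ?_⟩
    change (x.1.1 * y.1.1) *ᵥ _ = _
    rw [← mulVec_mulVec, hb, mulVec_smul, ha, smul_smul, Units.val_mul, mul_comm]
  one_mem' := ⟨1, by
    change (1 : Matrix (Fin 3) (Fin 3) F) *ᵥ _ = _
    rw [one_mulVec, Units.val_one, one_smul]⟩
  inv_mem' := by
    rintro x ⟨a, ha⟩
    refine ⟨a⁻¹, ?_⟩
    have h1 : (x⁻¹).1.1 * x.1.1 = 1 := congrArg (fun g : ↥(Cfsg.SU 3 F q) => g.1.1) (inv_mul_cancel x)
    have h2 : (Pi.single 2 1 : Fin 3 → F) = (a : F) • ((x⁻¹).1.1 *ᵥ Pi.single 2 1) := by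
      have h3 : (x⁻¹).1.1 *ᵥ (x.1.1 *ᵥ (Pi.single 2 1 : Fin 3 → F)) = Pi.single 2 1 := by
        rw [mulVec_mulVec, h1, one_mulVec]
      rw [ha, mulVec_smul] at h3
      exact h3.symm
    change (x⁻¹).1.1 *ᵥ _ = _
    calc (x⁻¹).1.1 *ᵥ (Pi.single 2 1 : Fin 3 → F)
        = ((a⁻¹ : Fˣ) : F) • ((a : F) • ((x⁻¹).1.1 *ᵥ Pi.single 2 1)) := by
          rw [smul_smul]
          simp
      _ = ((a⁻¹ : Fˣ) : F) • Pi.single 2 1 := by rw [← h2]

lemma LL_le_XX : LL q F ≤ XX q F := by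
  intro g hg
  refine ⟨1, ?_⟩
  have h : g.1.1 *ᵥ Pi.single 2 1 = Pi.single 2 1 := hg
  rw [h]
  simp

lemma unit_uniq {a b : Fˣ} (h : (a : F) • (Pi.single 2 1 : Fin 3 → F) = (b : F) • Pi.single 2 1) : a = b := by
  apply Units.ext
  have := congrFun h 2
  simpa using this

/-- The eigenvalue on the last basis vector. -/
noncomputable def chiF (g : XX q F) : Fˣ := Classical.choose g.2

lemma chi_spec (g : XX q F) : g.1.1.1 *ᵥ Pi.single 2 1 = (chiF g : F) • Pi.single 2 1 := Classical.choose_spec g.2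

/-- The eigenvalue on the last basis vector, as a homomorphism. -/
noncomputable def chi : XX q F →* Fˣ :=
  MonoidHom.mk' chiF (by
    intro x y
    apply unit_uniq
    rw [← chi_spec]
    change (x.1.1.1 * y.1.1.1) *ᵥ _ = _
    rw [← mulVec_mulVec, chi_spec, mulVec_smul, chi_spec, smul_smul, Units.val_mul, mul_comm])

lemma chi_apply (g : XX q F) : g.1.1.1 *ᵥ Pi.single 2 1 = (chi g : F) • Pi.single 2 1 := chi_spec g

variable (hF : Fintype.card F = q ^ 2)

include hF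

/-- The eigenvalues have norm one. -/
lemma chi_norm (g : XX q F) : (chi g : F) ^ (q + 1) = 1 := by
  have hg := g.1.2 (Pi.single 2 1) (Pi.single 2 1)
  change hermForm 3 F q (g.1.1.1 *ᵥ Pi.single 2 1) (g.1.1.1 *ᵥ Pi.single 2 1) = hermForm 3 F q _ _ at hg
  rw [chi_apply] at hg
  have hq := two_le hF
  simp only [hermForm, Fin.sum_univ_three] at hg
  simp [Pi.single_apply, (by omega : q ≠ 0)] at hg
  rw [pow_succ, mul_comm]
  exact hg

/-- The number of eigenvalues. -/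
lemma card_range_chi : Nat.card (chi (q := q) (F := F)).range = q + 1 := by
  rw [← card_norm_fiber hF 1 (one_pow q) one_ne_zero]
  refine Nat.card_congr (Equiv.ofBijective (fun x => ⟨((x : Fˣ) : F), ?_⟩) ⟨?_, ?_⟩)
  · obtain ⟨x, hx⟩ := x
    obtain ⟨g, rfl⟩ := hx
    exact chi_norm hF g
  · rintro ⟨x, hx⟩ ⟨y, hy⟩ h
    exact Subtype.ext (Units.ext (congrArg Subtype.val h))
  · rintro ⟨a, ha⟩
    have ha0 : a ≠ 0 := by
      rintro rfl
      simp at ha
    let d : Fin 3 → F := ![1, a⁻¹, a]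
    have hd : ∀ i, d i ^ (q + 1) = 1 := by
      intro i
      fin_cases i
      · simp [d]
      · simp [d, inv_pow, ha]
      · simpa [d] using ha
    have hdet : d 0 * d 1 * d 2 = 1 := by
      simp [d, ha0]
    let g : XX q F := ⟨dg d hd hdet, ⟨Units.mk0 a ha0, by
      rw [coe_dg, mulVec_single_one]
      ext i
      fin_cases i <;> simp [d, Pi.single_apply]⟩⟩
    have h1 : chi g = Units.mk0 a ha0 := by
      apply unit_uniq
      rw [← chi_apply]
      change diagonal d *ᵥ _ = _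
      rw [mulVec_single_one]
      ext i
      fin_cases i <;> simp [d, Pi.single_apply]
    refine ⟨⟨_, ⟨g, rfl⟩⟩, ?_⟩
    apply Subtype.ext
    change ((chi g : Fˣ) : F) = a
    rw [h1]
    rfl

/-- The order of the stabiliser of a vector. -/
lemma card_LL (hq : 2 ≤ q) : Nat.card (LL q F) = q * (q ^ 2 - 1) := by
  classical
  haveI : Fintype (kF hF) := Fintype.ofFinite _
  obtain ⟨e⟩ := exists_equiv_LL hF hq
  rw [← Nat.card_congr e.toEquiv]
  have hk : Fintype.card (kF hF) = q := by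
    rw [← Nat.card_eq_fintype_card, card_kF hF]
  have h := Cfsg.Agent.S0242.result (F := kF hF) hk 2 (by norm_num)
  rw [Fin.prod_univ_two] at h
  simp only [Fin.val_zero, Fin.val_one, pow_zero, pow_one] at h
  have e1 : q ^ 2 - q = (q - 1) * q := by
    obtain ⟨r, rfl⟩ : ∃ r, q = r + 1 := ⟨q - 1, by omega⟩
    simp only [Nat.add_sub_cancel]
    have : (r + 1) ^ 2 = r * (r + 1) + (r + 1) := by ring
    omega
  rw [e1] at h
  have h2 : (q - 1) * Nat.card (Matrix.SpecialLinearGroup (Fin 2) (kF hF)) = (q - 1) * (q * (q ^ 2 - 1)) := by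
    rw [h]
    ring
  exact Nat.eq_of_mul_eq_mul_left (by omega) h2

/-- The order of the stabiliser of the line. -/
lemma card_XX (hq : 2 ≤ q) : Nat.card (XX q F) = q * (q ^ 2 - 1) * (q + 1) := by
  have h1 := Subgroup.card_eq_card_quotient_mul_card_subgroup (chi (q := q) (F := F)).ker
  rw [Nat.card_congr (QuotientGroup.quotientKerEquivRange (chi (q := q) (F := F))).toEquiv, card_range_chi hF] at h1
  have h2 : Nat.card (chi (q := q) (F := F)).ker = Nat.card (LL q F) := by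
    refine Nat.card_congr ⟨fun x => ⟨x.1.1, ?_⟩, fun x => ⟨⟨x.1, LL_le_XX x.2⟩, ?_⟩, fun x => rfl, fun x => rfl⟩
    · have h3 : chi x.1 = 1 := x.2
      have h4 := chi_apply x.1
      rw [h3] at h4
      simpa [LL] using h4
    · apply unit_uniq
      rw [← chi_apply]
      have h4 : x.1.1.1 *ᵥ Pi.single 2 1 = Pi.single 2 1 := x.2
      change _ *ᵥ _ = _
      rw [h4]
      simp
  rw [h2, card_LL hF hq] at h1
  rw [h1]
  ring

/-- The index of the stabiliser of the line. -/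
lemma index_XX (hq : 2 ≤ q) : (XX q F).index = q ^ 2 * (q ^ 2 - q + 1) := by
  have h1 := (XX q F).card_mul_index
  rw [card_XX hF hq, card_SU3 hF] at h1
  have h2 := Cfsg.Agent.Lib.Witt.SU3Tori.cyc_mul_succ q (by omega)
  have hp : 0 < q * (q ^ 2 - 1) * (q + 1) := by
    have : 1 < q ^ 2 := by nlinarith
    have h3 : 0 < q ^ 2 - 1 := by omega
    positivity
  refine Nat.eq_of_mul_eq_mul_left hp ?_
  rw [h1, ← h2]
  ring

/-- The bound for the kernel from the stabiliser of the line. -/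
theorem pow_ker_XX (hq : 4 ≤ q) {Γ : Type*} [Group Γ] [Finite Γ] {π : Γ →* ↥(Cfsg.SU 3 F q)} (hπ : IsStemExtension π)
    {z : Γ} (hz : π z = 1) : z ^ (q ^ 2 * (q ^ 2 - q + 1)) = 1 := by
  classical
  obtain ⟨ρ, hρ⟩ := exists_section_LL hF hq hπ
  have hper := perfect_LL hF hq
  haveI : Finite ↥(Cfsg.SU 3 F q) := Finite.of_injective (fun g => g.1.1) (fun a b h => Subtype.ext (Subtype.ext h))
  rw [← index_XX hF (by omega)]
  -- the generator
  obtain ⟨g₀, hg₀⟩ := IsCyclic.exists_generator (α := (chi (q := q) (F := F)).range)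
  obtain ⟨h, hh⟩ := g₀.2
  have hnorm : ∀ g ∈ XX q F, ∀ l ∈ LL q F, g * l * g⁻¹ ∈ LL q F := by
    intro g hg l hl
    let g' : XX q F := ⟨g, hg⟩
    have h1 : g.1.1 *ᵥ Pi.single 2 1 = (chi g' : F) • Pi.single 2 1 := chi_apply g'
    have h2 : l.1.1 *ᵥ Pi.single 2 1 = Pi.single 2 1 := hl
    have h3 : (g⁻¹).1.1 * g.1.1 = 1 := congrArg (fun g : ↥(Cfsg.SU 3 F q) => g.1.1) (inv_mul_cancel g)
    have h4 : (g⁻¹).1.1 *ᵥ Pi.single 2 1 = ((chi g' : F))⁻¹ • Pi.single 2 1 := by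
      have h5 : (Pi.single 2 1 : Fin 3 → F) = (chi g' : F) • ((g⁻¹).1.1 *ᵥ Pi.single 2 1) := by
        have h6 : (g⁻¹).1.1 *ᵥ (g.1.1 *ᵥ (Pi.single 2 1 : Fin 3 → F)) = Pi.single 2 1 := by
          rw [mulVec_mulVec, h3, one_mulVec]
        rw [h1, mulVec_smul] at h6
        exact h6.symm
      calc (g⁻¹).1.1 *ᵥ (Pi.single 2 1 : Fin 3 → F)
          = ((chi g' : F))⁻¹ • ((chi g' : F) • ((g⁻¹).1.1 *ᵥ Pi.single 2 1)) := by
            rw [smul_smul, inv_mul_cancel₀ (Units.ne_zero _), one_smul]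
        _ = _ := by rw [← h5]
    change (g.1.1 * l.1.1 * (g⁻¹).1.1) *ᵥ _ = _
    rw [← mulVec_mulVec, h4, mulVec_smul, ← mulVec_mulVec, h2, h1, smul_smul]
    simp
  have hdec : ∀ x ∈ XX q F, ∃ (n : ℕ) (l : ↥(Cfsg.SU 3 F q)), l ∈ LL q F ∧ x = l * (h : ↥(Cfsg.SU 3 F q)) ^ n := by
    intro x hx
    let x' : XX q F := ⟨x, hx⟩
    have h1 : (⟨chi x', ⟨x', rfl⟩⟩ : (chi (q := q) (F := F)).range) ∈ Submonoid.powers g₀ := by
      rw [mem_powers_iff_mem_zpowers]
      exact hg₀ _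
    obtain ⟨n, hn⟩ := h1
    have h2 : chi (x' * (h ^ n)⁻¹) = 1 := by
      rw [map_mul, map_inv, map_pow, hh]
      have h3 := congrArg Subtype.val hn
      simp only [SubmonoidClass.coe_pow] at h3
      rw [h3]
      simp
    refine ⟨n, (x' * (h ^ n)⁻¹ : XX q F).1, ?_, ?_⟩
    · have h4 := chi_apply (x' * (h ^ n)⁻¹)
      rw [h2] at h4
      simpa [LL] using h4
    · change x = (x * ((h ^ n)⁻¹ : XX q F).1) * ((h : ↥(Cfsg.SU 3 F q)) ^ n)
      simp
  refine pow_index_of hπ (XX q F) (R := ρ.range) ?_ ?_ hz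
  · rintro _ ⟨l, rfl⟩ hy
    rw [hρ] at hy
    have hl : l = 1 := Subtype.ext hy
    rw [hl, map_one]
  · intro x hx y hy
    exact comm_mem_of_top hπ.2.1 hπ.1 hper hρ hnorm h.2 hdec hx hy

end Cfsg.Agent.Lib.SUStem
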