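import Cfsg.Agent.Lib.SUStem.ORelD
import Cfsg.Agent.Lib.Classical.HermBridge
import Cfsg.Agent.Lib.Schur.SpStem.Q4

/-!
# Stem extensions of `SU_{2n+1}(q)`, `n ≥ 2`, `q ≥ 3`, are trivial if those of `SU₃(q)` are
-/

set_option autoImplicit false
set_option linter.unusedSectionVars false
set_option linter.unusedVariables false
set_option linter.unusedSimpArgs false
set_option linter.style.haveILetI false

namespace Cfsg.Agent.Lib.SUStem

open Cfsg Subgroup Matrix
open scoped commutatorElement MatrixGroups IsMulCommutative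
open Cfsg.Agent.Lib.PresU Cfsg.Agent.Lib.HermCount.Field
open Cfsg.Agent.Lib.PresSp.M2 Cfsg.Agent.Lib.PresSp.Mono Cfsg.Agent.Lib.PresSLn.TwoGen
open Cfsg.Agent.Lib.PresSU3 (GG SUw fw qq ww GG_ext coe_qq coe_ww uM wM tM cstr_mul cstr_inv cstr_zero qq_mul qq_zero
  qq_inv qq_congr qq_inj ww_sq ww_inv mem_SUw)
open Cfsg.Agent.Lib.Schur.SpStem (cdg ev1 ev1_self ev1_ne dgM dgM_mul_inv dgM_inv_mul coe_cdg cdg_T conj_lift commute_lift
  comm_of_scale trivial_of_scale comm_mul_right)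
open Cfsg.Agent.Lib.Schur.SLnStem (comm_eq comm_ker)

local notation "ttG" => Cfsg.Agent.Lib.PresSU3.tt

section triv

variable {ι : Type*} [Fintype ι] [DecidableEq ι] {K : Type*} [Field K] {k : Type*} [Field k]
  {σ : K →+* K} {j : k →+* K} {a b : ι}
  [Finite K] [Finite k] {Γ : Type*} [Group Γ] {π : Γ →* GO σ ι}
  {I : Inv σ j} {s : K} {hs : s ≠ 0} {hss : σ s = -s}
  {lam : SpecialLinearGroup ι K →* Γ} {M : GG σ →* Γ} {hab : a ≠ b} {ζ : Kˣ} {θ b₁ b₂ : K}
  {h₁ : b₁ + σ b₁ + 1 * σ 1 = 0} {h₂ : b₂ + σ b₂ + θ * σ θ = 0}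

/-- The matrix of an element of the target group. -/
def matO (σ : K →+* K) (ι : Type*) [Fintype ι] [DecidableEq ι] : GO σ ι →* Matrix (Io ι) (Io ι) K where
  toFun g := g.1.1
  map_one' := rfl
  map_mul' _ _ := rfl

/-- The relations imply that a stem extension is trivial. -/
theorem trivial_of_hypD (hπ : IsStemExtension π) (H : OHyp0 I hs hss lam M hab ζ h₁ h₂)
    (hlam : ∀ l, π (lam l) = lvO I.invol l) (hM : ∀ g, π (M g) = MS b g)
    (hgen : Subgroup.closure (Set.range (lvO (σ := σ) (ι := ι) I.invol) ∪ Set.range (MS (σ := σ) b)) = ⊤)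
    {z : Γ} (hz : π z = 1) : z = 1 := by
  let S : Subgroup Γ := Subgroup.closure (Set.range lam ∪ Set.range M)
  have hlS : ∀ l, lam l ∈ S := fun l => Subgroup.subset_closure (Or.inl ⟨l, rfl⟩)
  have hmS : ∀ g, M g ∈ S := fun g => Subgroup.subset_closure (Or.inr ⟨g, rfl⟩)
  let lam' : SpecialLinearGroup ι K →* S := lam.codRestrict S hlS
  let M' : GG σ →* S := M.codRestrict S hmS
  have H' : OHyp0 I hs hss lam' M' hab ζ h₁ h₂ :=
    { gen := H.gen
      genk := H.genk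
      hθ := H.hθ
      theta := fun l h1 h2 g => Subtype.ext (H.theta l h1 h2 g)
      tw := fun g => Subtype.ext (H.tw g)
      f6 := fun g => Subtype.ext (H.f6 g)
      wa := fun g => Subtype.ext (H.wa g)
      r2 := Subtype.ext H.r2
      r4 := Subtype.ext H.r4
      r8 := Subtype.ext H.r8
      r11 := Subtype.ext H.r11
      f5₁ := Subtype.ext H.f5₁
      f5₂ := Subtype.ext H.f5₂
      f2₁ := Subtype.ext H.f2₁
      f2₂ := Subtype.ext H.f2₂
      f1₁ := Subtype.ext H.f1₁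
      f1₂ := Subtype.ext H.f1₂
      ssA := Subtype.ext H.ssA
      ssB := Subtype.ext H.ssB }
  let φ₀ : S →* GO σ ι := π.comp S.subtype
  let φ : S →* Matrix (Io ι) (Io ι) K := (matO σ ι).comp φ₀
  have h1 : ∀ l, φ (lam' l) = levO σ l := by
    intro l
    change (π (lam l)).1.1 = _
    rw [hlam]
    rfl
  have h2 : ∀ g, φ (M' g) = MOm b g.1.1 := by
    intro g
    change (π (M g)).1.1 = _
    rw [hM]
    rfl
  have hgen' : Subgroup.closure (Set.range lam' ∪ Set.range M') = ⊤ := by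
    have h := Subgroup.closure_closure_coe_preimage (k := Set.range lam ∪ Set.range M)
    rw [← h]
    congr 1
    ext x
    constructor
    · rintro (⟨l, rfl⟩ | ⟨g, rfl⟩)
      · exact Or.inl ⟨l, rfl⟩
      · exact Or.inr ⟨g, rfl⟩
    · rintro (⟨l, hl⟩ | ⟨g, hg⟩)
      · exact Or.inl ⟨l, Subtype.ext hl⟩
      · exact Or.inr ⟨g, Subtype.ext hg⟩
  have hinj : Function.Injective φ := H'.injectiveO φ h1 h2 hgen'
  have htop : φ₀.range = ⊤ := by
    rw [eq_top_iff, ← hgen, Subgroup.closure_le]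
    rintro _ (⟨l, rfl⟩ | ⟨g, rfl⟩)
    · exact ⟨lam' l, hlam l⟩
    · exact ⟨M' g, hM g⟩
  have hle := Cfsg.Agent.Lib.Schur.SLnStem.commutator_le_range_of_central (σ := π) hπ.2.1 S.subtype (fun g => by
    have h1 : π g ∈ φ₀.range := by rw [htop]; trivial
    exact h1)
  obtain ⟨q, hq⟩ := hle (hπ.2.2 hz)
  have h3 : φ q = 1 := by
    change (π (q : Γ)).1.1 = 1
    have h4 : (q : Γ) = z := hq
    rw [h4, hz]
    rfl
  have h4 : q = 1 := hinj (by rw [h3, map_one])
  rw [← show (q : Γ) = z from hq, h4]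
  rfl

end triv

section sq

variable {Γ G F : Type*} [Group Γ] [Group G] [Field F] {π : Γ →* G}

/-- Lifts of elements of a commutative one-parameter group commute, if all the scalars act and `-1` is a square. -/
theorem comm_same_sq (hcen : π.ker ≤ center Γ) (hs : Function.Surjective π) {g : F → G}
    (hg : ∀ x y, g (x + y) = g x * g y) (hcm : ∀ x y, g x * g y = g y * g x)
    (hsc : ∀ u : F, u ≠ 0 → ∃ d : G, ∀ z, d * g z * d⁻¹ = g (u * z))
    {i : F} (hi : i * i = -1) (hi2 : 1 + i ≠ 0) {e e' : F} {D C : Γ}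
    (hD : π D = g e') (hC : π C = g e) : D * C = C * D := by
  let L : G → Γ := Function.surjInv hs
  have hL : ∀ x, π (L x) = x := Function.surjInv_eq hs
  have hCen : ∀ x y, ⁅L (g x), L (g y)⁆ ∈ center Γ := fun x y =>
    hcen (comm_ker (by rw [hL, hL]; exact hcm x y))
  let c : F → F → center Γ := fun x y => ⟨⁅L (g x), L (g y)⁆, hCen x y⟩
  suffices hc : c e' e = 1 by
    have h1 : ⁅D, C⁆ = 1 := by
      rw [comm_eq hcen (a' := L (g e')) (b' := L (g e)) (by rw [hD, hL]) (by rw [hC, hL])]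
      exact congrArg Subtype.val hc
    exact commutatorElement_eq_one_iff_mul_comm.1 h1
  refine Cfsg.Agent.Lib.Schur.SpStem.bilin_trivial (c := c) ?_ ?_ ?_ hi hi2 e' e
  · intro x x' y
    apply Subtype.ext
    show ⁅L (g (x + x')), L (g y)⁆ = ⁅L (g x), L (g y)⁆ * ⁅L (g x'), L (g y)⁆
    have h1 : ⁅L (g (x + x')), L (g y)⁆ = ⁅L (g x) * L (g x'), L (g y)⁆ :=
      comm_eq hcen (by rw [map_mul, hL, hL, hL, hg]) rfl
    rw [h1]
    have h2 : ⁅L (g x) * L (g x'), L (g y)⁆ =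
        L (g x) * ⁅L (g x'), L (g y)⁆ * (L (g x))⁻¹ * ⁅L (g x), L (g y)⁆ := by
      simp only [commutatorElement_def]
      group
    rw [h2, mem_center_iff.1 (hCen x' y) (L (g x)), mul_inv_cancel_right]
    exact mem_center_iff.1 (hCen x y) _
  · intro x y y'
    apply Subtype.ext
    show ⁅L (g x), L (g (y + y'))⁆ = ⁅L (g x), L (g y)⁆ * ⁅L (g x), L (g y')⁆
    have h1 : ⁅L (g x), L (g (y + y'))⁆ = ⁅L (g x), L (g y) * L (g y')⁆ :=
      comm_eq hcen rfl (by rw [map_mul, hL, hL, hL, hg])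
    rw [h1]
    exact comm_mul_right hcen (by rw [hL, hL]; exact hcm _ _)
  · intro u hu x y
    apply Subtype.ext
    show ⁅L (g (u * x)), L (g (u * y))⁆ = ⁅L (g x), L (g y)⁆
    obtain ⟨d, hd⟩ := hsc u hu
    obtain ⟨E, hE⟩ := hs d
    have hU : ∀ z, π (E * L (g z) * E⁻¹) = g (u * z) := by
      intro z
      rw [map_mul, map_mul, map_inv, hE, hL, hd]
    have e1 : ⁅L (g (u * x)), L (g (u * y))⁆ =
        ⁅E * L (g x) * E⁻¹, E * L (g y) * E⁻¹⁆ := comm_eq hcen (by rw [hL, hU]) (by rw [hL, hU])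
    have h5 : ⁅E * L (g x) * E⁻¹, E * L (g y) * E⁻¹⁆ = E * ⁅L (g x), L (g y)⁆ * E⁻¹ := by
      simp only [commutatorElement_def]
      group
    rw [e1, h5, mem_center_iff.1 (hCen x y) E, mul_inv_cancel_right]

end sq

section main

universe u

variable {F : Type u} [Field F] [Fintype F] {q : ℕ} (hF : Fintype.card F = q ^ 2)

include hF

/-- `SU₃(q)` is perfect for `q ≥ 3`. -/
theorem GG_perfect (hq : 3 ≤ q) : commutator (GG (frobHom hF)) = ⊤ := by
  obtain ⟨e⟩ := Cfsg.Agent.Lib.PresSU3.exists_iso hF (two_le hF)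
  refine Cfsg.Agent.Lib.Classical.SympSimple.commutator_eq_top_of_mulEquiv e ?_
  have h : ¬ (3 = 3 ∧ q = 2) := by omega
  exact Cfsg.Agent.Lib.Classical.SympSimple.commutator_eq_top_of_mulEquiv
    (Cfsg.Agent.Lib.Classical.HermBridge.suEquiv 3 q)
    (Cfsg.Agent.Lib.Classical.HermSimple.commutator_eq_top (Cfsg.Agent.Lib.Classical.HermBridge.hform hF 3)
      (Cfsg.Agent.Lib.Classical.HermBridge.invol_frob hF) (Cfsg.Agent.Lib.Classical.HermBridge.perfect_hyp hF (le_refl 3) h)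
      (by rw [Module.finrank_fin_fun]))

/-- The torus element of the target scales the root elements of the Levi subgroup. -/
lemma lvO_scale {ι : Type*} [Fintype ι] [DecidableEq ι] {a b : ι} (hab : a ≠ b) (u : F) (hu : u ≠ 0) :
    ∃ d : GO (frobHom hF) ι, ∀ z, d * lvO (Cfsg.Agent.Lib.PresSU3.hσ_frob hF) (TT hab z) * d⁻¹ =
      lvO (Cfsg.Agent.Lib.PresSU3.hσ_frob hF) (TT hab (u * z)) := by
  refine ⟨MS a (ttG (Cfsg.Agent.Lib.PresSU3.hσ_frob hF) (Units.mk0 u hu)), fun z => ?_⟩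
  rw [MS_tt_lv, cdg_T, ev1_self, ev1_ne hab.symm]
  congr 2
  simp

/-- The section over the Levi subgroup. -/
theorem exists_lamO (hq : 3 ≤ q) {m : ℕ} (hm : 2 ≤ m) {Γ : Type u} [Group Γ] [Finite Γ]
    {π : Γ →* GO (frobHom hF) (Fin m)} (hcen : π.ker ≤ center Γ) (hs : Function.Surjective π) :
    ∃ lam : SpecialLinearGroup (Fin m) F →* Γ, ∀ l, π (lam l) = lvO (Cfsg.Agent.Lib.PresSU3.hσ_frob hF) l := by
  have hq2 : 9 ≤ q ^ 2 := by nlinarith
  by_cases h2 : m = 2
  · subst h2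
    have hK := Cfsg.Agent.Lib.Schur.SpStem.sl2_perfect (F := F) (by omega)
    by_cases h9 : Fintype.card F = 9
    · have hab : (0 : Fin 2) ≠ 1 := by decide
      refine Cfsg.Agent.Lib.Schur.SpStem.exists_section_of_inj hs hcen hK ?_
      intro z hz
      have hstem := Cfsg.Agent.Lib.Schur.SpStem.pull_stem (ρ := lvO (Cfsg.Agent.Lib.PresSU3.hσ_frob hF)) hs hcen hK
      refine Cfsg.Agent.Lib.Schur.SpStem.sl2_trivial_of_comm hstem ?_ hz
      intro x y hx hy
      obtain ⟨t, ht⟩ := Cfsg.Agent.Lib.Classical.SL2Sylow.mem_US_iff.1 hx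
      obtain ⟨t', ht'⟩ := Cfsg.Agent.Lib.Classical.SL2Sylow.mem_US_iff.1 hy
      have h1 : π (Cfsg.Agent.Lib.Schur.SpStem.pullG π (lvO (Cfsg.Agent.Lib.PresSU3.hσ_frob hF)) x) =
          lvO (Cfsg.Agent.Lib.PresSU3.hσ_frob hF) (TT hab t) := by
        rw [Cfsg.Agent.Lib.Schur.SpStem.pull_map, ← ht, Cfsg.Agent.Lib.Schur.SpStem.upS_eq_TT]
      have h2 : π (Cfsg.Agent.Lib.Schur.SpStem.pullG π (lvO (Cfsg.Agent.Lib.PresSU3.hσ_frob hF)) y) =
          lvO (Cfsg.Agent.Lib.PresSU3.hσ_frob hF) (TT hab t') := by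
        rw [Cfsg.Agent.Lib.Schur.SpStem.pull_map, ← ht', Cfsg.Agent.Lib.Schur.SpStem.upS_eq_TT]
      have hsq : IsSquare (-1 : F) := FiniteField.isSquare_neg_one_iff.2 (by rw [h9]; norm_num)
      obtain ⟨i, hi⟩ := hsq
      have hi2 : 1 + i ≠ 0 := by
        intro h
        have h1 : i = -1 := by linear_combination h
        rw [h1] at hi
        have h3 : (2 : F) = 0 := by
          have : (-1 : F) = 1 := by
            rw [hi]
            ring
          linear_combination -this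
        have h := FiniteField.cast_card_eq_zero F
        rw [h9] at h
        have h' : (9 : F) = 2 * 4 + 1 := by norm_num
        have h'' : (9 : F) = 1 := by
          rw [h', h3]
          ring
        have h5 : (9 : F) = 0 := by exact_mod_cast h
        rw [h''] at h5
        exact one_ne_zero h5
      have h3 := comm_same_sq hcen hs (g := fun t => lvO (Cfsg.Agent.Lib.PresSU3.hσ_frob hF) (TT hab t))
        (fun a b => by rw [TT_add, map_mul]) (fun a b => by rw [← map_mul, ← map_mul, ← TT_add, ← TT_add, add_comm])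
        (fun u hu => lvO_scale hF hab u hu) hi.symm hi2 h1 h2
      apply Subtype.ext
      apply Subtype.ext
      apply Prod.ext
      · exact h3
      · change Cfsg.Agent.Lib.Schur.SpStem.pullF π _ x * Cfsg.Agent.Lib.Schur.SpStem.pullF π _ y =
          Cfsg.Agent.Lib.Schur.SpStem.pullF π _ y * Cfsg.Agent.Lib.Schur.SpStem.pullF π _ x
        rw [← ht, ← ht', ← Cfsg.Agent.Lib.Classical.SL2Sylow.upS_add, ← Cfsg.Agent.Lib.Classical.SL2Sylow.upS_add, add_comm]
    · have h4 : Fintype.card F ≠ 4 := by omega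
      refine Cfsg.Agent.Lib.Schur.SpStem.exists_section_of_inj hs hcen hK (fun z hz => ?_)
      have hstem := Cfsg.Agent.Lib.Schur.SpStem.pull_stem (ρ := lvO (Cfsg.Agent.Lib.PresSU3.hσ_frob hF)) hs hcen hK
      obtain ⟨ρ, hρ⟩ := (Cfsg.Agent.S2117.result (F := F) h4 h9).2 _ _ hstem
      obtain ⟨y, hy⟩ := hρ ⟨z, hz⟩
      have hy1 : y = 1 := by
        have hsub : Subsingleton (Multiplicative (ZMod 1)) :=
          inferInstanceAs (Subsingleton (ZMod 1))
        exact Subsingleton.elim _ _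
      rw [hy1, map_one] at hy
      exact (congrArg Subtype.val hy).symm
  · have h3 : 3 ≤ Fintype.card (Fin m) := by
      rw [Fintype.card_fin]
      omega
    have hK := Cfsg.Agent.Lib.Classical.Transvections.commutator_sl_eq_top (F := F) h3
    refine Cfsg.Agent.Lib.Schur.SpStem.exists_section_of_inj hs hcen hK (fun z hz => ?_)
    have hstem := Cfsg.Agent.Lib.Schur.SpStem.pull_stem (ρ := lvO (Cfsg.Agent.Lib.PresSU3.hσ_frob hF)) hs hcen hK
    exact Cfsg.Agent.Lib.Schur.SLnStem.stem_sl_trivial hstem h3 (fun _ => by omega) (fun _ => by omega) hz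

/-- **The stem extensions of `SU_{2n+1}(q)`**, `n ≥ 2`, `q ≥ 3`: they are trivial if those of `SU₃(q)` are. -/
theorem stemGO (hq : 3 ≤ q) (m : ℕ) (hm : 2 ≤ m) (h3 : StemTriv (GG (frobHom hF))) :
    StemTriv (GO (frobHom hF) (Fin m)) := by
  classical
  intro Γ _ _ π hπ z hz
  obtain ⟨hsurj, hcen, hcomm⟩ := id hπ
  haveI : Fintype (kF hF) := Fintype.ofFinite _
  obtain ⟨ζ, hgen, -⟩ := Cfsg.Agent.Lib.PresSU3.exists_gen_units hF
  have hσσ : ∀ x, frobHom hF (frobHom hF x) = x := Cfsg.Agent.Lib.PresSU3.hσ_frob hF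
  have I := inv_F hF
  obtain ⟨θ, hθ'⟩ := exists_frob_ne hF
  have hθ : frobHom hF θ ≠ θ := hθ'
  have hs : θ - frobHom hF θ ≠ 0 := sub_ne_zero.2 hθ.symm
  have hss : frobHom hF (θ - frobHom hF θ) = -(θ - frobHom hF θ) := by
    rw [map_sub, hσσ]
    ring
  have hab : (⟨0, by omega⟩ : Fin m) ≠ ⟨1, by omega⟩ := by simp [Fin.ext_iff]
  have htr : ∀ a : F, ∃ b, b + frobHom hF b + a * frobHom hF a = 0 := by
    intro a
    obtain ⟨b, hb⟩ := exists_trace hF (-(a * frobHom hF a)) (by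
      have : frobHom hF (-(a * frobHom hF a)) = -(a * frobHom hF a) := by
        rw [map_neg, map_mul, hσσ, mul_comm]
      exact this)
    refine ⟨b, ?_⟩
    have : b + frobHom hF b = -(a * frobHom hF a) := hb
    rw [this]
    ring
  obtain ⟨b₁, h₁⟩ := htr 1
  obtain ⟨b₂, h₂⟩ := htr θ
  obtain ⟨P, P', h1, h2, hP⟩ := gram_odd hF (Fin m) (n := m + m + 1) (by simp)
  have hT := closure_tv hF h1 h2 hP (by omega) (by omega)
  have hgen' := gen_odd (σ := frobHom hF) (ι := Fin m) (a := ⟨0, by omega⟩) (b := ⟨1, by omega⟩) I.invol hab hT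
  have hpg := GG_perfect hF hq
  obtain ⟨M, hM⟩ : ∃ M : GG (frobHom hF) →* Γ, ∀ g, π (M g) = MS ⟨1, by omega⟩ g :=
    Cfsg.Agent.Lib.Schur.SpStem.exists_section hsurj hcen hpg h3
  obtain ⟨lam, hlam⟩ := exists_lamO hF hq hm hcen hsurj
  have hpl : commutator (SpecialLinearGroup (Fin m) F) = ⊤ := by
    by_cases h2 : m = 2
    · subst h2
      exact Cfsg.Agent.Lib.Schur.SpStem.sl2_perfect (F := F) (by nlinarith)
    · exact Cfsg.Agent.Lib.Classical.Transvections.commutator_sl_eq_top (F := F) (by rw [Fintype.card_fin]; omega)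
  obtain ⟨r₀, hr₀, hr0, hr1⟩ := Cfsg.Agent.Lib.Classical.HermBridge.exists_fixed_ne_one hF hq
  let r : (kF hF)ˣ := Units.mk0 ⟨r₀, hr₀⟩ (fun h => hr0 (congrArg Subtype.val h))
  have hr : ((r : (kF hF)ˣ) : kF hF) ≠ 1 := fun h => hr1 (congrArg Subtype.val h)
  obtain ⟨u₀, hu0, hu1⟩ := Cfsg.Agent.Lib.Schur.SLnStem.exists_u0 (F := F) (by nlinarith)
  have H := oHyp_of_lifts (j := (kF hF).subtype) (a := ⟨0, by omega⟩) I hs hss hcen hsurj hlam hpl hpg hM hab hgen
    (gen_kF hF hgen) hθ h₁ h₂ htr hr hu0 hu1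
  exact trivial_of_hypD hπ H hlam hM hgen' hz

end main

end Cfsg.Agent.Lib.SUStem
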