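import Cfsg.Agent.Lib.SUStem.Bk

/-!
# From `SU_{2m-1}` to `SU_{2m}` for small fields
-/

set_option autoImplicit false
set_option linter.unusedSectionVars false
set_option linter.unusedVariables false
set_option linter.unusedSimpArgs false

namespace Cfsg.Agent.Lib.SUStem.StepEE

open Matrix Cfsg Subgroup Cfsg.Agent.Lib.PresU Cfsg.Agent.Lib.SUStem.Bk
open scoped commutatorElement
open Cfsg.Agent.Lib.Schur.SpStem (Em pad Em_apply Em_tr_Em Pp_Em Em_Pp pad_one pad_mul pad_tr Em_single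
  pad_one_add_single pad_blocks Em_sum Em_sum_tr blkS coe_blkS blkS_T blkS_tt blkS_pj pj_coe)
open Cfsg.Agent.Lib.PresSp.M2 Cfsg.Agent.Lib.PresSp.Mono Cfsg.Agent.Lib.PresSLn.TwoGen
open Cfsg.Agent.Lib.PresSp.Tgt (sj sj_mul sj_add sj_zero upM)


section Mat

variable {κ ι : Type*} [Fintype κ] [DecidableEq κ] [Fintype ι] [DecidableEq ι] {K : Type*} [Field K]
  {σ : K →+* K}

/-- The anisotropic vector. -/
def vv (K : Type*) [Field K] (c : ι) (η : K) : Matrix (ι ⊕ ι) Unit K :=
  of fun r _ => if r = Sum.inl c then η else if r = Sum.inr c then 1 else 0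

/-- The embedding. -/
def EO (K : Type*) [Field K] (e : κ → ι) (c : ι) (η : K) : Matrix (ι ⊕ ι) (Io κ) K :=
  fromCols (Em K (Sum.map e e)) (vv K c η)

omit [Fintype κ] [Fintype ι] in
lemma Em_map {κ' ι' : Type*} [DecidableEq ι'] (f : κ' → ι') : (Em K f).map σ = Em K f := by
  ext r t
  simp only [map_apply, Em_apply]
  split_ifs <;> simp

lemma vv_map (c : ι) (η : K) : (vv K c η).map σ = vv K c (σ η) := by
  ext r t
  simp only [map_apply, vv, of_apply]
  split_ifs <;> simp

lemma EO_map (e : κ → ι) (c : ι) (η : K) : (EO K e c η).map σ = EO K e c (σ η) := by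
  ext r t
  rcases t with t | t
  · exact congrFun (congrFun (Em_map (σ := σ) (Sum.map e e)) r) t
  · exact congrFun (congrFun (vv_map (σ := σ) c η) r) t

lemma JE_Ep (e : κ → ι) : JE ι K * Em K (Sum.map e e) = Em K (Sum.map e e) * JE κ K := by
  rw [Em_sum, JE, JE, fromBlocks_multiply, fromBlocks_multiply]
  simp

lemma JE_sq' : JE ι K * JE ι K = 1 := by
  rw [JE, fromBlocks_multiply]
  simp [fromBlocks_one]

lemma JE_tr : (JE ι K)ᵀ = JE ι K := by
  rw [JE, fromBlocks_transpose]
  simp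

lemma JE_map' : (JE ι K).map σ = JE ι K := by
  rw [JE, fromBlocks_map]
  simp [Matrix.map_one _ (map_zero σ) (map_one σ), Matrix.map_zero _ (map_zero σ)]

lemma Ept_JE (e : κ → ι) : (Em K (Sum.map e e))ᵀ * JE ι K = JE κ K * (Em K (Sum.map e e))ᵀ := by
  have h := congrArg Matrix.transpose (JE_Ep (K := K) e)
  rwa [transpose_mul, transpose_mul, JE_tr, JE_tr] at h

lemma JE_vv_apply (c : ι) (η : K) (r : ι) (u : Unit) :
    (JE ι K * vv K c η) (Sum.inl r) u = if r = c then 1 else 0 := by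
  simp [JE, Matrix.mul_apply, Fintype.sum_sum_type, vv, one_apply, eq_comm]

lemma JE_vv_apply' (c : ι) (η : K) (r : ι) (u : Unit) :
    (JE ι K * vv K c η) (Sum.inr r) u = if r = c then η else 0 := by
  simp [JE, Matrix.mul_apply, Fintype.sum_sum_type, vv, one_apply, eq_comm]

lemma Em_tr_mul_apply {X : Type*} {f : κ → ι} (hf : Function.Injective f) (A : Matrix ι X K) (t : κ) (u : X) :
    ((Em K f)ᵀ * A) t u = A (f t) u := by
  rw [Matrix.mul_apply]
  simp only [transpose_apply, Em_apply]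
  rw [Finset.sum_eq_single (f t)]
  · simp
  · intro b _ hb
    simp [hb]
  · simp

lemma Ept_vv {e : κ → ι} {c : ι} (he : Function.Injective e) (hc : ∀ x, e x ≠ c) (η : K) :
    (Em K (Sum.map e e))ᵀ * (JE ι K * vv K c η) = 0 := by
  ext t u
  rw [Em_tr_mul_apply (he.sumMap he)]
  rcases t with t | t
  · simp [JE_vv_apply, hc t]
  · simp [JE_vv_apply', hc t]

lemma vt_Ep {e : κ → ι} {c : ι} (he : Function.Injective e) (hc : ∀ x, e x ≠ c) (η : K) :
    (vv K c η)ᵀ * Em K (Sum.map e e) = 0 := by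
  have h : (Em K (Sum.map e e))ᵀ * vv K c η = 0 := by
    ext t u
    rw [Em_tr_mul_apply (he.sumMap he)]
    rcases t with t | t
    · simp [vv, hc t]
    · simp [vv, hc t]
  have h2 := congrArg Matrix.transpose h
  rwa [transpose_mul, transpose_transpose, transpose_zero] at h2

lemma vv_norm (c : ι) {η : K} (hη : η + σ η = 1) : (vv K c η)ᵀ * (JE ι K * vv K c (σ η)) = 1 := by
  ext u u'
  rw [Matrix.mul_apply, Fintype.sum_sum_type]
  simp only [transpose_apply, JE_vv_apply, JE_vv_apply', one_apply]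
  simp [vv, eq_comm]
  linear_combination (-1 : K) * hη

lemma EO_iso (hσ : ∀ x, σ (σ x) = x) {e : κ → ι} (he : Function.Injective e) {c : ι} (hc : ∀ x, e x ≠ c) {η : K}
    (hη : η + σ η = 1) : (EO K e c η)ᵀ * JE ι K * (EO K e c η).map σ = J1 κ K := by
  have he2 : Function.Injective (Sum.map e e) := he.sumMap he
  rw [EO_map, EO, EO, transpose_fromCols, fromRows_mul, fromRows_mul_fromCols, J1]
  have e1 : (Em K (Sum.map e e))ᵀ * JE ι K * Em K (Sum.map e e) = JE κ K := by
    rw [Ept_JE, Matrix.mul_assoc, Em_tr_Em he2, Matrix.mul_one]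
  have e2 : (Em K (Sum.map e e))ᵀ * JE ι K * vv K c (σ η) = 0 := by
    rw [Matrix.mul_assoc, Ept_vv he hc]
  have e3 : (vv K c η)ᵀ * JE ι K * Em K (Sum.map e e) = 0 := by
    rw [Matrix.mul_assoc, JE_Ep, ← Matrix.mul_assoc, vt_Ep he hc, Matrix.zero_mul]
  have e4 : (vv K c η)ᵀ * JE ι K * vv K c (σ η) = 1 := by
    rw [Matrix.mul_assoc, vv_norm c hη]
  rw [e1, e2, e3, e4]

lemma J1_sq' : J1 κ K * J1 κ K = 1 := by
  rw [J1, fromBlocks_multiply]
  simp [JE_sq', fromBlocks_one]

lemma J1_tr' : (J1 κ K)ᵀ = J1 κ K := by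
  rw [J1, fromBlocks_transpose, JE_tr]
  simp

lemma J1_map' : (J1 κ K).map σ = J1 κ K := by
  rw [J1, fromBlocks_map, JE_map']
  simp [Matrix.map_one _ (map_zero σ) (map_one σ), Matrix.map_zero _ (map_zero σ)]

/-- The data of the embedding. -/
lemma dat_EO (hσ : ∀ x, σ (σ x) = x) {e : κ → ι} (he : Function.Injective e) {c : ι} (hc : ∀ x, e x ≠ c) {η : K}
    (hη : η + σ η = 1) : Dat σ (J1 κ K) (JE ι K) (EO K e c η) where
  hσ := hσ
  iso := EO_iso hσ he hc hη
  sq1 := J1_sq'
  sym1 := J1_tr'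
  sym2 := JE_tr
  map1 := J1_map'
  map2 := JE_map'

lemma adj_EO {e : κ → ι} (c : ι) (η : K) :
    adjE σ (J1 κ K) (JE ι K) (EO K e c η) =
      fromRows (Em K (Sum.map e e))ᵀ ((vv K c (σ η))ᵀ * JE ι K) := by
  rw [adjE, EO_map, EO, transpose_fromCols, J1, fromBlocks_mul_fromRows, fromRows_mul]
  simp only [Matrix.zero_mul, add_zero, zero_add, Matrix.one_mul]
  rw [← Ept_JE, Matrix.mul_assoc, JE_sq', Matrix.mul_one]

/-- The block map on the hyperbolic part is the coordinate block. -/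
lemma bkM_ex {e : κ → ι} (c : ι) (η : K) (X : Matrix (κ ⊕ κ) (κ ⊕ κ) K) :
    bkM σ (J1 κ K) (JE ι K) (EO K e c η) (ex X) = pad K (Sum.map e e) X := by
  have e1 : ex X - 1 = fromBlocks (X - 1) 0 0 0 := by
    rw [ex, ← fromBlocks_one, sub_eq_add_neg, fromBlocks_neg, fromBlocks_add]
    simp [sub_eq_add_neg]
  rw [bkM, e1, adj_EO, EO, fromCols_mul_fromBlocks, fromCols_mul_fromRows]
  simp only [Matrix.mul_zero, add_zero, fromCols_zero]
  have e2 : (fromCols (Em K (Sum.map e e) * (X - 1)) (0 : Matrix (ι ⊕ ι) Unit K)) = fromCols (Em K (Sum.map e e) * (X - 1)) 0 := rfl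
  simp only [Matrix.zero_mul, add_zero, pad, Cfsg.Agent.Lib.Schur.SpStem.Pp, Matrix.mul_sub, Matrix.sub_mul, Matrix.mul_one]
  abel

lemma pad_map {κ' ι' : Type*} [Fintype κ'] [DecidableEq κ'] [Fintype ι'] [DecidableEq ι'] (f : κ' → ι')
    (M : Matrix κ' κ' K) : (pad K f M).map σ = pad K f (M.map σ) := by
  have h1 : ((Em K f)ᵀ).map σ = (Em K f)ᵀ := by
    rw [transpose_map, Em_map]
  rw [pad, pad, Cfsg.Agent.Lib.Schur.SpStem.Pp, Matrix.map_add _ (map_add σ), Matrix.map_sub _ (map_sub σ),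
    Matrix.map_one _ (map_zero σ) (map_one σ), Matrix.map_mul, Matrix.map_mul, Matrix.map_mul, h1, Em_map]

lemma hh_pad {κ' ι' : Type*} [Fintype κ'] [DecidableEq κ'] [Fintype ι'] [DecidableEq ι'] (f : κ' → ι')
    (M : Matrix κ' κ' K) : hh σ (pad K f M) = pad K f (hh σ M) := by
  rw [hh, hh, pad_map, pad_tr]

end Mat

section Rho

variable {κ ι : Type*} [Fintype κ] [DecidableEq κ] [Fintype ι] [DecidableEq ι] {K : Type*} [Field K] {k : Type*}
  [Field k] {σ : K →+* K} {j : k →+* K} {e : κ → ι} {c : ι} {η : K}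

/-- The coordinate block homomorphism, through the odd group. -/
def rho (D : Dat σ (J1 κ K) (JE ι K) (EO K e c η)) : GE σ κ →* GE σ ι := (bk D).comp (exH σ κ)

lemma coe_rho (D : Dat σ (J1 κ K) (JE ι K) (EO K e c η)) (x : GE σ κ) :
    (rho D x).1.1 = pad K (Sum.map e e) x.1.1 :=
  bkM_ex c η x.1.1

lemma rho_lev [Nontrivial κ] (D : Dat σ (J1 κ K) (JE ι K) (EO K e c η)) (he : Function.Injective e)
    (hσ : ∀ x, σ (σ x) = x) (l : SpecialLinearGroup κ K) :
    rho D (levS hσ l) = levS hσ (blkS he l) := by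
  apply SUg_ext
  rw [coe_rho, coe_levS, coe_levS, levM, levM, pad_blocks, ← map_inv, coe_blkS, coe_blkS, hh_pad]
  simp

lemma rho_lg [Finite K] [Finite k] (I : Inv σ j) {s : K} (hs : s ≠ 0) (hss : σ s = -s)
    (D : Dat σ (J1 κ K) (JE ι K) (EO K e c η)) (he : Function.Injective e) (i : κ) (g : M2 k) :
    rho D (lgS I hs hss i g) = lgS I hs hss (e i) g := by
  apply SUg_ext
  rw [coe_rho, coe_lgS, coe_lgS, lgM, lgM, pad_blocks]
  simp only [sj]
  rw [pad_one_add_single he, pad_one_add_single he, Em_single he, Em_single he]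

end Rho

section Hyp

open Cfsg.Agent.Lib.Schur.SpStem (comm_of_scale lift_unique exists_section stab_mem)
open Cfsg.Agent.Lib.Schur

variable {ι : Type*} [Fintype ι] [DecidableEq ι] {K k : Type*} [Field K] [Field k] [Finite K] [Finite k]
  {σ : K →+* K} {j : k →+* K} {I : Inv σ j} {Γ Γ' : Type*} [Group Γ] [Group Γ'] {a b : ι}

/-- The relations are preserved by homomorphisms. -/
theorem uHyp_map {lam : SpecialLinearGroup ι K →* Γ} {mu : M2 k →* Γ} {hab : a ≠ b} {ζ : Kˣ}
    (H : UHyp I lam mu hab ζ) (f : Γ →* Γ') : UHyp I (f.comp lam) (f.comp mu) hab ζ where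
  gen := H.gen
  genk := H.genk
  theta := fun l h1 h2 g => (H.theta l h1 h2 g).map f
  r1 := H.r1.map f
  r2 := by simpa only [MonoidHom.comp_apply, map_mul, map_inv] using congrArg f H.r2
  r3 := by simpa only [MonoidHom.comp_apply, map_mul, map_inv] using congrArg f H.r3
  r4 := by simpa only [MonoidHom.comp_apply, map_mul, map_inv] using congrArg f H.r4
  r5 := by simpa only [MonoidHom.comp_apply, map_mul, map_inv] using congrArg f H.r5
  r6 := H.r6.map f
  r7 := H.r7.map f
  r8 := by simpa only [MonoidHom.comp_apply, map_mul, map_inv] using H.r8.map f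
  r9 := by simpa only [MonoidHom.comp_apply, map_mul, map_inv] using H.r9.map f
  r10 := by simpa only [MonoidHom.comp_apply, map_mul, map_inv] using H.r10.map f
  r11 := by simpa only [MonoidHom.comp_apply, map_mul, map_inv] using congrArg f H.r11
  s4g := fun c d => by simpa only [MonoidHom.comp_apply, map_mul, map_inv] using congrArg f (H.s4g c d)

/-- The relations in the target. -/
theorem uHyp_target (I : Inv σ j) {s : K} (hs : s ≠ 0) (hss : σ s = -s) (hab : a ≠ b) {ζ : Kˣ}
    (hζ : ∀ u : Kˣ, ∃ n : ℕ, ζ ^ n = u) (hk : ∀ u : kˣ, ∃ n : ℕ, I.nU ζ ^ n = u) :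
    UHyp I (levS (σ := σ) (ι := ι) I.invol) (lgS (ι := ι) I hs hss b) hab ζ where
  toUHyp0 := uHyp0_target I hs hss hab hζ hk
  s4g := fun c d => by
    rw [lgS_conj I hs hss (mv_pj (F := K) hab a)]
    exact s4_tgt I hs hss hab c d

/-- The relations imply that a stem extension is trivial. -/
theorem trivial_of_uhyp {s : K} (hs : s ≠ 0) (hss : σ s = -s) {π : Γ →* GE σ ι} (hπ : IsStemExtension π)
    {hab : a ≠ b} {ζ : Kˣ} {lam : SpecialLinearGroup ι K →* Γ} {mu : M2 k →* Γ} (H : UHyp I lam mu hab ζ)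
    (hlam : ∀ l, π (lam l) = levS I.invol l) (hmu : ∀ g, π (mu g) = lgS I hs hss b g)
    (hT : Subgroup.closure {g : GE σ ι | ∃ w c, fJ σ (JE ι K) w w = 0 ∧ IsTv (JE ι K) g w c} = ⊤)
    {z : Γ} (hz : π z = 1) : z = 1 := by
  let S : Subgroup Γ := Subgroup.closure (Set.range lam ∪ Set.range mu)
  have hlS : ∀ l, lam l ∈ S := fun l => Subgroup.subset_closure (Or.inl ⟨l, rfl⟩)
  have hmS : ∀ g, mu g ∈ S := fun g => Subgroup.subset_closure (Or.inr ⟨g, rfl⟩)
  let lam' : SpecialLinearGroup ι K →* S := lam.codRestrict S hlS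
  let mu' : M2 k →* S := mu.codRestrict S hmS
  have H' : UHyp I lam' mu' hab ζ :=
    { gen := H.gen
      genk := H.genk
      theta := fun l h1 h2 g => Subtype.ext (H.theta l h1 h2 g)
      r1 := Subtype.ext H.r1
      r2 := Subtype.ext H.r2
      r3 := Subtype.ext H.r3
      r4 := Subtype.ext H.r4
      r5 := Subtype.ext H.r5
      r6 := Subtype.ext H.r6
      r7 := Subtype.ext H.r7
      r8 := Subtype.ext H.r8
      r9 := Subtype.ext H.r9
      r10 := Subtype.ext H.r10
      r11 := Subtype.ext H.r11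
      s4g := fun c d => Subtype.ext (H.s4g c d) }
  let φ₀ : S →* GE σ ι := π.comp S.subtype
  let φ : S →* Matrix (ι ⊕ ι) (ι ⊕ ι) K := (geCoe σ ι).comp φ₀
  have hgen : Subgroup.closure (Set.range lam' ∪ Set.range mu') = ⊤ := by
    have h := Subgroup.closure_closure_coe_preimage (k := Set.range lam ∪ Set.range mu)
    rw [← h]
    congr 1
    ext x
    constructor
    · rintro (⟨l, rfl⟩ | ⟨g, rfl⟩)
      · exact Or.inl ⟨l, rfl⟩
      · exact Or.inr ⟨g, rfl⟩
    · rintro (⟨l, hl⟩ | ⟨g, hg⟩)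
      · exact Or.inl ⟨l, Subtype.ext hl⟩
      · exact Or.inr ⟨g, Subtype.ext hg⟩
  have h1 : ∀ l, φ (lam' l) = levM σ l := by
    intro l
    change (π (lam l)).1.1 = _
    rw [hlam]
    rfl
  have h2 : ∀ g, φ (mu' g) = lgM j s b g := by
    intro g
    change (π (mu g)).1.1 = _
    rw [hmu]
    rfl
  have hinj : Function.Injective φ := UHyp.injective H' hs φ h1 h2 hgen
  have htop : φ₀.range = ⊤ := by
    rw [eq_top_iff, ← gen_even I hs hss hab hT, Subgroup.closure_le]
    rintro _ (⟨l, rfl⟩ | ⟨g, rfl⟩)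
    · exact ⟨lam' l, hlam l⟩
    · exact ⟨mu' g, hmu g⟩
  have hle := SLnStem.commutator_le_range_of_central (σ := π) hπ.2.1 S.subtype (fun g => by
    have h1 : π g ∈ φ₀.range := by rw [htop]; trivial
    exact h1)
  obtain ⟨q, hq⟩ := hle (hπ.2.2 hz)
  have h3 : φ q = 1 := by
    change (π (q : Γ)).1.1 = 1
    have h2 : (q : Γ) = z := hq
    rw [h2, hz]
    rfl
  have h4 : q = 1 := hinj (by rw [h3, map_one])
  rw [← show (q : Γ) = z from hq, h4]
  rfl

/-- The lifts of the stabiliser commute with the section over the long root `SL₂`. -/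
theorem theta_of {n : ℕ} (hn : 2 ≤ n) (I : Inv σ j) {s : K} (hs : s ≠ 0) (hss : σ s = -s)
    {π : Γ →* GE σ (Fin (n + 1))} (hcen : π.ker ≤ center Γ)
    (hsurj : Function.Surjective π) {lam : SpecialLinearGroup (Fin (n + 1)) K →* Γ} {mu : M2 k →* Γ}
    (hlam : ∀ l, π (lam l) = levS I.invol l) (hmu : ∀ g, π (mu g) = lgS I hs hss (Fin.last n) g)
    (hc : (∃ u : kˣ, j ((u⁻¹ : kˣ) : k) ≠ 1) ∨ 3 ≤ n) (l : SpecialLinearGroup (Fin (n + 1)) K)
    (h1 : l.1 *ᵥ Pi.single (Fin.last n) 1 = Pi.single (Fin.last n) 1)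
    (h2 : Pi.single (Fin.last n) 1 ᵥ* l.1 = Pi.single (Fin.last n) 1) (g : M2 k) : Commute (lam l) (mu g) := by
  have hcomT : ∀ {i j' : Fin (n + 1)} (h : i ≠ j') (hi : i ≠ Fin.last n) (hj : j' ≠ Fin.last n) (c : K) (g : M2 k),
      lgS I hs hss (Fin.last n) g * levS I.invol (TT h c) = levS I.invol (TT h c) * lgS I hs hss (Fin.last n) g := by
    intro i j' h hi hj c g
    have h1 := lgS_conj I hs hss (Mv.T_fix h hi hj c) g
    rw [mul_inv_eq_iff_eq_mul] at h1
    exact h1.symm
  have hmem : l ∈ (Subgroup.centralizer (Set.range mu)).comap lam := by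
    refine stab_mem hn _ ?_ l h1 h2
    intro i j' h c hi hj
    rw [Subgroup.mem_comap, Subgroup.mem_centralizer_iff]
    rintro _ ⟨g, rfl⟩
    rcases hc with ⟨u, hu⟩ | h4
    · refine comm_of_scale hcen hsurj (g := fun t => levS I.invol (TT h t)) (fun s t => by rw [TT_add, map_mul])
        (fun t => ?_) hu (fun t => ?_) (hlam _)
      · rw [hmu]
        exact hcomT h hi hj t g
      · refine ⟨lgS I hs hss j' (dd u), ?_, ?_⟩
        · rw [hmu, mul_inv_eq_iff_eq_mul]
          exact lgS_comm I hs hss hj _ _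
        · rw [mul_inv_eq_iff_eq_mul]
          apply SUg_ext
          exact lg_dd_T I h s u t
    · obtain ⟨m, -, hk⟩ := Finset.exists_mem_notMem_of_card_lt_card (s := ({i, j', Fin.last n} : Finset (Fin (n + 1))))
        (t := Finset.univ) (by
          refine lt_of_le_of_lt Finset.card_le_three ?_
          rw [Finset.card_univ, Fintype.card_fin]
          omega)
      simp only [Finset.mem_insert, Finset.mem_singleton, not_or] at hk
      have hik : i ≠ m := fun e => hk.1 e.symm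
      have hkj : m ≠ j' := hk.2.1
      have hkl : m ≠ Fin.last n := hk.2.2
      have e1 : TT h c = ⁅TT hik c, TT hkj 1⁆ := by
        have := Cfsg.Agent.Lib.Classical.Transvections.commutator_transvection (F := K) hik hkj h c 1
        rw [mul_one] at this
        exact this.symm
      rw [e1, map_commutatorElement]
      refine SLnStem.comm_comm hcen ?_ ?_
      · rw [hmu, hlam]
        exact hcomT hik hi hkl c g
      · rw [hmu, hlam]
        exact hcomT hkj hkl hj 1 g
  have := Subgroup.mem_centralizer_iff.1 hmem (mu g) ⟨g, rfl⟩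
  exact this.symm

end Hyp

section Main

open Cfsg.Agent.Lib.Schur.SpStem (comm_of_scale lift_unique exists_section stab_mem sl2_perfect)
open Cfsg.Agent.Lib.Schur
open Cfsg.Agent.Lib.HermCount.Field

universe u

variable {F : Type u} [Field F] [Fintype F] {q : ℕ} (hF : Fintype.card F = q ^ 2)
include hF

/-- The induction step. -/
theorem step_main {n : ℕ} (hn : 2 ≤ n) (hq : q = 3 ∨ (q = 2 ∧ 3 ≤ n))
    (h : StemTriv (GO (frobHom hF) (Fin n))) (hp : commutator (GO (frobHom hF) (Fin n)) = ⊤) :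
    StemTriv (GE (frobHom hF) (Fin (n + 1))) := by
  classical
  intro Γ _ _ π hπ z hz
  obtain ⟨hsurj, hcen, -⟩ := id hπ
  obtain ⟨ζ, hgen, -⟩ := Cfsg.Agent.Lib.PresSU3.exists_gen_units hF
  have hk := gen_kF hF hgen
  have I := inv_F hF
  have hσσ : ∀ x, frobHom hF (frobHom hF x) = x := I.invol
  obtain ⟨θ, hθ'⟩ := exists_frob_ne hF
  have hθ : frobHom hF θ ≠ θ := hθ'
  have hs : θ - frobHom hF θ ≠ 0 := sub_ne_zero.2 hθ.symm
  have hss : frobHom hF (θ - frobHom hF θ) = -(θ - frobHom hF θ) := by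
    rw [map_sub, hσσ]
    ring
  obtain ⟨η, hη⟩ := exists_trace hF 1 (by simp)
  have hη' : η + frobHom hF η = 1 := hη
  have he : Function.Injective (Fin.succ : Fin n → Fin (n + 1)) := Fin.succ_injective n
  have hNon : Nontrivial (Fin n) := Fin.nontrivial_iff_two_le.2 hn
  have D : Dat (frobHom hF) (J1 (Fin n) F) (JE (Fin (n + 1)) F) (EO F Fin.succ 0 η) :=
    dat_EO hσσ he (fun x => Fin.succ_ne_zero x) hη'
  obtain ⟨κ, hκ⟩ := exists_section hsurj hcen hp (ρ := bk D) (fun Δ _ _ τ hτ w hw => h Δ τ hτ w hw)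
  let s : GE (frobHom hF) (Fin n) →* Γ := κ.comp (exH (frobHom hF) (Fin n))
  have hsρ : ∀ x, π (s x) = rho D x := fun x => hκ _
  let a₀ : Fin n := ⟨0, by omega⟩
  let b₀ : Fin n := ⟨n - 1, by omega⟩
  have hab₀ : a₀ ≠ b₀ := by
    simp only [a₀, b₀, ne_eq, Fin.mk.injEq]
    omega
  have hbe : Fin.succ b₀ = Fin.last n := by
    apply Fin.ext
    simp only [b₀, Fin.val_succ, Fin.val_last]
    omega
  obtain ⟨P, P', h1, h2, hP⟩ := gram_even hF (Fin (n + 1)) (n := (n + 1) + (n + 1)) (by simp)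
  have hT := closure_tv hF h1 h2 hP (by omega) (by omega)
  have hmain : ∀ lam : Matrix.SpecialLinearGroup (Fin (n + 1)) F →* Γ, (∀ l, π (lam l) = levS I.invol l) →
      ((∃ u : (kF hF)ˣ, (kF hF).subtype ((u⁻¹ : (kF hF)ˣ) : kF hF) ≠ 1) ∨ 3 ≤ n) →
      (∀ l, lam (blkS he l) = s (levS I.invol l)) → z = 1 := by
    intro lam hlam hc hagree
    let mu : M2 (kF hF) →* Γ := s.comp (lgS I hs hss b₀)
    have hmu : ∀ g, π (mu g) = lgS I hs hss (Fin.succ b₀) g := by
      intro g
      change π (s (lgS I hs hss b₀ g)) = _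
      rw [hsρ, rho_lg I hs hss D he]
    have hmu' : ∀ g, π (mu g) = lgS I hs hss (Fin.last n) g := by
      rw [← hbe]
      exact hmu
    have H₀ := uHyp_target (ι := Fin n) I hs hss hab₀ hgen hk
    have H₁ := uHyp_map H₀ s
    have hTT : ∀ c, lam (TT (he.ne hab₀) c) = (s.comp (levS I.invol)) (TT hab₀ c) := by
      intro c
      rw [MonoidHom.comp_apply, ← hagree, blkS_T]
    have hTT' : ∀ c, lam (TT (he.ne hab₀).symm c) = (s.comp (levS I.invol)) (TT hab₀.symm c) := by
      intro c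
      rw [MonoidHom.comp_apply, ← hagree, blkS_T]
    have htt : ∀ u, lam (tt (he.ne hab₀) u) = (s.comp (levS I.invol)) (tt hab₀ u) := by
      intro u
      rw [MonoidHom.comp_apply, ← hagree, blkS_tt]
    have hpj : lam (pj (Fin.succ a₀) (Fin.succ b₀) (Fin.succ a₀)) = (s.comp (levS I.invol)) (pj a₀ b₀ a₀) := by
      rw [MonoidHom.comp_apply, ← hagree, blkS_pj he hab₀]
    have H : UHyp I lam mu (he.ne hab₀) ζ := by
      refine ⟨⟨hgen, hk, ?_, ?_, ?_, ?_, ?_, ?_, ?_, ?_, ?_, ?_, ?_, ?_⟩, ?_⟩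
      · intro l h1 h2 g
        rw [hbe] at h1 h2
        exact theta_of hn I hs hss hcen hsurj hlam hmu' hc l h1 h2 g
      · rw [htt]
        exact H₁.r1
      · rw [hTT, hTT]
        exact H₁.r2
      · rw [htt]
        exact H₁.r3
      · rw [hpj, htt]
        exact H₁.r4
      · rw [htt]
        exact H₁.r5
      · rw [hTT']
        exact H₁.r6
      · rw [hTT]
        exact H₁.r7
      · rw [hpj]
        exact H₁.r8
      · rw [hpj]
        exact H₁.r9
      · rw [hpj]
        exact H₁.r10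
      · rw [hpj, hTT, hTT']
        exact H₁.r11
      · intro c d
        rw [hTT, hTT, hpj]
        exact H₁.s4g c d
    exact trivial_of_uhyp hs hss hπ H hlam hmu hT hz
  -- the lift of the Levi subgroup
  have hq2 := two_le hF
  have hcardF : Fintype.card F = 4 ∨ Fintype.card F = 9 := by
    rcases hq with rfl | ⟨rfl, -⟩
    · right
      rw [hF]
      norm_num
    · left
      rw [hF]
      norm_num
  have h3 : 3 ≤ Fintype.card (Fin (n + 1)) := by
    rw [Fintype.card_fin]
    omega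
  have hpl : commutator (Matrix.SpecialLinearGroup (Fin (n + 1)) F) = ⊤ :=
    Cfsg.Agent.Lib.Classical.Transvections.commutator_sl_eq_top h3
  obtain ⟨lam, hlam⟩ := exists_section hsurj hcen hpl (ρ := (levS I.invol : Matrix.SpecialLinearGroup (Fin (n + 1)) F →* _))
    (fun Δ _ _ τ hτ w hw => SLnStem.stem_sl_trivial hτ h3
      (fun h => by
        rw [Fintype.card_fin] at h
        have hn2 : n = 2 := by omega
        rcases hq with rfl | ⟨-, h3n⟩
        · rw [hF]
          norm_num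
        · omega)
      (fun h => by
        rcases hcardF with h4 | h9 <;> omega) hw)
  have hper : commutator (Matrix.SpecialLinearGroup (Fin n) F) = ⊤ := by
    by_cases h2n : n = 2
    · subst h2n
      exact sl2_perfect (F := F) (by omega)
    · exact Cfsg.Agent.Lib.Classical.Transvections.commutator_sl_eq_top (by rw [Fintype.card_fin]; omega)
  refine hmain lam hlam ?_ ?_
  · rcases hq with rfl | ⟨-, h3n⟩
    · left
      refine ⟨-1, ?_⟩
      have h3F : (3 : F) = 0 := by
        have h9 := FiniteField.cast_card_eq_zero F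
        rw [hF] at h9
        have e : ((3 ^ 2 : ℕ) : F) = (3 : F) ^ 2 := by norm_num
        rw [e] at h9
        exact pow_eq_zero_iff (two_ne_zero) |>.1 h9
      have hne : (-1 : F) ≠ 1 := by
        intro h
        have h2 : (2 : F) = 0 := by linear_combination -h
        have h1 : (1 : F) = 0 := by linear_combination h3F - h2
        exact one_ne_zero h1
      simpa using hne
    · exact Or.inr h3n
  · intro l
    refine lift_unique hcen hper (lam.comp (blkS he)) (s.comp (levS I.invol)) (fun k => ?_) l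
    rw [MonoidHom.comp_apply, MonoidHom.comp_apply, hlam, hsρ, rho_lev D he]

end Main

end Cfsg.Agent.Lib.SUStem.StepEE

namespace Cfsg.Agent.Lib.SUStem

open Cfsg Subgroup Matrix
open Cfsg.Agent.Lib.PresU Cfsg.Agent.Lib.PresSU3 Cfsg.Agent.Lib.HermCount.Field

universe u

variable {F : Type u} [Field F] [Fintype F] {q : ℕ} (hF : Fintype.card F = q ^ 2)

/-- The induction step from odd degree to even degree, for `q = 2, 3`. -/
theorem stepE (m : ℕ) (hm : 3 ≤ m) (hq : q = 3 ∨ (q = 2 ∧ 4 ≤ m))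
    (h : StemTriv (GO (frobHom hF) (Fin (m - 1)))) (hp : commutator (GO (frobHom hF) (Fin (m - 1))) = ⊤) :
    StemTriv (GE (frobHom hF) (Fin m)) := by
  obtain ⟨n, rfl⟩ : ∃ n, m = n + 1 := ⟨m - 1, by omega⟩
  refine StepEE.step_main hF (n := n) (by omega) ?_ h hp
  rcases hq with h3 | ⟨h2, h4⟩
  · exact Or.inl h3
  · exact Or.inr ⟨h2, by omega⟩

end Cfsg.Agent.Lib.SUStem
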