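import Cfsg.Agent.Lib.SUStem.Defs
import Cfsg.Agent.Lib.SUStem.LeviG
import Cfsg.Agent.Lib.SUStem.TorO
import Cfsg.Agent.Lib.SUStem.BkO
import Cfsg.Agent.Lib.SUStem.TrivO
import Cfsg.Agent.Lib.PresU.Conc2

/-!
# From `SU_{2m+1}(2)` to `SU_{2m+3}(2)`
-/

set_option autoImplicit false
set_option linter.unusedSectionVars false
set_option linter.unusedVariables false
set_option linter.unusedSimpArgs false
set_option linter.style.haveILetI false

namespace Cfsg.Agent.Lib.SUStem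

open Cfsg Subgroup Matrix
open Cfsg.Agent.Lib.PresU Cfsg.Agent.Lib.PresSU3 Cfsg.Agent.Lib.HermCount.Field
open Cfsg.Agent.Lib.PresSp.Mono Cfsg.Agent.Lib.PresSLn.TwoGen Cfsg.Agent.Lib.Schur.SpStem

universe u

variable {F : Type u} [Field F] [Fintype F] {q : ℕ} (hF : Fintype.card F = q ^ 2)

include hF in
/-- The inductive step for `q = 2`. -/
theorem stepO (hq : q = 2) (m : ℕ) (hm : 2 ≤ m) (h : StemTriv (GO (frobHom hF) (Fin m)))
    (hp : commutator (GO (frobHom hF) (Fin m)) = ⊤) : StemTriv (GO (frobHom hF) (Fin (m + 1))) := by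
  classical
  intro Γ _ _ π hπ z hz
  haveI : Fintype (kF hF) := Fintype.ofFinite _
  obtain ⟨ζ, hgen, -⟩ := Cfsg.Agent.Lib.PresSU3.exists_gen_units hF
  have hσσ : ∀ x, frobHom hF (frobHom hF x) = x := Cfsg.Agent.Lib.PresSU3.hσ_frob hF
  obtain ⟨θ, hθ'⟩ := exists_frob_ne hF
  have hθ : frobHom hF θ ≠ θ := hθ'
  have hs0 : θ - frobHom hF θ ≠ 0 := sub_ne_zero.2 hθ.symm
  have hss : frobHom hF (θ - frobHom hF θ) = -(θ - frobHom hF θ) := by
    rw [map_sub, hσσ]
    ring
  obtain ⟨b₁, hb₁⟩ := exists_trace hF (-1) (by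
    have : frobHom hF (-1 : F) = -1 := by rw [map_neg, map_one]
    exact this)
  obtain ⟨b₂, hb₂⟩ := exists_trace hF (-(θ * frobHom hF θ)) (by
    have : frobHom hF (-(θ * frobHom hF θ)) = -(θ * frobHom hF θ) := by
      rw [map_neg, map_mul, hσσ, mul_comm]
    exact this)
  have h₁ : b₁ + frobHom hF b₁ + 1 * frobHom hF 1 = 0 := by
    have : b₁ + frobHom hF b₁ = -1 := hb₁
    rw [this, map_one]
    ring
  have h₂ : b₂ + frobHom hF b₂ + θ * frobHom hF θ = 0 := by
    have : b₂ + frobHom hF b₂ = -(θ * frobHom hF θ) := hb₂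
    rw [this]
    ring
  -- the transvections generate
  obtain ⟨P, P', hP1, hP2, hP⟩ := gram_odd hF (Fin (m + 1)) (n := (m + 1) + (m + 1) + 1) (by simp)
  have hT := closure_tv hF hP1 hP2 hP (by omega) (by omega)
  obtain ⟨hs, hcen, -⟩ := id hπ
  have he : Function.Injective (Fin.succ : Fin m → Fin (m + 1)) := Fin.succ_injective m
  haveI hNon : Nontrivial (Fin m) := Fin.nontrivial_iff_two_le.2 hm
  obtain ⟨t, ht⟩ := exists_section hs hcen hp h (ρ := BkO he)
  let a₀ : Fin m := ⟨0, by omega⟩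
  let b₀ : Fin m := ⟨m - 1, by omega⟩
  have hab₀ : a₀ ≠ b₀ := by
    simp only [a₀, b₀, ne_eq, Fin.mk.injEq]
    omega
  have hbe : Fin.succ b₀ = Fin.last m := by
    apply Fin.ext
    simp only [b₀, Fin.val_succ, Fin.val_last]
    omega
  have hcard : 4 ≤ Fintype.card F := by
    rw [hF, hq]
    norm_num
  -- perfectness
  have hKp : commutator (SpecialLinearGroup (Fin m) F) = ⊤ := by
    rcases Nat.lt_or_ge m 3 with h3 | h3
    · obtain rfl : m = 2 := by omega
      exact sl2_perfect (F := F) hcard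
    · exact Cfsg.Agent.Lib.Classical.Transvections.commutator_sl_eq_top (by rw [Fintype.card_fin]; omega)
  -- the section over the Levi subgroup
  have hw : ((Units.mk0 θ (fun h0 => hθ (by rw [h0, map_zero])) : Fˣ) : F) ≠ 1 := by
    intro h1
    apply hθ
    have : θ = 1 := h1
    rw [this, map_one]
  obtain ⟨lam, hlam⟩ := levi_sectionG (lev := lvO hσσ) (tor := TorO hσσ)
    (fun v _ _ h c => TorO_T hσσ v h c) (fun v v' => by rw [← map_mul, ← map_mul, mul_comm]) hcen hs (lvO_inj hσσ) hw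
    (ι := Fin (m + 1)) (by rw [Fintype.card_fin]; omega)
  have hagree : ∀ l, lam (blkS he l) = t (lvO hσσ l) := by
    intro l
    refine lift_unique hcen hKp (lam.comp (blkS he)) (t.comp (lvO hσσ)) (fun k => ?_) l
    rw [MonoidHom.comp_apply, MonoidHom.comp_apply, hlam, ht, BkO_lvO]
  have hM : ∀ g, π (t (MS b₀ g)) = MS (Fin.succ b₀) g := by
    intro g
    rw [ht, BkO_MS]
  -- the relations
  have H₀ := oHyp_target (inv_F hF) hs0 hss hab₀ hgen (gen_kF hF hgen) hθ h₁ h₂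
  have H₁ := ohyp_map H₀ t
  have Ht := oHyp_target (inv_F hF) hs0 hss (he.ne hab₀) hgen (gen_kF hF hgen) hθ h₁ h₂
  have H : OHyp0 (inv_F hF) hs0 hss lam (t.comp (MS b₀)) (he.ne hab₀) ζ h₁ h₂ := by
    refine ohyp_transfer H₁ (he.ne hab₀) (fun c => ?_) (fun c => ?_) ?_ ?_ ?_
    · rw [MonoidHom.comp_apply, ← hagree, blkS_T]
    · rw [MonoidHom.comp_apply, ← hagree, blkS_T]
    · rw [MonoidHom.comp_apply, ← hagree, blkS_tt]
    · rw [MonoidHom.comp_apply, ← hagree, blkS_pj he hab₀]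
    · intro l h1 h2 g
      rw [hbe] at h1 h2
      obtain ⟨l₀, rfl⟩ := Cfsg.Agent.Lib.PresSp.Theta.exists_blk l h1 h2
      have hb := commute_lift hcen hKp (lam.comp Cfsg.Agent.Lib.PresSp.Theta.blk) (t (MS b₀ g)) (fun k => ?_) l₀
      · exact hb.symm
      · rw [hM, MonoidHom.comp_apply, hlam]
        have hc := Ht.theta (Cfsg.Agent.Lib.PresSp.Theta.blk k)
          (by rw [hbe]; exact Cfsg.Agent.Lib.PresSp.Theta.blk_col k)
          (by rw [hbe]; exact Cfsg.Agent.Lib.PresSp.Theta.blk_row k) g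
        exact hc.symm
  exact trivial_of_hypO hπ H hlam hM hT hz

end Cfsg.Agent.Lib.SUStem
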