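import Cfsg.Agent.Lib.SUStem.Cyc

/-!
# The `3`-local subgroup of `SU₃`: the diagonal torus extended by a cyclic permutation
-/

set_option autoImplicit false
set_option linter.unusedSectionVars false
set_option linter.unusedVariables false
set_option linter.unusedSimpArgs false

namespace Cfsg.Agent.Lib.SUStem

open Cfsg Subgroup Matrix
open scoped commutatorElement
open Cfsg.Agent.Lib.HermCount.Field

universe u

section abstract

variable {Γ : Type*} [Group Γ] (A : Subgroup Γ) (c : Γ)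

/-- The commutators of a normalised abelian subgroup with an element. -/
def psiR (hab : ∀ a ∈ A, ∀ b ∈ A, a * b = b * a) (hn : ∀ a ∈ A, c * a * c⁻¹ ∈ A) : Subgroup Γ where
  carrier := {y | ∃ a ∈ A, y = ⁅a, c⁆}
  mul_mem' := by
    rintro _ _ ⟨a, ha, rfl⟩ ⟨b, hb, rfl⟩
    refine ⟨a * b, mul_mem ha hb, ?_⟩
    have hu := hn _ (inv_mem ha)
    have hv := hn _ (inv_mem hb)
    have h1 := hab _ hu _ hb
    have h2 := hab _ hu _ hv
    simp only [commutatorElement_def]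
    have e1 : a * c * a⁻¹ * c⁻¹ * (b * c * b⁻¹ * c⁻¹) = a * ((c * a⁻¹ * c⁻¹) * b) * (c * b⁻¹ * c⁻¹) := by group
    have e2 : a * b * c * (a * b)⁻¹ * c⁻¹ = a * (b * (c * a⁻¹ * c⁻¹)) * (c * b⁻¹ * c⁻¹) * ((c * b⁻¹ * c⁻¹)⁻¹ * ((c * a⁻¹ * c⁻¹))⁻¹ * (c * b⁻¹ * c⁻¹) * (c * a⁻¹ * c⁻¹)) := by group
    rw [e1, e2, ← h1]
    have h3 : (c * b⁻¹ * c⁻¹)⁻¹ * (c * a⁻¹ * c⁻¹)⁻¹ * (c * b⁻¹ * c⁻¹) * (c * a⁻¹ * c⁻¹) = 1 := by
      rw [mul_assoc _ (c * b⁻¹ * c⁻¹), h2.symm]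
      group
    rw [h3, mul_one]
  one_mem' := ⟨1, one_mem _, by simp⟩
  inv_mem' := by
    rintro _ ⟨a, ha, rfl⟩
    refine ⟨a⁻¹, inv_mem ha, ?_⟩
    have h1 := hab _ (inv_mem ha) _ (hn _ ha)
    simp only [commutatorElement_def, inv_inv]
    have e1 : (a * c * a⁻¹ * c⁻¹)⁻¹ = c * a * c⁻¹ * a⁻¹ := by group
    have e2 : a⁻¹ * c * a * c⁻¹ = a⁻¹ * (c * a * c⁻¹) := by group
    rw [e1, e2, h1]

variable {A c} (hab : ∀ a ∈ A, ∀ b ∈ A, a * b = b * a) (hn : ∀ a ∈ A, c * a * c⁻¹ ∈ A)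

lemma comm_mem_psiR {a : Γ} (ha : a ∈ A) : ⁅a, c⁆ ∈ psiR A c hab hn := ⟨a, ha, rfl⟩

lemma conj_mem_psiR {y : Γ} (hy : y ∈ psiR A c hab hn) : c * y * c⁻¹ ∈ psiR A c hab hn := by
  obtain ⟨a, ha, rfl⟩ := hy
  refine ⟨c * a * c⁻¹, hn _ ha, ?_⟩
  simp only [commutatorElement_def]
  group

lemma comm_pow_mem_psiR {a : Γ} (ha : a ∈ A) (j : ℕ) : ⁅a, c ^ j⁆ ∈ psiR A c hab hn := by
  induction j with
  | zero => simp [one_mem]
  | succ j ih =>
    have h1 := mul_mem (comm_mem_psiR hab hn ha) (conj_mem_psiR hab hn ih)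
    convert h1 using 1
    simp only [commutatorElement_def, pow_succ']
    group

include hn in
lemma pow_conj_mem {a : Γ} (ha : a ∈ A) (j : ℕ) : c ^ j * a * (c ^ j)⁻¹ ∈ A := by
  induction j with
  | zero => simpa using ha
  | succ j ih =>
    have h1 := hn _ ih
    convert h1 using 1
    simp only [pow_succ']
    group

/-- All the commutators in the group generated. -/
theorem comm_mem_psiR_all {t s : Γ} (ht : t ∈ A) (hs : s ∈ A) (i j : ℕ) :
    ⁅t * c ^ i, s * c ^ j⁆ ∈ psiR A c hab hn := by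
  have h0 : c ^ i * c ^ j = c ^ j * c ^ i := (Commute.refl c).pow_pow i j
  rw [comm_formula h0]
  have hP := pow_conj_mem hn hs i
  have hQ := pow_conj_mem hn ht j
  have h1 := hab _ hP _ (inv_mem hQ)
  have e : t * (c ^ i * s * (c ^ i)⁻¹) * (c ^ j * t * (c ^ j)⁻¹)⁻¹ * s⁻¹ =
      ⁅t, c ^ j⁆ * ⁅s, c ^ i⁆⁻¹ := by
    rw [mul_assoc t, h1]
    simp only [commutatorElement_def]
    group
  rw [e]
  exact mul_mem (comm_pow_mem_psiR hab hn ht j) (inv_mem (comm_pow_mem_psiR hab hn hs i))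

end abstract

section concrete

variable {F : Type u} [Field F] {q : ℕ}

lemma dg_mul (d d' : Fin 3 → F) (hn hdet hn' hdet') :
    dg (q := q) d hn hdet * dg d' hn' hdet' = dg (q := q) (d * d') (fun i => by
      rw [Pi.mul_apply, mul_pow, hn, hn', one_mul]) (by
      simp only [Pi.mul_apply]
      linear_combination (d' 0 * d' 1 * d' 2) * hdet + hdet') := by
  apply Subtype.ext
  apply Subtype.ext
  change diagonal d * diagonal d' = diagonal (d * d')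
  rw [diagonal_mul_diagonal]
  rfl

lemma dg_one (hn hdet) : dg (q := q) (1 : Fin 3 → F) hn hdet = 1 := by
  apply Subtype.ext
  apply Subtype.ext
  change diagonal (1 : Fin 3 → F) = 1
  exact diagonal_one

/-- The diagonal torus. -/
def TT (q : ℕ) (F : Type u) [Field F] : Subgroup ↥(Cfsg.SU 3 F q) where
  carrier := {g | ∃ d hn hdet, g = dg d hn hdet}
  mul_mem' := by
    rintro _ _ ⟨d, hn, hdet, rfl⟩ ⟨d', hn', hdet', rfl⟩
    exact ⟨_, _, _, dg_mul d d' hn hdet hn' hdet'⟩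
  one_mem' := ⟨1, by simp, by simp, (dg_one _ _).symm⟩
  inv_mem' := by
    rintro _ ⟨d, hn, hdet, rfl⟩
    have h0 : ∀ i, d i ≠ 0 := by
      intro i hi
      have := hn i
      rw [hi, zero_pow (by omega)] at this
      exact zero_ne_one this
    have hn' : ∀ i, d⁻¹ i ^ (q + 1) = 1 := by
      intro i
      rw [Pi.inv_apply, inv_pow, hn, inv_one]
    have hdet' : d⁻¹ 0 * d⁻¹ 1 * d⁻¹ 2 = 1 := by
      simp only [Pi.inv_apply]
      rw [← mul_inv, ← mul_inv, hdet, inv_one]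
    refine ⟨d⁻¹, hn', hdet', ?_⟩
    rw [inv_eq_iff_mul_eq_one, dg_mul]
    have e : d * d⁻¹ = 1 := by
      funext i
      simp [h0 i]
    simp only [e]
    exact dg_one _ _

/-- The cyclic permutation of the coordinates. -/
def ccM : Matrix (Fin 3) (Fin 3) F := !![0, 0, 1; 1, 0, 0; 0, 1, 0]

lemma ccM_mulVec (x : Fin 3 → F) : (ccM : Matrix (Fin 3) (Fin 3) F) *ᵥ x = ![x 2, x 0, x 1] := by
  funext i
  fin_cases i <;> simp [ccM, mulVec, dotProduct, Fin.sum_univ_three]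

/-- The cyclic permutation as an element. -/
def cc : ↥(Cfsg.SU 3 F q) :=
  ⟨⟨ccM, by simp [ccM, det_fin_three]⟩, by
    intro u v
    change hermForm 3 F q (ccM *ᵥ u) (ccM *ᵥ v) = hermForm 3 F q u v
    simp only [hermForm, ccM_mulVec, Fin.sum_univ_three]
    simp
    ring⟩

lemma coe_cc : (cc (F := F) (q := q)).1.1 = ccM := rfl

lemma cc_cube : (cc (F := F) (q := q)) ^ 3 = 1 := by
  apply Subtype.ext
  apply Subtype.ext
  change ccM ^ 3 = (1 : Matrix (Fin 3) (Fin 3) F)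
  ext i j
  rw [pow_succ, pow_two]
  fin_cases i <;> fin_cases j <;> simp [ccM, Matrix.mul_apply, Fin.sum_univ_three]

/-- The rotation of the diagonal entries. -/
def rot (d : Fin 3 → F) : Fin 3 → F := ![d 2, d 0, d 1]

lemma cc_dg (d : Fin 3 → F) (hn hdet) (hn' hdet') :
    cc (F := F) (q := q) * dg (q := q) d hn hdet = dg (q := q) (rot d) hn' hdet' * cc := by
  apply Subtype.ext
  apply Subtype.ext
  change ccM * diagonal d = diagonal (rot d) * ccM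
  ext i j
  fin_cases i <;> fin_cases j <;> simp [ccM, rot, Matrix.mul_apply, Fin.sum_univ_three, diagonal_apply]

lemma rot_norm {d : Fin 3 → F} (hn : ∀ i, d i ^ (q + 1) = 1) : ∀ i, rot d i ^ (q + 1) = 1 := by
  intro i
  fin_cases i <;> simp [rot, hn]

lemma rot_det {d : Fin 3 → F} (hdet : d 0 * d 1 * d 2 = 1) : rot d 0 * rot d 1 * rot d 2 = 1 := by
  simp [rot]
  linear_combination hdet

lemma cc_conj_TT {g : ↥(Cfsg.SU 3 F q)} (hg : g ∈ TT q F) : cc * g * cc⁻¹ ∈ TT q F := by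
  obtain ⟨d, hn, hdet, rfl⟩ := hg
  rw [cc_dg d hn hdet (rot_norm hn) (rot_det hdet), mul_inv_cancel_right]
  exact ⟨_, _, _, rfl⟩

lemma cc_inv : (cc (F := F) (q := q))⁻¹ = cc ^ 2 := by
  rw [inv_eq_iff_mul_eq_one, ← pow_succ']
  exact cc_cube

lemma pow_conj_TT (j : ℕ) {g : ↥(Cfsg.SU 3 F q)} (hg : g ∈ TT q F) : cc ^ j * g * (cc ^ j)⁻¹ ∈ TT q F :=
  pow_conj_mem (fun a ha => cc_conj_TT ha) hg j

/-- The torus extended by the cyclic permutation. -/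
def X3 (q : ℕ) (F : Type u) [Field F] : Subgroup ↥(Cfsg.SU 3 F q) where
  carrier := {g | ∃ t ∈ TT q F, ∃ j : ℕ, g = t * cc ^ j}
  mul_mem' := by
    rintro _ _ ⟨t, ht, i, rfl⟩ ⟨s, hs, j, rfl⟩
    refine ⟨t * (cc ^ i * s * (cc ^ i)⁻¹), mul_mem ht (pow_conj_TT i hs), i + j, ?_⟩
    rw [pow_add]
    group
  one_mem' := ⟨1, one_mem _, 0, by simp⟩
  inv_mem' := by
    rintro _ ⟨t, ht, j, rfl⟩
    have h : (cc (F := F) (q := q) ^ j)⁻¹ = cc ^ (2 * j) := by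
      rw [pow_mul, ← cc_inv, inv_pow]
    refine ⟨cc ^ (2 * j) * t⁻¹ * (cc ^ (2 * j))⁻¹, pow_conj_TT _ (inv_mem ht), 2 * j, ?_⟩
    rw [inv_mul_cancel_right, _root_.mul_inv_rev, h]

lemma dg_congr {d d' : Fin 3 → F} (h : d = d') (hn hdet hn' hdet') :
    dg (q := q) d hn hdet = dg (q := q) d' hn' hdet' := by
  subst h
  rfl

lemma cc_pow_single (i : Fin 3) :
    ((cc (F := F) (q := q)) ^ (i : ℕ)).1.1 *ᵥ Pi.single 0 1 = Pi.single i 1 := by
  have e1 : ∀ k : ℕ, ∀ x : Fin 3 → F, ((cc (F := F) (q := q)) ^ (k + 1)).1.1 *ᵥ x = ccM *ᵥ (((cc (F := F) (q := q)) ^ k).1.1 *ᵥ x) := by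
    intro k x
    rw [pow_succ']
    change (ccM * _) *ᵥ x = _
    rw [mulVec_mulVec]
  fin_cases i
  · change ((cc (F := F) (q := q)) ^ 0).1.1 *ᵥ _ = _
    rw [pow_zero]
    change (1 : Matrix (Fin 3) (Fin 3) F) *ᵥ _ = _
    rw [one_mulVec]
    rfl
  · change ((cc (F := F) (q := q)) ^ (0 + 1)).1.1 *ᵥ _ = _
    rw [e1, pow_zero]
    change ccM *ᵥ ((1 : Matrix (Fin 3) (Fin 3) F) *ᵥ _) = _
    rw [one_mulVec, ccM_mulVec]
    funext k
    fin_cases k <;> simp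
  · change ((cc (F := F) (q := q)) ^ (1 + 1)).1.1 *ᵥ _ = _
    rw [e1, e1, pow_zero]
    change ccM *ᵥ (ccM *ᵥ ((1 : Matrix (Fin 3) (Fin 3) F) *ᵥ _)) = _
    rw [one_mulVec, ccM_mulVec, ccM_mulVec]
    funext k
    fin_cases k <;> simp

lemma dg_ne_zero {d : Fin 3 → F} (hn : ∀ i, d i ^ (q + 1) = 1) (i : Fin 3) : d i ≠ 0 := by
  intro hi
  have := hn i
  rw [hi, zero_pow (by omega)] at this
  exact zero_ne_one this

/-- The decomposition in `X3` is unique. -/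
lemma X3_uniq {t s : ↥(Cfsg.SU 3 F q)} (ht : t ∈ TT q F) (hs : s ∈ TT q F) {i j : Fin 3}
    (h : t * cc ^ (i : ℕ) = s * cc ^ (j : ℕ)) : t = s ∧ i = j := by
  obtain ⟨d, hn, hdet, rfl⟩ := ht
  obtain ⟨d', hn', hdet', rfl⟩ := hs
  have h1 : (dg (q := q) d hn hdet * cc ^ (i : ℕ)).1.1 *ᵥ Pi.single 0 1 = (dg (q := q) d' hn' hdet' * cc ^ (j : ℕ)).1.1 *ᵥ Pi.single 0 1 := by
    rw [h]
  have e : ∀ (a b : ↥(Cfsg.SU 3 F q)) (x : Fin 3 → F), (a * b).1.1 *ᵥ x = a.1.1 *ᵥ (b.1.1 *ᵥ x) := by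
    intro a b x
    change (a.1.1 * b.1.1) *ᵥ x = _
    rw [mulVec_mulVec]
  rw [e, e, cc_pow_single, cc_pow_single] at h1
  change diagonal d *ᵥ _ = diagonal d' *ᵥ _ at h1
  have hij : i = j := by
    by_contra hij
    have h2 := congrFun h1 i
    rw [mulVec_single_one, mulVec_single_one] at h2
    simp [Pi.single_apply, hij, dg_ne_zero hn i] at h2
  subst hij
  exact ⟨mul_right_cancel h, rfl⟩

section card

variable [Fintype F] (hF : Fintype.card F = q ^ 2)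

include hF

lemma card_TT : Nat.card (TT q F) = (q + 1) * (q + 1) := by
  classical
  have hq := two_le hF
  have hN := card_norm_fiber hF 1 (one_pow q) one_ne_zero
  have h0 : ∀ a : {a : F // a ^ (q + 1) = 1}, (a : F) ≠ 0 := by
    rintro ⟨a, ha⟩ h
    simp only at h
    rw [h, zero_pow (by omega)] at ha
    exact zero_ne_one ha
  have hd : ∀ p : {a : F // a ^ (q + 1) = 1} × {a : F // a ^ (q + 1) = 1}, ∀ i,
      (![(p.1 : F), (p.2 : F), ((p.1 : F) * p.2)⁻¹] : Fin 3 → F) i ^ (q + 1) = 1 := by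
    rintro ⟨⟨a, ha⟩, ⟨b, hb⟩⟩ i
    fin_cases i
    · simpa using ha
    · simpa using hb
    · simp [mul_pow, inv_pow, ha, hb]
  have hdet : ∀ p : {a : F // a ^ (q + 1) = 1} × {a : F // a ^ (q + 1) = 1},
      (![(p.1 : F), (p.2 : F), ((p.1 : F) * p.2)⁻¹] : Fin 3 → F) 0 * (![(p.1 : F), (p.2 : F), ((p.1 : F) * p.2)⁻¹] : Fin 3 → F) 1 * (![(p.1 : F), (p.2 : F), ((p.1 : F) * p.2)⁻¹] : Fin 3 → F) 2 = 1 := by
    rintro ⟨a, b⟩
    have h1 := h0 a
    have h2 := h0 b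
    simp
    field_simp
  let f : {a : F // a ^ (q + 1) = 1} × {a : F // a ^ (q + 1) = 1} → TT q F := fun p =>
    ⟨dg _ (hd p) (hdet p), ⟨_, _, _, rfl⟩⟩
  have hf : Function.Bijective f := by
    constructor
    · rintro ⟨⟨a, ha⟩, ⟨b, hb⟩⟩ ⟨⟨a', ha'⟩, ⟨b', hb'⟩⟩ h
      have h1 := congrArg (fun g : TT q F => g.1.1.1) h
      simp only [f, coe_dg] at h1
      have h2 := diagonal_injective h1
      have h3 := congrFun h2 0
      have h4 := congrFun h2 1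
      simp at h3 h4
      subst h3 h4
      rfl
    · rintro ⟨_, d, hn, hdt, rfl⟩
      refine ⟨(⟨d 0, hn 0⟩, ⟨d 1, hn 1⟩), ?_⟩
      apply Subtype.ext
      refine dg_congr ?_ (hd _) (hdet _) hn hdt
      funext i
      have h1 := dg_ne_zero hn 0
      have h2 := dg_ne_zero hn 1
      fin_cases i
      · rfl
      · rfl
      · simp
        field_simp
        linear_combination -hdt
  rw [← Nat.card_congr (Equiv.ofBijective f hf), Nat.card_prod, hN]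

lemma card_X3 : Nat.card (X3 q F) = (q + 1) * (q + 1) * 3 := by
  classical
  let f : TT q F × Fin 3 → X3 q F := fun p => ⟨p.1.1 * cc ^ (p.2 : ℕ), ⟨p.1.1, p.1.2, _, rfl⟩⟩
  have hf : Function.Bijective f := by
    constructor
    · rintro ⟨t, i⟩ ⟨s, j⟩ h
      have h1 : t.1 * cc ^ (i : ℕ) = s.1 * cc ^ (j : ℕ) := congrArg Subtype.val h
      obtain ⟨h2, h3⟩ := X3_uniq t.2 s.2 h1
      subst h3
      rw [Subtype.ext h2]
    · rintro ⟨_, t, ht, j, rfl⟩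
      refine ⟨(⟨t, ht⟩, ⟨j % 3, Nat.mod_lt _ (by norm_num)⟩), ?_⟩
      apply Subtype.ext
      change t * cc ^ (j % 3) = t * cc ^ j
      congr 1
      conv_rhs => rw [← Nat.div_add_mod j 3, pow_add, pow_mul, cc_cube, one_pow, one_mul]
  rw [← Nat.card_congr (Equiv.ofBijective f hf), Nat.card_prod, card_TT hF, Nat.card_fin]

lemma index_X3 : (X3 q F).index * ((q + 1) * (q + 1) * 3) = q ^ 3 * ((q ^ 2 - 1) * (q ^ 3 + 1)) := by
  have h1 := (X3 q F).card_mul_index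
  rw [card_X3 hF, card_SU3 hF] at h1
  rw [mul_comm]
  exact h1

end card

end concrete

section main

variable {F : Type u} [Field F] [Fintype F] {q : ℕ} (hF : Fintype.card F = q ^ 2)

lemma mulVec_smul_aux (e1 : ∀ (D : Fin 3 → F), (diagonal D *ᵥ Pi.single 2 1 : Fin 3 → F) = D 2 • Pi.single 2 1)
    (d d' : Fin 3 → F) (L : Matrix (Fin 3) (Fin 3) F) (h3 : L *ᵥ Pi.single 2 1 = Pi.single 2 1) (h2 : d 2 * d' 2 = 1) :
    (diagonal d * L) *ᵥ (diagonal d' *ᵥ Pi.single 2 1) = Pi.single 2 1 := by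
  rw [e1 d', mulVec_smul, ← mulVec_mulVec, h3, e1 d, smul_smul, mul_comm, h2, one_smul]

lemma TT_comm {a b : ↥(Cfsg.SU 3 F q)} (ha : a ∈ TT q F) (hb : b ∈ TT q F) : a * b = b * a := by
  obtain ⟨d, hn, hdet, rfl⟩ := ha
  obtain ⟨d', hn', hdet', rfl⟩ := hb
  rw [dg_mul, dg_mul]
  exact dg_congr (mul_comm d d') _ _ _ _

/-- The conjugation by an element normalising the stabiliser. -/
def cjLL (g : ↥(Cfsg.SU 3 F q)) (hg : ∀ l ∈ LL q F, g * l * g⁻¹ ∈ LL q F) : LL q F →* LL q F where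
  toFun l := ⟨g * l * g⁻¹, hg _ l.2⟩
  map_one' := by
    apply Subtype.ext
    simp
  map_mul' := by
    intro a b
    apply Subtype.ext
    simp only [Subgroup.coe_mul]
    group

lemma TT_norm_LL {g : ↥(Cfsg.SU 3 F q)} (hg : g ∈ TT q F) : ∀ l ∈ LL q F, g * l * g⁻¹ ∈ LL q F := by
  intro l hl
  obtain ⟨d', hn', hdet', hinv⟩ := inv_mem hg
  obtain ⟨d, hn, hdet, rfl⟩ := hg
  have h1 : (dg (q := q) d hn hdet * dg (q := q) d' hn' hdet').1.1 = 1 := by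
    rw [← hinv, mul_inv_cancel]
    rfl
  rw [dg_mul] at h1
  have h2 : d 2 * d' 2 = 1 := by
    have h3 : diagonal (d * d') = (1 : Matrix (Fin 3) (Fin 3) F) := h1
    have h4 := congrFun (congrFun h3 2) 2
    simpa using h4
  have h3 : l.1.1 *ᵥ Pi.single 2 1 = Pi.single 2 1 := hl
  change (diagonal d * l.1.1 * (dg (q := q) d hn hdet)⁻¹.1.1) *ᵥ _ = _
  rw [hinv]
  change (diagonal d * l.1.1 * diagonal d') *ᵥ _ = _
  have e1 : ∀ (D : Fin 3 → F), (diagonal D *ᵥ Pi.single 2 1 : Fin 3 → F) = D 2 • Pi.single 2 1 := by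
    intro D
    rw [mulVec_single_one]
    funext k
    fin_cases k <;> simp [Pi.single_apply]
  rw [← mulVec_mulVec, mulVec_smul_aux e1 d d' l.1.1 h3 h2]

lemma dg_LL (a : F) (ha : a ^ (q + 1) = 1) : ∃ (hn : ∀ i, (![a, a⁻¹, 1] : Fin 3 → F) i ^ (q + 1) = 1)
    (hdet : (![a, a⁻¹, 1] : Fin 3 → F) 0 * (![a, a⁻¹, 1] : Fin 3 → F) 1 * (![a, a⁻¹, 1] : Fin 3 → F) 2 = 1),
    dg (q := q) (![a, a⁻¹, 1] : Fin 3 → F) hn hdet ∈ LL q F := by
  have h0 : a ≠ 0 := by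
    rintro rfl
    rw [zero_pow (by omega)] at ha
    exact zero_ne_one ha
  refine ⟨?_, ?_, ?_⟩
  · intro i
    fin_cases i
    · simpa using ha
    · simp [inv_pow, ha]
    · simp
  · simp [h0]
  · change diagonal _ *ᵥ _ = _
    rw [mulVec_single_one]
    funext k
    fin_cases k <;> simp [Pi.single_apply]

/-- The decomposition of the torus. -/
lemma TT_decomp {g : ↥(Cfsg.SU 3 F q)} (hg : g ∈ TT q F) : ∃ x₁ x₂ : LL q F, x₁.1 ∈ TT q F ∧ x₂.1 ∈ TT q F ∧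
    g = x₁.1 * (cc * x₂.1 * cc⁻¹) := by
  obtain ⟨d, hn, hdet, rfl⟩ := hg
  have h0 := dg_ne_zero hn
  have ha : (d 0) ^ (q + 1) = 1 := hn 0
  have he : (d 0 * d 1) ^ (q + 1) = 1 := by rw [mul_pow, hn, hn, one_mul]
  obtain ⟨n1, d1, m1⟩ := dg_LL (q := q) (d 0) ha
  obtain ⟨n2, d2, m2⟩ := dg_LL (q := q) (d 0 * d 1) he
  refine ⟨⟨_, m1⟩, ⟨_, m2⟩, ⟨_, n1, d1, rfl⟩, ⟨_, n2, d2, rfl⟩, ?_⟩
  simp only
  rw [cc_dg _ n2 d2 (rot_norm n2) (rot_det d2), mul_inv_cancel_right, dg_mul]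
  refine dg_congr ?_ _ _ _ _
  funext i
  have h3 := h0 0
  have h4 := h0 1
  fin_cases i
  · simp [rot]
  · simp [rot]
    field_simp
  · simp [rot]
    field_simp
    linear_combination hdet

lemma TT_comm_cc {g : ↥(Cfsg.SU 3 F q)} (hg : g ∈ TT q F) (h : g * cc = cc * g) : g ∈ center ↥(Cfsg.SU 3 F q) := by
  obtain ⟨d, hn, hdet, rfl⟩ := hg
  rw [cc_dg d hn hdet (rot_norm hn) (rot_det hdet)] at h
  have h1 := mul_right_cancel h
  have h2 : diagonal d = diagonal (rot d) := congrArg (fun g : ↥(Cfsg.SU 3 F q) => g.1.1) h1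
  have h3 := diagonal_injective h2
  have h4 := congrFun h3 0
  have h5 := congrFun h3 1
  simp [rot] at h4 h5
  refine Cfsg.Agent.Lib.Witt.SU3Tori.center_of_scalar (a := d 0) ?_
  intro x
  change diagonal d *ᵥ x = _
  funext i
  rw [mulVec_diagonal]
  fin_cases i
  · simp
  · simp [h5]
  · simp [h4, h5]

section ext

variable {Γ : Type*} [Group Γ] {π : Γ →* ↥(Cfsg.SU 3 F q)}

include hF

/-- Lifts of torus elements fix the section on the torus. -/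
theorem conj_fix (hq : 4 ≤ q) (hπ : IsStemExtension π) {ρ : LL q F →* Γ} (hρ : ∀ l, π (ρ l) = l) {y : Γ} (hy : π y ∈ TT q F)
    (x : LL q F) (hx : x.1 ∈ TT q F) : y * ρ x * y⁻¹ = ρ x := by
  have hgn := TT_norm_LL hy
  have h := Cfsg.Agent.Lib.Schur.SpStem.conj_lift hπ.2.1 (perfect_LL hF hq) ρ (ρ.comp (cjLL (π y) hgn)) y (fun k => by
    rw [hρ, MonoidHom.comp_apply, hρ]
    rfl) x
  rw [h, MonoidHom.comp_apply]
  congr 1
  apply Subtype.ext
  change π y * x.1 * (π y)⁻¹ = x.1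
  rw [TT_comm hy hx, mul_inv_cancel_right]

/-- The preimage of the torus is abelian. -/
theorem A_comm (hq : 4 ≤ q) (hπ : IsStemExtension π) {ρ : LL q F →* Γ} (hρ : ∀ l, π (ρ l) = l) {s t : Γ}
    (hs : π s ∈ TT q F) (ht : π t ∈ TT q F) : s * t = t * s := by
  obtain ⟨c, hc⟩ := hπ.1 (cc (F := F) (q := q))
  obtain ⟨x₁, x₂, h1, h2, h3⟩ := TT_decomp ht
  have hA : s * ρ x₁ * s⁻¹ = ρ x₁ := conj_fix hF hq hπ hρ hs x₁ h1
  have hs' : π (c⁻¹ * s * c) ∈ TT q F := by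
    rw [map_mul, map_mul, map_inv, hc]
    have := pow_conj_TT (F := F) (q := q) 2 hs
    rw [← cc_inv, inv_inv] at this
    exact this
  have hB := conj_fix hF hq hπ hρ hs' x₂ h2
  set B := c * ρ x₂ * c⁻¹ with hBdef
  have hB2 : s * B * s⁻¹ = B := by
    have e : s * B * s⁻¹ = c * ((c⁻¹ * s * c) * ρ x₂ * (c⁻¹ * s * c)⁻¹) * c⁻¹ := by
      rw [hBdef]
      group
    rw [e, hB]
  have h4 : π ((ρ x₁ * B)⁻¹ * t) = 1 := by
    rw [map_mul, map_inv, map_mul, hρ, hBdef, map_mul, map_mul, map_inv, hρ, hc, ← h3, inv_mul_cancel]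
  have h5 : (ρ x₁ * B)⁻¹ * t ∈ center Γ := hπ.2.1 h4
  set k := (ρ x₁ * B)⁻¹ * t with hk
  have h6 : t = ρ x₁ * B * k := by rw [hk]; group
  rw [h6]
  have h7 : s * ρ x₁ = ρ x₁ * s := mul_inv_eq_iff_eq_mul.1 hA
  have h8 : s * B = B * s := mul_inv_eq_iff_eq_mul.1 hB2
  have h9 : s * k = k * s := mem_center_iff.1 h5 s
  calc s * (ρ x₁ * B * k) = (s * ρ x₁) * B * k := by group
    _ = ρ x₁ * (s * B) * k := by rw [h7]; group
    _ = ρ x₁ * B * (s * k) := by rw [h8]; group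
    _ = _ := by rw [h9]; group

end ext

/-- The bound for the kernel from the `3`-local subgroup. -/
theorem pow_ker_X3 (hF : Fintype.card F = q ^ 2) (hq : 4 ≤ q) {Γ : Type*} [Group Γ] [Finite Γ] {π : Γ →* ↥(Cfsg.SU 3 F q)}
    (hπ : IsStemExtension π) {z : Γ} (hz : π z = 1) : z ^ (X3 q F).index = 1 := by
  classical
  haveI : Finite ↥(Cfsg.SU 3 F q) := Finite.of_injective (fun g => g.1.1) (fun a b h => Subtype.ext (Subtype.ext h))
  obtain ⟨ρ, hρ⟩ := exists_section_LL hF hq hπ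
  obtain ⟨c, hc⟩ := hπ.1 (cc (F := F) (q := q))
  let A : Subgroup Γ := (TT q F).comap π
  have hab : ∀ a ∈ A, ∀ b ∈ A, a * b = b * a := fun a ha b hb => A_comm hF hq hπ hρ ha hb
  have hn : ∀ a ∈ A, c * a * c⁻¹ ∈ A := by
    intro a ha
    change π (c * a * c⁻¹) ∈ TT q F
    rw [map_mul, map_mul, map_inv, hc]
    exact cc_conj_TT ha
  refine pow_index_of hπ (X3 q F) (R := psiR A c hab hn) ?_ ?_ hz
  · rintro _ ⟨a, ha, rfl⟩ hy
    rw [map_commutatorElement, hc, commutatorElement_eq_one_iff_commute] at hy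
    have h1 := TT_comm_cc ha hy
    have h2 := lift_center hπ (perfect_SU3 hF (by omega)) h1
    rw [commutatorElement_eq_one_iff_commute]
    exact (mem_center_iff.1 h2 c).symm
  · intro x hx y hy
    obtain ⟨t, ht, i, hi⟩ := hx
    obtain ⟨s, hs, j, hj⟩ := hy
    have h1 : x * (c ^ i)⁻¹ ∈ A := by
      change π (x * (c ^ i)⁻¹) ∈ TT q F
      rw [map_mul, map_inv, map_pow, hc, hi, mul_inv_cancel_right]
      exact ht
    have h2 : y * (c ^ j)⁻¹ ∈ A := by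
      change π (y * (c ^ j)⁻¹) ∈ TT q F
      rw [map_mul, map_inv, map_pow, hc, hj, mul_inv_cancel_right]
      exact hs
    have h3 := comm_mem_psiR_all hab hn h1 h2 i j
    rwa [inv_mul_cancel_right, inv_mul_cancel_right] at h3

omit [Field F] [Fintype F] in
/-- The numerics for `3`. -/
lemma three_num (q I : ℕ) (hq : 2 ≤ q) (h3 : 3 ∣ q ^ 2 - q + 1)
    (hI : I * ((q + 1) * (q + 1) * 3) = q ^ 3 * ((q ^ 2 - 1) * (q ^ 3 + 1))) : ¬ 3 ∣ I := by
  rintro ⟨J, rfl⟩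
  have h0 : q ≤ q ^ 2 := by nlinarith
  have hc : ((q ^ 2 - q + 1 : ℕ) : ZMod 9) = (q : ZMod 9) * q - q + 1 := by
    push_cast [Nat.cast_sub h0]
    ring
  have hc3 : ((q ^ 2 - q + 1 : ℕ) : ZMod 3) = (q : ZMod 3) * q - q + 1 := by
    push_cast [Nat.cast_sub h0]
    ring
  have h4 : (q : ZMod 3) = 2 := by
    have h5 : ((q ^ 2 - q + 1 : ℕ) : ZMod 3) = 0 := (ZMod.natCast_eq_zero_iff _ 3).2 h3
    rw [hc3] at h5
    have h6 : ∀ x : ZMod 3, x * x - x + 1 = 0 → x = 2 := by decide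
    exact h6 _ h5
  have hn3 : ¬ 3 ∣ q := by
    intro h
    have := (ZMod.natCast_eq_zero_iff q 3).2 h
    rw [h4] at this
    exact absurd this (by decide)
  have hn31 : ¬ 3 ∣ q - 1 := by
    intro h
    have h5 := (ZMod.natCast_eq_zero_iff (q - 1) 3).2 h
    rw [Nat.cast_sub (by omega), h4] at h5
    exact absurd h5 (by decide)
  have hn9 : ¬ 9 ∣ q ^ 2 - q + 1 := by
    intro h
    have h5 : ((q ^ 2 - q + 1 : ℕ) : ZMod 9) = 0 := (ZMod.natCast_eq_zero_iff _ 9).2 h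
    rw [hc] at h5
    have h6 : ∀ x : ZMod 9, x * x - x + 1 ≠ 0 := by decide
    exact h6 _ h5
  have e1 : q ^ 2 - 1 = (q - 1) * (q + 1) := by
    obtain ⟨r, rfl⟩ : ∃ r, q = r + 1 := ⟨q - 1, by omega⟩
    simp only [Nat.add_sub_cancel]
    have : (r + 1) ^ 2 = r * (r + 1 + 1) + 1 := by ring
    rw [this, Nat.add_sub_cancel]
  have e2 := Cfsg.Agent.Lib.Witt.SU3Tori.cyc_mul_succ q (by omega)
  rw [e1, ← e2] at hI
  have h5 : 9 * J = q ^ 3 * (q - 1) * (q ^ 2 - q + 1) := by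
    have hpos : 0 < (q + 1) * (q + 1) := by positivity
    refine Nat.eq_of_mul_eq_mul_right hpos ?_
    calc 9 * J * ((q + 1) * (q + 1)) = 3 * J * ((q + 1) * (q + 1) * 3) := by ring
      _ = _ := hI
      _ = _ := by ring
  have h6 : 9 ∣ q ^ 3 * (q - 1) * (q ^ 2 - q + 1) := ⟨J, h5.symm⟩
  have h7 : Nat.Coprime 9 (q ^ 3 * (q - 1)) := by
    have h8 : Nat.Coprime 3 (q ^ 3 * (q - 1)) := by
      rw [Nat.Prime.coprime_iff_not_dvd Nat.prime_three]
      intro h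
      rcases (Nat.Prime.dvd_mul Nat.prime_three).1 h with h | h
      · exact hn3 (Nat.prime_three.dvd_of_dvd_pow h)
      · exact hn31 h
    exact Nat.Coprime.pow_left 2 h8
  exact hn9 (h7.dvd_of_dvd_mul_left h6)

/-- **The Schur multiplier of `SU₃(q)`, `q ≥ 4`, is trivial.** -/
theorem stemSU3 (hF : Fintype.card F = q ^ 2) (h4 : 4 ≤ q) : StemTriv ↥(Cfsg.SU 3 F q) := by
  intro Γ _ _ π hπ z hz
  classical
  obtain ⟨p, hpc⟩ := CharP.exists F
  obtain ⟨n, hpp, hqn⟩ := FiniteField.card F p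
  haveI : Fact p.Prime := ⟨hpp⟩
  have h1 := pow_ker_SU hF (by omega) hπ hz
  have h2 := pow_ker_XX hF h4 hπ hz
  have h3 := pow_ker_Cyc hF (by omega) hπ hz
  have hcop := coprime_m0 hF (p := p) (by omega)
  -- the order is prime to `q`
  have hqp : ∃ f, q = p ^ f := by
    have hdvd : q ∣ p ^ (n : ℕ) := by
      rw [← hqn, hF]
      exact dvd_pow_self q (by norm_num)
    obtain ⟨f, hf, rfl⟩ := (Nat.dvd_prime_pow hpp).1 hdvd
    exact ⟨f, rfl⟩
  obtain ⟨f, hf⟩ := hqp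
  have hqcop : Nat.Coprime q ((q ^ 2 - 1) * (q ^ 3 + 1)) := by
    rw [hf]
    rw [← hf]
    have : Nat.Coprime (p ^ f) ((q ^ 2 - 1) * (q ^ 3 + 1)) := Nat.Coprime.pow_left f hcop
    rwa [← hf] at this
  have o1 := orderOf_dvd_of_pow_eq_one h1
  have o2 := orderOf_dvd_of_pow_eq_one h2
  have o3 := orderOf_dvd_of_pow_eq_one h3
  have ocq : Nat.Coprime (orderOf z) q := (Nat.Coprime.coprime_dvd_right o1 hqcop).symm
  have o2' : orderOf z ∣ q ^ 2 - q + 1 := (Nat.Coprime.pow_right 2 ocq).dvd_of_dvd_mul_left o2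
  have o3' : orderOf z ∣ (q ^ 2 - 1) * (q + 1) := by
    rw [mul_assoc] at o3
    exact (Nat.Coprime.pow_right 3 ocq).dvd_of_dvd_mul_left o3
  have o4 : orderOf z ∣ 3 := by
    have e : (q ^ 2 - q + 1) * (q + 2) = (q ^ 2 - 1) * (q + 1) + 3 := by
      have h0 : q ≤ q ^ 2 := by nlinarith
      have h5 : 1 ≤ q ^ 2 := Nat.one_le_pow _ _ (by omega)
      zify [h0, h5]
      ring
    have h6 : orderOf z ∣ (q ^ 2 - 1) * (q + 1) + 3 := by
      rw [← e]
      exact o2'.mul_right _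
    exact (Nat.dvd_add_right o3').1 h6
  rcases (Nat.dvd_prime Nat.prime_three).1 o4 with h5 | h5
  · exact orderOf_eq_one_iff.1 h5
  · exfalso
    rw [h5] at o2'
    have h6 := pow_ker_X3 hF h4 hπ hz
    have h7 := orderOf_dvd_of_pow_eq_one h6
    rw [h5] at h7
    exact three_num q _ (by omega) o2' (index_X3 hF) h7

end main

end Cfsg.Agent.Lib.SUStem
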