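import Cfsg.Agent.Lib.SUStem.URel
import Cfsg.Agent.Lib.SUStem.Three
import Cfsg.Agent.Lib.SUStem.Base33
import Cfsg.Agent.Lib.SUStem.Base52
import Cfsg.Agent.Lib.SUStem.ORel
import Cfsg.Agent.Lib.SUStem.StepE
import Cfsg.Agent.Lib.SUStem.StepO
import Cfsg.Agent.Lib.Classical.HermBridge

/-!
# The stem extensions of the special unitary groups are trivial
-/

set_option autoImplicit false
set_option linter.unusedSectionVars false
set_option linter.unusedVariables false
set_option linter.style.haveILetI false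

namespace Cfsg.Agent.Lib.SUStem

open Cfsg Subgroup Matrix
open Cfsg.Agent.Lib.PresU Cfsg.Agent.Lib.PresSU3 Cfsg.Agent.Lib.HermCount.Field

universe u

variable {F : Type u} [Field F] [Fintype F] {q : ℕ} (hF : Fintype.card F = q ^ 2)

include hF

/-- `SU_n(q)` is perfect. -/
theorem perfect_SU (n : ℕ) (hn : 3 ≤ n) (h3 : ¬ (n = 3 ∧ q = 2)) : commutator ↥(Cfsg.SU n F q) = ⊤ :=
  Cfsg.Agent.Lib.Classical.SympSimple.commutator_eq_top_of_mulEquiv (Cfsg.Agent.Lib.Classical.HermBridge.suEquiv n q)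
    (Cfsg.Agent.Lib.Classical.HermSimple.commutator_eq_top (Cfsg.Agent.Lib.Classical.HermBridge.hform hF n)
      (Cfsg.Agent.Lib.Classical.HermBridge.invol_frob hF) (Cfsg.Agent.Lib.Classical.HermBridge.perfect_hyp hF hn h3)
      (by rw [Module.finrank_fin_fun]; exact hn))

/-- The even model. -/
lemma even_iso (m : ℕ) : Nonempty (GE (frobHom hF) (Fin m) ≃* ↥(Cfsg.SU (m + m) F q)) := by
  obtain ⟨P, P', h1, h2, hP⟩ := gram_even hF (Fin m) (n := m + m) (by simp)
  obtain ⟨e, -, -⟩ := su_bridge hF h1 h2 hP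
  exact ⟨e⟩

/-- The odd model. -/
lemma odd_iso (m : ℕ) : Nonempty (GO (frobHom hF) (Fin m) ≃* ↥(Cfsg.SU (m + m + 1) F q)) := by
  obtain ⟨P, P', h1, h2, hP⟩ := gram_odd hF (Fin m) (n := m + m + 1) (by simp)
  obtain ⟨e, -, -⟩ := su_bridge hF h1 h2 hP
  exact ⟨e⟩

/-- The odd model is perfect. -/
lemma perfect_GO (m : ℕ) (hm : 1 ≤ m) (h3 : ¬ (m + m + 1 = 3 ∧ q = 2)) : commutator (GO (frobHom hF) (Fin m)) = ⊤ := by
  obtain ⟨e⟩ := odd_iso hF m
  exact Cfsg.Agent.Lib.Classical.SympSimple.commutator_eq_top_of_mulEquiv e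
    (perfect_SU hF (m + m + 1) (by omega) h3)

/-- The degree three case in the model `GG`. -/
lemma stemGG (hq : 3 ≤ q) : StemTriv (GG (frobHom hF)) := by
  obtain ⟨e⟩ := Cfsg.Agent.Lib.PresSU3.exists_iso hF (two_le hF)
  refine StemTriv.congr e.symm ?_
  by_cases h4 : 4 ≤ q
  · exact stemSU3 hF h4
  · have h : q = 3 := by omega
    subst h
    exact stemSU3_three hF

/-- Odd degree over the field with four elements. -/
lemma stemGO_two (hq : q = 2) (m : ℕ) (hm : 2 ≤ m) : StemTriv (GO (frobHom hF) (Fin m)) := by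
  induction m, hm using Nat.le_induction with
  | base =>
    subst hq
    obtain ⟨e⟩ := odd_iso hF 2
    exact StemTriv.congr e.symm (stemSU5_two hF)
  | succ m hm ih =>
    exact stepO hF hq m hm ih (perfect_GO hF m (by omega) (by omega))

/-- The models of odd degree. -/
lemma stemGO_all (m : ℕ) (hm : 2 ≤ m) : StemTriv (GO (frobHom hF) (Fin m)) := by
  have hq2 := two_le hF
  by_cases hq : q = 2
  · exact stemGO_two hF hq m hm
  · have h3 : 3 ≤ q := by omega
    exact stemGO hF h3 m hm (stemGG hF h3)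

/-- All the stem extensions of `SU_n(q)` are trivial. -/
theorem stem_SU (n : ℕ) (hn : 3 ≤ n) (h3 : ¬ (n = 3 ∧ q = 2))
    (hexc : (n, q) ∉ ({(4, 2), (4, 3), (6, 2)} : Set (ℕ × ℕ))) : StemTriv ↥(Cfsg.SU n F q) := by
  have hq2 := two_le hF
  have hexc' : ¬ (n = 4 ∧ q = 2) ∧ ¬ (n = 4 ∧ q = 3) ∧ ¬ (n = 6 ∧ q = 2) := by
    refine ⟨fun h => hexc ?_, fun h => hexc ?_, fun h => hexc ?_⟩ <;> simp [h.1, h.2]
  obtain ⟨h42, h43, h62⟩ := hexc'
  rcases Nat.even_or_odd' n with ⟨m, hm | hm⟩
  · -- even degree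
    have hnm : n = m + m := by omega
    subst hnm
    obtain ⟨e⟩ := even_iso hF m
    refine StemTriv.congr e ?_
    by_cases h4 : 4 ≤ q
    · exact stemGE_q4 hF h4 m (by omega)
    · have hq' : q = 3 ∨ (q = 2 ∧ 4 ≤ m) := by
        by_cases hq3 : q = 3
        · exact Or.inl hq3
        · refine Or.inr ⟨by omega, ?_⟩
          have hq : q = 2 := by omega
          by_contra hcon
          have : m = 2 ∨ m = 3 := by omega
          rcases this with rfl | rfl
          · exact h42 ⟨rfl, hq⟩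
          · exact h62 ⟨rfl, hq⟩
      have hm3 : 3 ≤ m := by
        rcases hq' with hq | ⟨-, h⟩
        · by_contra hcon
          have : m = 2 := by omega
          subst this
          exact h43 ⟨rfl, hq⟩
        · omega
      exact stepE hF m hm3 hq' (stemGO_all hF (m - 1) (by omega))
        (perfect_GO hF (m - 1) (by omega) (by omega))
  · -- odd degree
    by_cases h1 : m = 1
    · subst h1
      have hn3 : n = 3 := by omega
      subst hn3
      obtain ⟨e⟩ := Cfsg.Agent.Lib.PresSU3.exists_iso hF (two_le hF)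
      have hq3 : 3 ≤ q := by
        by_contra hcon
        exact h3 ⟨rfl, by omega⟩
      exact StemTriv.congr e (stemGG hF hq3)
    · have hnm : n = m + m + 1 := by omega
      subst hnm
      obtain ⟨e⟩ := odd_iso hF m
      exact StemTriv.congr e (stemGO_all hF m (by omega))

end Cfsg.Agent.Lib.SUStem
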