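import Cfsg.Agent.Lib.SUStem.Defs
import Cfsg.Agent.Lib.PresU.Conc2
import Cfsg.Agent.Lib.PresU.OInj

/-!
# The target relations for the torus of `SU_{2n+1}`, and lifts to central extensions
-/

set_option autoImplicit false
set_option linter.unusedSectionVars false
set_option linter.unusedVariables false
set_option linter.unusedSimpArgs false
set_option linter.style.haveILetI false

namespace Cfsg.Agent.Lib.SUStem

open Cfsg Subgroup Matrix
open scoped commutatorElement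
open Cfsg.Agent.Lib.PresU
open Cfsg.Agent.Lib.PresSp.M2 Cfsg.Agent.Lib.PresSp.Mono Cfsg.Agent.Lib.PresSLn.TwoGen
open Cfsg.Agent.Lib.PresSp.Tgt (sj sj_mul sj_add sj_zero sj_tr sj_ne sj_sub one_sj_mul one_sj_mul_sj
  sj_mul_one_sj upM upM_mul upM_zero tt_coe_eq single_neg')
open Cfsg.Agent.Lib.PresSU3 (GG SUw fw qq ww GG_ext coe_qq coe_ww uM wM tM cstr_mul cstr_inv cstr_zero qq_mul qq_zero
  qq_inv qq_congr qq_inj ww_sq ww_inv mem_SUw)
open Cfsg.Agent.Lib.Schur.SpStem (cdg ev1 ev1_self ev1_ne dgM dgM_mul_inv dgM_inv_mul coe_cdg cdg_T conj_lift commute_lift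
  comm_of_scale trivial_of_scale)

variable {ι : Type*} [Fintype ι] [DecidableEq ι] {K : Type*} [Field K] {k : Type*} [Field k]
variable {σ : K →+* K} {j : k →+* K} {a b : ι}

local notation "ttG" => Cfsg.Agent.Lib.PresSU3.tt

section target

lemma dgM_ev1 (i : ι) (t : Kˣ) : dgM (ev1 i t) = (1 : Matrix ι ι K) + sj i ((t : K) - 1) := by
  ext r s
  by_cases h : r = s
  · subst h
    by_cases h2 : r = i
    · subst h2
      simp [dgM, ev1, sj]
    · simp [dgM, ev1, sj, h2, Function.update_of_ne, Ne.symm h2, single_apply]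
  · simp [dgM, sj, h, single_apply, one_apply]
    intro h1 h2
    exact absurd (h1.symm.trans h2) h

lemma hh_dgM_D (σ : K →+* K) (i : ι) (t : Kˣ) : hh σ (dgM (ev1 i t)⁻¹) = (1 : Matrix ι ι K) + sj i ((σ (t : K))⁻¹ - 1) := by
  have e : (ev1 i t)⁻¹ = ev1 i t⁻¹ := by
    funext r
    by_cases h : r = i
    · subst h
      simp [ev1]
    · simp [ev1, h, Function.update_of_ne]
  rw [e, dgM_ev1, hh_add, hh_one, hh_sj]
  simp [map_inv₀]

/-- The torus at `i` acting on the Levi subgroup. -/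
lemma tM_lev (i : ι) (t : Kˣ) (l : SpecialLinearGroup ι K) :
    MOm i (tM σ t) * levO σ l = levO σ (cdg (ev1 i t) l) * MOm i (tM σ t) := by
  rw [MOm_tM, levO, levO, ex, ex, levM, levM, fromBlocks_multiply, fromBlocks_multiply, fromBlocks_multiply,
    fromBlocks_multiply]
  simp only [Matrix.zero_mul, Matrix.mul_zero, add_zero, zero_add, Matrix.mul_one, Matrix.one_mul]
  refine fromBlocks_inj.2 ⟨fromBlocks_inj.2 ⟨?_, rfl, rfl, ?_⟩, rfl, rfl, rfl⟩
  · rw [coe_cdg, ← dgM_ev1, Matrix.mul_assoc, dgM_inv_mul, Matrix.mul_one]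
  · have e : (cdg (ev1 i t) l)⁻¹ = cdg (ev1 i t) l⁻¹ := (map_inv _ _).symm
    have hY : hh σ (dgM (ev1 i t)) * hh σ (dgM (ev1 i t)⁻¹) = 1 := by
      rw [← hh_mul, dgM_inv_mul, hh_one]
    rw [e, coe_cdg, ← hh_dgM_D, hh_mul, hh_mul, Matrix.mul_assoc, Matrix.mul_assoc, hY, Matrix.mul_one]

/-- The torus at `i` on the Levi subgroup, in the target group. -/
lemma MS_tt_lv (hσ : ∀ x, σ (σ x) = x) (i : ι) (t : Kˣ) (l : SpecialLinearGroup ι K) :
    MS i (ttG hσ t) * lvO hσ l * (MS i (ttG hσ t))⁻¹ = lvO hσ (cdg (ev1 i t) l) := by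
  apply conj_coe'
  exact tM_lev i t l

/-- The torus at `i` on the rank one group at another index. -/
lemma MS_tt_MS (hσ : ∀ x, σ (σ x) = x) {i i' : ι} (h : i ≠ i') (t : Kˣ) (g : GG σ) :
    MS i (ttG hσ t) * MS i' g * (MS i (ttG hσ t))⁻¹ = MS i' (del hσ (rU σ t) g) := by
  apply conj_coe'
  change MOm i (tM σ t) * MOm i' g.1.1 = MOm i' (del hσ (rU σ t) g).1.1 * MOm i (tM σ t)
  have h0 := t.ne_zero
  have h1 := (map_ne_zero σ).2 h0
  have hne : σ (t : K) / t ≠ 0 := div_ne_zero h1 h0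
  rw [conj_gen (tM_E h.symm (t : K)) (E_tM h.symm (t : K)) (Dd_mul hne), coe_del, Dm_rU hσ]

/-- The element `Up` with a vanishing column commutes with all of them. -/
lemma Up_comm_zero (A : ι → K) (S T : Matrix ι ι K) : Up σ A S * Up σ 0 T = Up σ 0 T * Up σ A S := by
  have h0 : hm σ A (0 : ι → K) = 0 := by
    ext r t
    simp [hm]
  have h1 : hm σ (0 : ι → K) A = 0 := by
    ext r t
    simp [hm]
  rw [Up_mul, Up_mul, h0, h1, zero_add, add_zero, add_comm S T]

lemma rU_jU (I : Inv σ j) (r : kˣ) : rU σ (jU j r) = 1 := by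
  apply Units.ext
  have h0 : j (r : k) ≠ 0 := (map_ne_zero j).2 r.ne_zero
  simp [rU_val, I.fix, h0]

lemma nm_rU (hσ : ∀ x, σ (σ x) = x) (u : Kˣ) : ((rU σ u : Kˣ) : K) * σ (rU σ u : Kˣ) = 1 := by
  have h0 := u.ne_zero
  have h1 := (map_ne_zero σ).2 h0
  rw [rU_val, map_mul, map_inv₀, hσ]
  field_simp

lemma lvO_injD (hσ : ∀ x, σ (σ x) = x) {l l' : SpecialLinearGroup ι K} (h : lvO hσ l = lvO hσ l') : l = l' := by
  apply Subtype.ext
  ext r t
  have h1 := congrArg (fun x : GO σ ι => x.1.1 (Sum.inl (Sum.inl r)) (Sum.inl (Sum.inl t))) h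
  exact h1

section inc

variable [Finite K] [Finite k] (I : Inv σ j) {s : K} (hs : s ≠ 0) (hss : σ s = -s)

/-- The torus on the image of the embedding of `SL₂`. -/
lemma tt_Inc (u : Kˣ) (g : M2 k) :
    ttG I.invol u * Inc I hs hss g * (ttG I.invol u)⁻¹ = Inc I hs hss (tw (I.nU u) g) := by
  have h0 := u.ne_zero
  have h1 := (map_ne_zero σ).2 h0
  rw [Cfsg.Agent.Lib.PresSU3.tt_inv]
  apply GG_ext
  rw [Cfsg.Agent.Lib.PresSU3.coe_mul, Cfsg.Agent.Lib.PresSU3.coe_mul, Cfsg.Agent.Lib.PresSU3.coe_tt,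
    Cfsg.Agent.Lib.PresSU3.coe_tt, coe_Inc, coe_Inc]
  have e1 : j ((I.nU u : kˣ) : k) = (u : K) * σ u := I.j_nU u
  have e2 : j (((I.nU u)⁻¹ : kˣ) : k) = ((u : K) * σ u)⁻¹ := I.j_nU_inv u
  ext r t
  fin_cases r <;> fin_cases t <;>
    simp [incM, tw, tM, Matrix.mul_apply, Fin.sum_univ_three, e1, e2, h0, h1, map_inv₀, I.j_nm] <;> field_simp

lemma tw_wn (n : kˣ) : tw n (wn : M2 k) = wn * dd n⁻¹ := by
  apply Subtype.ext
  have h := n.ne_zero
  ext x y
  fin_cases x <;> fin_cases y <;> simp [tw, Cfsg.Agent.Lib.PresSp.M2.coe_mul, coe_wn, coe_dd, Matrix.mul_apply, Fin.sum_univ_two]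

/-- The torus on the Weyl element. -/
lemma tt_wn (u : Kˣ) :
    ttG I.invol u * Inc I hs hss wn * (ttG I.invol u)⁻¹ = Inc I hs hss wn * ttG I.invol (jU j (I.nU u)⁻¹) := by
  rw [tt_Inc I hs hss, tw_wn, map_mul, Inc_dd]

lemma tt_uu (u : Kˣ) (d : k) :
    ttG I.invol u * Inc I hs hss (uu d) * (ttG I.invol u)⁻¹ = Inc I hs hss (uu ((I.nU u : kˣ) * d)) := by
  rw [tt_Inc I hs hss, tw_uu]

end inc

end target

section lifts

variable {Γ : Type*} [Group Γ] {π : Γ →* GO σ ι}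

/-- Lifts of commuting elements commute, if a conjugation fixes one and scales the other. -/
theorem comm_scale {F : Type*} [Field F] (hcen : π.ker ≤ center Γ) (hsurj : Function.Surjective π)
    {A D : Γ} {L : F → Γ} (hL : ∀ x y, L (x + y) = L x * L y)
    (hk : ∀ t, π A * π (L t) = π (L t) * π A) {w : F} (hw : w ≠ 1) (hDA : D * A * D⁻¹ = A)
    (hDL : ∀ t, D * L t * D⁻¹ = L (w * t)) (t : F) : A * L t = L t * A :=
  comm_of_scale hcen hsurj (g := fun t => π (L t)) (fun x y => by rw [hL, map_mul]) hk hw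
    (fun t => ⟨π D, by rw [← map_inv, ← map_mul, ← map_mul, hDA], by
      rw [← map_inv, ← map_mul, ← map_mul, hDL]⟩) rfl

end lifts

section kill

variable [Finite K] {Γ : Type*} [Group Γ] (I : Inv σ j) {θ : K} (hθ : σ θ ≠ θ)
  (htr : ∀ a : K, ∃ b, b + σ b + a * σ a = 0)

include hθ htr in
/-- A multiplicative central function on the unipotent elements of the rank one group, invariant under a scaling by
the fixed field, is trivial. -/
theorem kill_qq {E : GG σ → Γ} (hc : ∀ α β h, E (qq I.invol α β h) ∈ center Γ)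
    (hmul : ∀ α β h α' β' h', E (qq I.invol α β h * qq I.invol α' β' h') = E (qq I.invol α β h) * E (qq I.invol α' β' h'))
    {r : kˣ} (hr : (r : k) ≠ 1)
    (hinv : ∀ α β h, E (del I.invol (jU j r) (qq I.invol α β h)) = E (qq I.invol α β h))
    (α β : K) (h : β + σ β + α * σ α = 0) : E (qq I.invol α β h) = 1 := by
  have hσ := I.invol
  -- the central part
  have hZ : ∀ d, ∀ h : d + σ d + 0 * σ 0 = 0, E (qq hσ 0 d h) = 1 := by
    intro d h
    have hd : d + σ d = 0 := by simpa using h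
    obtain ⟨v, rfl⟩ := exists_diff I hθ hd
    obtain ⟨b₁, h₁⟩ := htr 1
    obtain ⟨b₂, h₂⟩ := htr v
    have e1 : qq hσ 1 b₁ h₁ * qq hσ v b₂ h₂ = qq hσ v b₂ h₂ * qq hσ 1 b₁ h₁ * qq hσ 0 (v - σ v) h := by
      rw [qq_mul, qq_mul, qq_mul]
      refine qq_congr hσ _ (by ring) ?_
      rw [map_zero, map_one]
      ring
    have e2 := hmul _ _ h₁ _ _ h₂
    have e3 : E (qq hσ 1 b₁ h₁ * qq hσ v b₂ h₂) = E (qq hσ v b₂ h₂) * E (qq hσ 1 b₁ h₁) * E (qq hσ 0 (v - σ v) h) := by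
      rw [e1, qq_mul hσ h₂ h₁, hmul, ← qq_mul hσ h₂ h₁, hmul]
    have e4 := mem_center_iff.1 (hc _ _ h₁) (E (qq hσ v b₂ h₂))
    rw [e2, ← e4] at e3
    exact mul_eq_left.1 e3.symm
  have hr' : j (r : k) - 1 ≠ 0 := by
    intro h0
    apply hr
    apply j.injective
    rw [map_one]
    exact sub_eq_zero.1 h0
  set r' : K := j (r : k) with hr'd
  have hfix : σ r' = r' := I.fix _
  set α₀ : K := α / (r' - 1) with hα₀
  have hα : α = (r' - 1) * α₀ := by
    rw [hα₀]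
    field_simp
  obtain ⟨β₀, h₀⟩ := htr α₀
  have hc' := cstr_del hσ (r') h₀
  have hdel : del I.invol (jU j r) (qq hσ α₀ β₀ h₀) = qq hσ (r' * α₀) (r' * σ r' * β₀) hc' :=
    del_qq hσ (jU j r) h₀ hc' rfl rfl
  set B : K := r' * σ r' * β₀ - β₀ + α * σ α₀ with hB
  have hBc : B + σ B + α * σ α = 0 := by
    have e1 : σ α = (r' - 1) * σ α₀ := by
      rw [hα, map_mul, map_sub, hfix, map_one]
    rw [hB]
    simp only [map_add, map_sub, map_mul, hfix, hσ]
    rw [e1, hα]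
    linear_combination (r' * r' - 1) * h₀
  have e : qq hσ (r' * α₀) (r' * σ r' * β₀) hc' = qq hσ α B hBc * qq hσ α₀ β₀ h₀ := by
    rw [qq_mul]
    refine qq_congr hσ _ ?_ ?_
    · rw [hα]
      ring
    · rw [hB]
      ring
  have h1 := hinv α₀ β₀ h₀
  rw [hdel, e, hmul] at h1
  have h2 : E (qq hσ α B hBc) = 1 := mul_eq_right.1 h1
  have hd : (β - B) + σ (β - B) + 0 * σ 0 = 0 := by
    rw [map_sub]
    linear_combination h - hBc
  have e' : qq hσ α β h = qq hσ α B hBc * qq hσ 0 (β - B) hd := by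
    rw [qq_mul]
    refine qq_congr hσ _ (by ring) ?_
    rw [map_zero]
    ring
  rw [e', hmul, h2, hZ, mul_one]

end kill

end Cfsg.Agent.Lib.SUStem
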