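import Cfsg.Agent.Lib.SUStem.ORelA

/-!
# Sections of a central extension of `SU_{2n+1}`: conjugation by the torus and the root elements
-/

set_option autoImplicit false
set_option linter.unusedSectionVars false
set_option linter.unusedVariables false
set_option linter.unusedSimpArgs false
set_option linter.style.haveILetI false

namespace Cfsg.Agent.Lib.SUStem

open Cfsg Subgroup Matrix
open scoped commutatorElement
open Cfsg.Agent.Lib.PresU
open Cfsg.Agent.Lib.PresSp.M2 Cfsg.Agent.Lib.PresSp.Mono Cfsg.Agent.Lib.PresSLn.TwoGen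
open Cfsg.Agent.Lib.PresSp.Tgt (sj sj_mul sj_add sj_zero sj_tr sj_ne sj_sub one_sj_mul one_sj_mul_sj
  sj_mul_one_sj upM upM_mul upM_zero tt_coe_eq single_neg')
open Cfsg.Agent.Lib.PresSU3 (GG SUw fw qq ww GG_ext coe_qq coe_ww uM wM tM cstr_mul cstr_inv cstr_zero qq_mul qq_zero
  qq_inv qq_congr qq_inj ww_sq ww_inv mem_SUw)
open Cfsg.Agent.Lib.Schur.SpStem (cdg ev1 ev1_self ev1_ne dgM dgM_mul_inv dgM_inv_mul coe_cdg cdg_T conj_lift commute_lift
  comm_of_scale trivial_of_scale)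

variable {ι : Type*} [Fintype ι] [DecidableEq ι] {K : Type*} [Field K] {k : Type*} [Field k]
variable {σ : K →+* K} {j : k →+* K} {a b : ι}

local notation "ttG" => Cfsg.Agent.Lib.PresSU3.tt

section lifts

variable [Finite K] [Finite k] {Γ : Type*} [Group Γ] {π : Γ →* GO σ ι}
  (I : Inv σ j) {s : K} (hs : s ≠ 0) (hss : σ s = -s)
  (hcen : π.ker ≤ center Γ) (hsurj : Function.Surjective π)
  {lam : SpecialLinearGroup ι K →* Γ} (hlam : ∀ l, π (lam l) = lvO I.invol l)
  (hpl : commutator (SpecialLinearGroup ι K) = ⊤) (hpg : commutator (GG σ) = ⊤)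

include hcen hlam hpl in
/-- Conjugation of the section over the Levi subgroup by a lift of a torus element. -/
theorem lam_conjO {γ : Γ} {i : ι} {u : Kˣ} (hγ : π γ = MS i (ttG I.invol u)) (l : SpecialLinearGroup ι K) :
    γ * lam l * γ⁻¹ = lam (cdg (ev1 i u) l) :=
  conj_lift hcen hpl lam (lam.comp (cdg (ev1 i u))) γ (fun k => by
    rw [hγ, hlam, MonoidHom.comp_apply, hlam, MS_tt_lv]) l

include hcen hpg in
/-- Conjugation of a section over a rank one group by a lift of a torus element at another index. -/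
theorem N_conjO {N : GG σ →* Γ} {i' : ι} (hN : ∀ g, π (N g) = MS i' g) {γ : Γ} {i : ι} (h : i ≠ i') {u : Kˣ}
    (hγ : π γ = MS i (ttG I.invol u)) (g : GG σ) : γ * N g * γ⁻¹ = N (del I.invol (rU σ u) g) :=
  conj_lift hcen hpg N (N.comp (del I.invol (rU σ u))) γ (fun k => by
    rw [hγ, hN, MonoidHom.comp_apply, hN, MS_tt_MS I.invol h]) g

/-- The root elements in terms of the sections. -/
noncomputable def Zr (lam : SpecialLinearGroup ι K →* Γ) (N : GG σ →* Γ) {i i' : ι} (h : i ≠ i') (z : K) : Γ :=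
  N (Inc I hs hss wn) * lam (TT h z) * (N (Inc I hs hss wn))⁻¹

lemma Zr_add (N : GG σ →* Γ) {i i' : ι} (h : i ≠ i') (x y : K) :
    Zr I hs hss lam N h (x + y) = Zr I hs hss lam N h x * Zr I hs hss lam N h y := by
  simp only [Zr, TT_add, map_mul]
  group

lemma Zr_zero (N : GG σ →* Γ) {i i' : ι} (h : i ≠ i') : Zr I hs hss lam N h 0 = 1 := by
  simp [Zr, TT_zero]

lemma Zr_neg (N : GG σ →* Γ) {i i' : ι} (h : i ≠ i') (x : K) :
    Zr I hs hss lam N h (-x) = (Zr I hs hss lam N h x)⁻¹ := by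
  apply eq_inv_of_mul_eq_one_left
  rw [← Zr_add, neg_add_cancel, Zr_zero]

include hlam in
lemma pi_Zr {N : GG σ →* Γ} {i i' : ι} (hN : ∀ g, π (N g) = MS i' g) (h : i ≠ i') (z : K) :
    π (Zr I hs hss lam N h z) = MS i' (Inc I hs hss wn) * lvO I.invol (TT h z) * (MS i' (Inc I hs hss wn))⁻¹ := by
  simp only [Zr, map_mul, map_inv, hlam, hN]

include hcen hlam hpl hpg in
/-- A lift of a torus element at `i` on the root elements for `(i, i')`. -/
theorem Zr_conj₁ {N : GG σ →* Γ} {i i' : ι} (hN : ∀ g, π (N g) = MS i' g) (h : i ≠ i') {γ : Γ} {u : Kˣ}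
    (hγ : π γ = MS i (ttG I.invol u)) (z : K) :
    γ * Zr I hs hss lam N h z * γ⁻¹ = Zr I hs hss lam N h ((u : K) * z) := by
  have e1 := N_conjO I hcen hpg hN h hγ (Inc I hs hss wn)
  rw [del_Inc_of_nm I hs hss (nm_rU I.invol u)] at e1
  have e2 := lam_conjO I hcen hlam hpl hγ (TT h z)
  rw [cdg_T, ev1_self, ev1_ne h.symm] at e2
  have e3 : (u : K) * z * (((1 : Kˣ)⁻¹ : Kˣ) : K) = (u : K) * z := by simp
  rw [e3] at e2
  calc γ * Zr I hs hss lam N h z * γ⁻¹
      = (γ * N (Inc I hs hss wn) * γ⁻¹) * (γ * lam (TT h z) * γ⁻¹) * (γ * N (Inc I hs hss wn) * γ⁻¹)⁻¹ := by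
        simp only [Zr]
        group
    _ = _ := by rw [e1, e2]; rfl

include hcen hlam hpl in
/-- The torus in the rank one group at `i'` on the root elements for `(i, i')`. -/
theorem Zr_conj₂ {N : GG σ →* Γ} {i i' : ι} (hN : ∀ g, π (N g) = MS i' g) (h : i ≠ i') (y : Kˣ) (z : K) :
    N (ttG I.invol y) * Zr I hs hss lam N h z * (N (ttG I.invol y))⁻¹ = Zr I hs hss lam N h (σ y * z) := by
  have e1 : N (ttG I.invol y) * N (Inc I hs hss wn) * (N (ttG I.invol y))⁻¹ =
      N (Inc I hs hss wn) * N (ttG I.invol (jU j (I.nU y)⁻¹)) := by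
    rw [← map_inv, ← map_mul, ← map_mul, ← map_mul, tt_wn]
  have h0 := y.ne_zero
  have h1 := (map_ne_zero σ).2 h0
  have e2 := lam_conjO I hcen hlam hpl (hN (ttG I.invol y)) (TT h z)
  rw [cdg_T, ev1_self, ev1_ne h] at e2
  have e3 := lam_conjO I hcen hlam hpl (hN (ttG I.invol (jU j (I.nU y)⁻¹)))
    (TT h (((1 : Kˣ) : K) * z * ((y⁻¹ : Kˣ) : K)))
  rw [cdg_T, ev1_self, ev1_ne h] at e3
  have e4 : ((1 : Kˣ) : K) * (((1 : Kˣ) : K) * z * ((y⁻¹ : Kˣ) : K)) * (((jU j (I.nU y)⁻¹)⁻¹ : Kˣ) : K) = σ y * z := by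
    have e5 : (((jU j (I.nU y)⁻¹)⁻¹ : Kˣ) : K) = y * σ y := by
      rw [← map_inv, inv_inv, jU_val, I.j_nU]
    rw [e5]
    simp only [Units.val_one, one_mul, Units.val_inv_eq_inv_val]
    field_simp
  rw [e4] at e3
  calc N (ttG I.invol y) * Zr I hs hss lam N h z * (N (ttG I.invol y))⁻¹
      = (N (ttG I.invol y) * N (Inc I hs hss wn) * (N (ttG I.invol y))⁻¹) *
          (N (ttG I.invol y) * lam (TT h z) * (N (ttG I.invol y))⁻¹) *
          (N (ttG I.invol y) * N (Inc I hs hss wn) * (N (ttG I.invol y))⁻¹)⁻¹ := by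
        simp only [Zr]
        group
    _ = N (Inc I hs hss wn) * (N (ttG I.invol (jU j (I.nU y)⁻¹)) * lam (TT h (((1 : Kˣ) : K) * z * ((y⁻¹ : Kˣ) : K))) *
          (N (ttG I.invol (jU j (I.nU y)⁻¹)))⁻¹) * (N (Inc I hs hss wn))⁻¹ := by
        rw [e1, e2]
        group
    _ = _ := by rw [e3]; rfl

end lifts

end Cfsg.Agent.Lib.SUStem
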