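import Cfsg.Agent.Lib.SUStem.ORelB

/-!
# Sections of a central extension of `SU_{2n+1}`: the relations
-/

set_option autoImplicit false
set_option linter.unusedSectionVars false
set_option linter.unusedVariables false
set_option linter.unusedSimpArgs false
set_option linter.style.haveILetI false

namespace Cfsg.Agent.Lib.SUStem

open Cfsg Subgroup Matrix
open scoped commutatorElement
open Cfsg.Agent.Lib.PresU
open Cfsg.Agent.Lib.PresSp.M2 Cfsg.Agent.Lib.PresSp.Mono Cfsg.Agent.Lib.PresSLn.TwoGen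
open Cfsg.Agent.Lib.PresSp.Tgt (sj sj_mul sj_add sj_zero sj_tr sj_ne sj_sub one_sj_mul one_sj_mul_sj
  sj_mul_one_sj upM upM_mul upM_zero tt_coe_eq single_neg')
open Cfsg.Agent.Lib.PresSU3 (GG SUw fw qq ww GG_ext coe_qq coe_ww uM wM tM cstr_mul cstr_inv cstr_zero qq_mul qq_zero
  qq_inv qq_congr qq_inj ww_sq ww_inv mem_SUw)
open Cfsg.Agent.Lib.Schur.SpStem (cdg ev1 ev1_self ev1_ne dgM dgM_mul_inv dgM_inv_mul coe_cdg cdg_T conj_lift commute_lift
  comm_of_scale trivial_of_scale)

variable {ι : Type*} [Fintype ι] [DecidableEq ι] {K : Type*} [Field K] {k : Type*} [Field k]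
variable {σ : K →+* K} {j : k →+* K} {a b : ι}

local notation "ttG" => Cfsg.Agent.Lib.PresSU3.tt

/-- A calculation for the additivity of the discrepancy. -/
lemma E_mul₂ {G : Type*} [Group G] {X X' Y Z Z' F F' : G} (h1 : X * Y = Y * X * Z * F) (h2 : X' * Y = Y * X' * Z' * F')
    (hZ : Z * X' = X' * Z) (hF : ∀ g, g * F = F * g) : X * X' * Y = Y * (X * X') * (Z * Z') * (F * F') := by
  calc X * X' * Y = X * (X' * Y) := by group
    _ = X * (Y * X' * Z' * F') := by rw [h2]
    _ = (X * Y) * X' * Z' * F' := by group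
    _ = Y * X * Z * F * X' * Z' * F' := by rw [h1]
    _ = Y * X * Z * (F * X') * Z' * F' := by group
    _ = Y * X * Z * (X' * F) * Z' * F' := by rw [hF X']
    _ = Y * X * (Z * X') * F * Z' * F' := by group
    _ = Y * X * (X' * Z) * F * Z' * F' := by rw [hZ]
    _ = Y * X * X' * Z * (F * Z') * F' := by group
    _ = Y * X * X' * Z * (Z' * F) * F' := by rw [hF Z']
    _ = _ := by group

section rel

variable [Finite K] [Finite k] {Γ : Type*} [Group Γ] {π : Γ →* GO σ ι}
  (I : Inv σ j) {s : K} (hs : s ≠ 0) (hss : σ s = -s)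
  (hcen : π.ker ≤ center Γ) (hsurj : Function.Surjective π)
  {lam : SpecialLinearGroup ι K →* Γ} (hlam : ∀ l, π (lam l) = lvO I.invol l)
  (hpl : commutator (SpecialLinearGroup ι K) = ⊤) (hpg : commutator (GG σ) = ⊤)
  {M : GG σ →* Γ} (hM : ∀ g, π (M g) = MS b g) (hab : a ≠ b)

include hlam hM hab in
lemma pi_MJ (i : ι) (g : GG σ) : π (MJ lam M a b i g) = MS i g := by
  rw [MJ_apply, map_mul, map_mul, map_inv, hlam, hM, ← MJ_tgt I hab i g, MJ_apply]

/-- The coordinates in the target of the root elements. -/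
lemma Zr_tgt (I : Inv σ j) (hs : s ≠ 0) (hss : σ s = -s) {i i' : ι} (h : i ≠ i') (z : K) :
    (MS i' (Inc I hs hss wn) * lvO I.invol (TT h z) * (MS i' (Inc I hs hss wn))⁻¹ : GO σ ι).1.1 =
      Up σ 0 (single i i' (z * s) + single i' i (σ z * s)) :=
  zT_coe I hs hss h z

include hlam hM hab in
/-- The images of the unipotent elements commute with the image of the root elements. -/
lemma pi_comm_Zr {N : GG σ →* Γ} {i i' : ι} (hN : ∀ g, π (N g) = MS i' g) (h : i ≠ i') (i₀ : ι) (α β : K)
    (hc : β + σ β + α * σ α = 0) (z : K) :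
    MS i₀ (qq I.invol α β hc) * π (Zr I hs hss lam N h z) = π (Zr I hs hss lam N h z) * MS i₀ (qq I.invol α β hc) := by
  rw [pi_Zr I hs hss hlam hN]
  apply SUg_ext
  change (MS i₀ (qq I.invol α β hc)).1.1 * (MS i' (Inc I hs hss wn) * lvO I.invol (TT h z) * (MS i' (Inc I hs hss wn))⁻¹ : GO σ ι).1.1 =
    (MS i' (Inc I hs hss wn) * lvO I.invol (TT h z) * (MS i' (Inc I hs hss wn))⁻¹ : GO σ ι).1.1 * (MS i₀ (qq I.invol α β hc)).1.1
  rw [Zr_tgt, coe_MS_q]
  exact Up_comm_zero _ _ _

include hcen hsurj hlam hpl hpg hM hab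

include hs hss in
/-- `F5` for all unipotent elements. -/
theorem f5_lift {r : kˣ} (hr : (r : k) ≠ 1) (c α β : K) (h : β + σ β + α * σ α = 0) :
    Commute (lam (TT hab.symm c)) (M (qq I.invol α β h)) := by
  have h0 : j (r : k) ≠ 0 := (map_ne_zero j).2 r.ne_zero
  have hγ := pi_MJ I hlam hM hab (a := a) a (ttG I.invol (jU j r))
  have hw : ((jU j r)⁻¹ : Kˣ).1 ≠ 1 := by
    intro h1
    apply hr
    apply j.injective
    rw [map_one]
    simpa using h1
  have key := comm_scale hcen hsurj (A := M (qq I.invol α β h)) (D := MJ lam M a b a (ttG I.invol (jU j r)))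
    (L := fun t => lam (TT hab.symm t)) (fun x y => by rw [TT_add, map_mul]) (fun t => ?_) hw ?_ (fun t => ?_) c
  · exact key.symm
  · rw [hM, hlam]
    exact (f5_tgt I hs hss hab t α β h).eq.symm
  · rw [N_conjO I hcen hpg hM hab hγ, rU_jU I, del_one]
  · rw [lam_conjO I hcen hlam hpl hγ, cdg_T, ev1_self, ev1_ne hab.symm]
    congr 2
    simp [mul_comm]

/-- The lifts of the unipotent elements at `b` commute with the lifts of the root elements. -/
theorem comm_M_Zr {r : kˣ} (hr : (r : k) ≠ 1) (α β : K) (h : β + σ β + α * σ α = 0) (z : K) :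
    M (qq I.invol α β h) * Zr I hs hss lam M hab z = Zr I hs hss lam M hab z * M (qq I.invol α β h) := by
  have hγ := pi_MJ I hlam hM hab (a := a) a (ttG I.invol (jU j r))
  have hw : ((jU j r : Kˣ) : K) ≠ 1 := by
    intro h1
    apply hr
    apply j.injective
    rw [map_one]
    exact h1
  refine comm_scale hcen hsurj (A := M (qq I.invol α β h)) (D := MJ lam M a b a (ttG I.invol (jU j r)))
    (L := Zr I hs hss lam M hab) (Zr_add I hs hss M hab) (fun t => ?_) hw ?_ (fun t => ?_) z
  · rw [hM]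
    exact pi_comm_Zr I hs hss hlam hM hab hM hab b α β h t
  · rw [N_conjO I hcen hpg hM hab hγ, rU_jU I, del_one]
  · exact Zr_conj₁ I hs hss hcen hlam hpl hpg hM hab hγ t

/-- The lifts of the unipotent elements at `a` commute with the lifts of the root elements. -/
theorem comm_Ma_Zr {r : kˣ} (hr : (r : k) ≠ 1) (α β : K) (h : β + σ β + α * σ α = 0) (z : K) :
    MJ lam M a b a (qq I.invol α β h) * Zr I hs hss lam M hab z =
      Zr I hs hss lam M hab z * MJ lam M a b a (qq I.invol α β h) := by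
  have h0 : j (r : k) ≠ 0 := (map_ne_zero j).2 r.ne_zero
  have hMa := pi_MJ I hlam hM hab (a := a) a
  have hw : ((jU j r : Kˣ) : K) ≠ 1 := by
    intro h1
    apply hr
    apply j.injective
    rw [map_one]
    exact h1
  refine comm_scale hcen hsurj (A := MJ lam M a b a (qq I.invol α β h)) (D := M (ttG I.invol (jU j r)))
    (L := Zr I hs hss lam M hab) (Zr_add I hs hss M hab) (fun t => ?_) hw ?_ (fun t => ?_) z
  · rw [hMa]
    exact pi_comm_Zr I hs hss hlam hM hab hM hab a α β h t
  · rw [N_conjO I hcen hpg hMa hab.symm (hM _), rU_jU I, del_one]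
  · rw [Zr_conj₂ I hs hss hcen hlam hpl hM hab (jU j r) t, jU_val, I.fix]

/-- `F2` for all unipotent elements. -/
theorem f2_lift {θ : K} (hθ : σ θ ≠ θ) (htr : ∀ a : K, ∃ b, b + σ b + a * σ a = 0) {r : kˣ} (hr : (r : k) ≠ 1)
    (α β : K) (h : β + σ β + α * σ α = 0) (c d : K) (h' : d + σ d + c * σ c = 0) :
    MJ lam M a b a (qq I.invol α β h) * M (qq I.invol c d h') =
      M (qq I.invol c d h') * MJ lam M a b a (qq I.invol α β h) *
        Zr I hs hss lam M hab (-(α * σ c) / s) := by
  have hMa := pi_MJ I hlam hM hab (a := a) a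
  set Y := M (qq I.invol c d h') with hY
  let Ma := MJ lam M a b a
  let ν : GG σ → K := fun x => -(x.1.1 0 1 * σ c) / s
  have hν : ∀ α β h, ν (qq I.invol α β h) = -(α * σ c) / s := by
    intro α β h
    simp [ν, coe_qq, uM]
  let E : GG σ → Γ := fun x => (Y * Ma x * Zr I hs hss lam M hab (ν x))⁻¹ * (Ma x * Y)
  have hker : ∀ α β h, π (E (qq I.invol α β h)) = 1 := by
    intro α β h
    simp only [E, hν, map_mul, map_inv]
    rw [hY, hM, hMa, pi_Zr I hs hss hlam hM hab, f2_tgt I hs hss hab α β h c d h']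
    group
  have hc : ∀ α β h, E (qq I.invol α β h) ∈ center Γ := fun α β h => hcen (hker α β h)
  have hdef : ∀ α β h, Ma (qq I.invol α β h) * Y =
      Y * Ma (qq I.invol α β h) * Zr I hs hss lam M hab (-(α * σ c) / s) * E (qq I.invol α β h) := by
    intro α β h
    simp only [E, hν]
    group
  have hone : ∀ x, (∀ α β h, x = qq I.invol α β h → E x = 1) → True := fun _ _ => trivial
  have hmain : ∀ α β h, E (qq I.invol α β h) = 1 := by
    refine kill_qq (j := j) I hθ htr hc ?_ hr ?_
    · intro α β h α' β' h'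
      have e := E_mul₂ (hdef α β h) (hdef α' β' h') (comm_Ma_Zr I hs hss hcen hsurj hlam hpl hpg hM hab hr α' β' h' _).symm
        (fun g => mem_center_iff.1 (hc α β h) g)
      have e2 : Ma (qq I.invol α β h * qq I.invol α' β' h') = Ma (qq I.invol α β h) * Ma (qq I.invol α' β' h') := map_mul _ _ _
      have e3 : ν (qq I.invol α β h * qq I.invol α' β' h') = -(α * σ c) / s + -(α' * σ c) / s := by
        rw [qq_mul, hν]
        ring
      have e4 : E (qq I.invol α β h * qq I.invol α' β' h') =
          (Y * Ma (qq I.invol α β h * qq I.invol α' β' h') *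
            Zr I hs hss lam M hab (ν (qq I.invol α β h * qq I.invol α' β' h')))⁻¹ *
            (Ma (qq I.invol α β h * qq I.invol α' β' h') * Y) := rfl
      rw [e4, e2, e3, Zr_add, e]
      group
    · intro α β h
      set x := qq I.invol α β h with hx
      set u : Kˣ := jU j r with hu
      set D := Ma (ttG I.invol u) with hD
      have hγ : π D = MS a (ttG I.invol u) := hMa _
      have e1 : D * Ma x * D⁻¹ = Ma (del I.invol u x) := by
        rw [del_jU I r x, ← map_inv, ← map_mul, ← map_mul]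
      have e2 : D * Y * D⁻¹ = Y := by
        rw [hY, N_conjO I hcen hpg hM hab hγ, hu, rU_jU I, del_one]
      have e3 : ∀ z, D * Zr I hs hss lam M hab z * D⁻¹ = Zr I hs hss lam M hab ((u : K) * z) :=
        fun z => Zr_conj₁ I hs hss hcen hlam hpl hpg hM hab hγ z
      have e4 : ν (del I.invol u x) = (u : K) * ν x := by
        rw [hx, del_qq I.invol u h (cstr_del I.invol _ h) rfl rfl, hν, hν]
        ring
      have e5 : E (del I.invol u x) = D * E x * D⁻¹ := by
        have e6 : E (del I.invol u x) = (Y * Ma (del I.invol u x) * Zr I hs hss lam M hab (ν (del I.invol u x)))⁻¹ *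
            (Ma (del I.invol u x) * Y) := rfl
        have e7 : E x = (Y * Ma x * Zr I hs hss lam M hab (ν x))⁻¹ * (Ma x * Y) := rfl
        have e8 : (Y * Ma (del I.invol u x) * Zr I hs hss lam M hab ((u : K) * ν x))⁻¹ * (Ma (del I.invol u x) * Y) =
            (D * Y * D⁻¹ * (D * Ma x * D⁻¹) * (D * Zr I hs hss lam M hab (ν x) * D⁻¹))⁻¹ *
              ((D * Ma x * D⁻¹) * (D * Y * D⁻¹)) := by
          rw [e1, e2, e3]
        rw [e6, e7, e4, e8]
        group
      rw [e5, mem_center_iff.1 (hc α β h) D, mul_inv_cancel_right]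
  have h1 := hdef α β h
  rw [hmain, mul_one] at h1
  exact h1

end rel

end Cfsg.Agent.Lib.SUStem
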