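import Cfsg.Agent.Lib.SUStem.ORelC

/-!
# Sections of a central extension of `SU_{2n+1}`: the relations, second part
-/

set_option autoImplicit false
set_option linter.unusedSectionVars false
set_option linter.unusedVariables false
set_option linter.unusedSimpArgs false
set_option linter.style.haveILetI false

namespace Cfsg.Agent.Lib.SUStem

open Cfsg Subgroup Matrix
open scoped commutatorElement
open Cfsg.Agent.Lib.PresU
open Cfsg.Agent.Lib.PresSp.M2 Cfsg.Agent.Lib.PresSp.Mono Cfsg.Agent.Lib.PresSLn.TwoGen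
open Cfsg.Agent.Lib.PresSp.Tgt (sj sj_mul sj_add sj_zero sj_tr sj_ne sj_sub one_sj_mul one_sj_mul_sj
  sj_mul_one_sj upM upM_mul upM_zero tt_coe_eq single_neg')
open Cfsg.Agent.Lib.PresSU3 (GG SUw fw qq ww GG_ext coe_qq coe_ww uM wM tM cstr_mul cstr_inv cstr_zero qq_mul qq_zero
  qq_inv qq_congr qq_inj ww_sq ww_inv mem_SUw)
open Cfsg.Agent.Lib.Schur.SpStem (cdg ev1 ev1_self ev1_ne dgM dgM_mul_inv dgM_inv_mul coe_cdg cdg_T conj_lift commute_lift
  comm_of_scale trivial_of_scale)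

variable {ι : Type*} [Fintype ι] [DecidableEq ι] {K : Type*} [Field K] {k : Type*} [Field k]
variable {σ : K →+* K} {j : k →+* K} {a b : ι}

local notation "ttG" => Cfsg.Agent.Lib.PresSU3.tt

/-- A calculation for the additivity of the discrepancy in `F1`. -/
lemma E_mul₃ {G : Type*} [Group G] {T X X' Y Y' Z Z' Zc F F' : G} (h1 : T * Y * T⁻¹ = X * Y * Z * F)
    (h2 : T * Y' * T⁻¹ = X' * Y' * Z' * F') (h3 : Y * X' = X' * Y * Zc) (hZX : Z * X' = X' * Z) (hZY : Z * Y' = Y' * Z)
    (hZcY : Zc * Y' = Y' * Zc) (hF : ∀ g, g * F = F * g) :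
    T * (Y * Y') * T⁻¹ = X * X' * (Y * Y') * (Zc * Z * Z') * (F * F') := by
  calc T * (Y * Y') * T⁻¹ = (T * Y * T⁻¹) * (T * Y' * T⁻¹) := by group
    _ = X * Y * Z * F * (X' * Y' * Z' * F') := by rw [h1, h2]
    _ = X * Y * Z * (F * (X' * Y' * Z')) * F' := by group
    _ = X * Y * Z * ((X' * Y' * Z') * F) * F' := by rw [hF (X' * Y' * Z')]
    _ = X * Y * (Z * X') * Y' * Z' * F * F' := by group
    _ = X * Y * (X' * Z) * Y' * Z' * F * F' := by rw [hZX]
    _ = X * (Y * X') * (Z * Y') * Z' * F * F' := by group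
    _ = X * (X' * Y * Zc) * (Y' * Z) * Z' * F * F' := by rw [h3, hZY]
    _ = X * X' * Y * (Zc * Y') * Z * Z' * F * F' := by group
    _ = X * X' * Y * (Y' * Zc) * Z * Z' * F * F' := by rw [hZcY]
    _ = _ := by group

/-- A calculation for the additivity of the discrepancy in the commutator of short root elements. -/
lemma E_mul₄ {G : Type*} [Group G] {T X X' Y Y' F F' : G} (h1 : T * X * T⁻¹ = X * Y * F)
    (h2 : T * X' * T⁻¹ = X' * Y' * F') (h3 : Y * X' = X' * Y) (hF : ∀ g, g * F = F * g) :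
    T * (X * X') * T⁻¹ = X * X' * (Y * Y') * (F * F') := by
  calc T * (X * X') * T⁻¹ = (T * X * T⁻¹) * (T * X' * T⁻¹) := by group
    _ = X * Y * F * (X' * Y' * F') := by rw [h1, h2]
    _ = X * Y * (F * (X' * Y')) * F' := by group
    _ = X * Y * ((X' * Y') * F) * F' := by rw [hF (X' * Y')]
    _ = X * (Y * X') * Y' * F * F' := by group
    _ = X * (X' * Y) * Y' * F * F' := by rw [h3]
    _ = _ := by group

section rel

variable [Finite K] [Finite k] {Γ : Type*} [Group Γ] {π : Γ →* GO σ ι}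
  (I : Inv σ j) {s : K} (hs : s ≠ 0) (hss : σ s = -s)
  (hcen : π.ker ≤ center Γ) (hsurj : Function.Surjective π)
  {lam : SpecialLinearGroup ι K →* Γ} (hlam : ∀ l, π (lam l) = lvO I.invol l)
  (hpl : commutator (SpecialLinearGroup ι K) = ⊤) (hpg : commutator (GG σ) = ⊤)
  {M : GG σ →* Γ} (hM : ∀ g, π (M g) = MS b g) (hab : a ≠ b)

include hcen hsurj hlam hpl hpg hM hab

/-- The torus element with equal values at `a` and `b` fixes the root elements of the Levi subgroup. -/
theorem D_T (v : Kˣ) (c : K) :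
    (M (ttG I.invol v) * MJ lam M a b a (ttG I.invol v)) * lam (TT hab c) *
      (M (ttG I.invol v) * MJ lam M a b a (ttG I.invol v))⁻¹ = lam (TT hab c) := by
  have hMa := pi_MJ I hlam hM hab (a := a) a
  have e : ∀ D₁ D₂ x : Γ, (D₁ * D₂) * x * (D₁ * D₂)⁻¹ = D₁ * (D₂ * x * D₂⁻¹) * D₁⁻¹ := by
    intro D₁ D₂ x
    group
  rw [e, lam_conjO I hcen hlam hpl (hMa _), cdg_T, ev1_self, ev1_ne hab.symm, lam_conjO I hcen hlam hpl (hM _), cdg_T,
    ev1_self, ev1_ne hab]
  congr 2
  have := v.ne_zero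
  simp
  field_simp

/-- The torus element with equal values at `a` and `b` on the rank one group at `b`. -/
theorem D_M (r : kˣ) (g : GG σ) :
    (M (ttG I.invol (jU j r)) * MJ lam M a b a (ttG I.invol (jU j r))) * M g *
      (M (ttG I.invol (jU j r)) * MJ lam M a b a (ttG I.invol (jU j r)))⁻¹ = M (del I.invol (jU j r) g) := by
  have hMa := pi_MJ I hlam hM hab (a := a) a
  have e : ∀ D₁ D₂ x : Γ, (D₁ * D₂) * x * (D₁ * D₂)⁻¹ = D₁ * (D₂ * x * D₂⁻¹) * D₁⁻¹ := by
    intro D₁ D₂ x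
    group
  rw [e, N_conjO I hcen hpg hM hab (hMa _), rU_jU I, del_one, del_jU I r g, ← map_inv, ← map_mul, ← map_mul]

/-- The torus element with equal values at `a` and `b` on the rank one group at `a`. -/
theorem D_Ma (r : kˣ) (g : GG σ) :
    (M (ttG I.invol (jU j r)) * MJ lam M a b a (ttG I.invol (jU j r))) * MJ lam M a b a g *
      (M (ttG I.invol (jU j r)) * MJ lam M a b a (ttG I.invol (jU j r)))⁻¹ = MJ lam M a b a (del I.invol (jU j r) g) := by
  have hMa := pi_MJ I hlam hM hab (a := a) a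
  have e : ∀ D₁ D₂ x : Γ, (D₁ * D₂) * x * (D₁ * D₂)⁻¹ = D₁ * (D₂ * x * D₂⁻¹) * D₁⁻¹ := by
    intro D₁ D₂ x
    group
  have e2 : MJ lam M a b a (ttG I.invol (jU j r)) * MJ lam M a b a g * (MJ lam M a b a (ttG I.invol (jU j r)))⁻¹ =
      MJ lam M a b a (del I.invol (jU j r) g) := by
    rw [del_jU I r g, map_mul, map_mul, map_inv]
  rw [e, e2, N_conjO I hcen hpg hMa hab.symm (hM _), rU_jU I, del_one]

/-- The torus element with equal values at `a` and `b` on the root elements. -/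
theorem D_Z (v : Kˣ) (z : K) :
    (M (ttG I.invol v) * MJ lam M a b a (ttG I.invol v)) * Zr I hs hss lam M hab z *
      (M (ttG I.invol v) * MJ lam M a b a (ttG I.invol v))⁻¹ = Zr I hs hss lam M hab (σ v * ((v : K) * z)) := by
  have hMa := pi_MJ I hlam hM hab (a := a) a
  have e : ∀ D₁ D₂ x : Γ, (D₁ * D₂) * x * (D₁ * D₂)⁻¹ = D₁ * (D₂ * x * D₂⁻¹) * D₁⁻¹ := by
    intro D₁ D₂ x
    group
  rw [e, Zr_conj₁ I hs hss hcen hlam hpl hpg hM hab (hMa _), Zr_conj₂ I hs hss hcen hlam hpl hM hab]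

/-- `F1` for all unipotent elements. -/
theorem f1_lift {θ : K} (hθ : σ θ ≠ θ) (htr : ∀ a : K, ∃ b, b + σ b + a * σ a = 0) {r : kˣ} (hr : (r : k) ≠ 1)
    (α β : K) (h : β + σ β + α * σ α = 0) :
    lam (TT hab 1) * M (qq I.invol α β h) * (lam (TT hab 1))⁻¹ =
      MJ lam M a b a (qq I.invol α β h) * M (qq I.invol α β h) *
        Zr I hs hss lam M hab ((β + α * σ α) / s) := by
  have hMa := pi_MJ I hlam hM hab (a := a) a
  have hσ := I.invol
  set T := lam (TT hab 1) with hT
  let Ma := MJ lam M a b a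
  let ν : GG σ → K := fun x => (x.1.1 0 2 + x.1.1 0 1 * σ (x.1.1 0 1)) / s
  have hν : ∀ α β h, ν (qq I.invol α β h) = (β + α * σ α) / s := by
    intro α β h
    simp [ν, coe_qq, uM]
  let E : GG σ → Γ := fun x => (Ma x * M x * Zr I hs hss lam M hab (ν x))⁻¹ * (T * M x * T⁻¹)
  have hker : ∀ α β h, π (E (qq I.invol α β h)) = 1 := by
    intro α β h
    simp only [E, hν, map_mul, map_inv]
    rw [hT, hM, hMa, pi_Zr I hs hss hlam hM hab, hlam, f1_tgt I hs hss hab α β h]
    group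
  have hc : ∀ α β h, E (qq I.invol α β h) ∈ center Γ := fun α β h => hcen (hker α β h)
  have hdef : ∀ α β h, T * M (qq I.invol α β h) * T⁻¹ =
      Ma (qq I.invol α β h) * M (qq I.invol α β h) * Zr I hs hss lam M hab ((β + α * σ α) / s) * E (qq I.invol α β h) := by
    intro α β h
    simp only [E, hν]
    group
  have hmain : ∀ α β h, E (qq I.invol α β h) = 1 := by
    refine kill_qq (j := j) I hθ htr hc ?_ hr ?_
    · intro α β h α' β' h'
      have h3 : M (qq I.invol α β h) * Ma (qq I.invol α' β' h') =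
          Ma (qq I.invol α' β' h') * M (qq I.invol α β h) * Zr I hs hss lam M hab (α' * σ α / s) := by
        have := f2_lift I hs hss hcen hsurj hlam hpl hpg hM hab hθ htr hr α' β' h' α β h
        have e1 : -(α' * σ α) / s = -(α' * σ α / s) := by ring
        rw [e1, Zr_neg] at this
        change Ma (qq I.invol α' β' h') * _ = _ at this
        rw [this]
        group
        rfl
      have e := E_mul₃ (hdef α β h) (hdef α' β' h') h3
        (comm_Ma_Zr I hs hss hcen hsurj hlam hpl hpg hM hab hr α' β' h' _).symm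
        (comm_M_Zr I hs hss hcen hsurj hlam hpl hpg hM hab hr α' β' h' _).symm
        (comm_M_Zr I hs hss hcen hsurj hlam hpl hpg hM hab hr α' β' h' _).symm
        (fun g => mem_center_iff.1 (hc α β h) g)
      have e2 : Ma (qq I.invol α β h * qq I.invol α' β' h') = Ma (qq I.invol α β h) * Ma (qq I.invol α' β' h') := map_mul _ _ _
      have e2' : M (qq I.invol α β h * qq I.invol α' β' h') = M (qq I.invol α β h) * M (qq I.invol α' β' h') := map_mul _ _ _
      have e3 : ν (qq I.invol α β h * qq I.invol α' β' h') =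
          α' * σ α / s + (β + α * σ α) / s + (β' + α' * σ α') / s := by
        rw [qq_mul, hν, map_add]
        ring
      have e4 : E (qq I.invol α β h * qq I.invol α' β' h') =
          (Ma (qq I.invol α β h * qq I.invol α' β' h') * M (qq I.invol α β h * qq I.invol α' β' h') *
            Zr I hs hss lam M hab (ν (qq I.invol α β h * qq I.invol α' β' h')))⁻¹ *
            (T * M (qq I.invol α β h * qq I.invol α' β' h') * T⁻¹) := rfl
      rw [e4, e2, e2', e3, Zr_add, Zr_add, e]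
      group
    · intro α β h
      set x := qq I.invol α β h with hx
      set u : Kˣ := jU j r with hu
      set D := M (ttG I.invol u) * Ma (ttG I.invol u) with hD
      have e0 : D * T * D⁻¹ = T := D_T I hcen hsurj hlam hpl hpg hM hab u 1
      have e1 : D * Ma x * D⁻¹ = Ma (del I.invol u x) := D_Ma I hcen hsurj hlam hpl hpg hM hab r x
      have e2 : D * M x * D⁻¹ = M (del I.invol u x) := D_M I hcen hsurj hlam hpl hpg hM hab r x
      have e3 : ∀ z, D * Zr I hs hss lam M hab z * D⁻¹ = Zr I hs hss lam M hab (σ u * ((u : K) * z)) :=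
        fun z => D_Z I hs hss hcen hsurj hlam hpl hpg hM hab u z
      have e4 : ν (del I.invol u x) = σ u * ((u : K) * ν x) := by
        rw [hx, del_qq I.invol u h (cstr_del I.invol _ h) rfl rfl, hν, hν, map_mul]
        ring
      have e5 : E (del I.invol u x) = D * E x * D⁻¹ := by
        have e6 : E (del I.invol u x) = (Ma (del I.invol u x) * M (del I.invol u x) * Zr I hs hss lam M hab (ν (del I.invol u x)))⁻¹ *
            (T * M (del I.invol u x) * T⁻¹) := rfl
        have e7 : E x = (Ma x * M x * Zr I hs hss lam M hab (ν x))⁻¹ * (T * M x * T⁻¹) := rfl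
        have e8 : (Ma (del I.invol u x) * M (del I.invol u x) * Zr I hs hss lam M hab (σ u * ((u : K) * ν x)))⁻¹ *
            (T * M (del I.invol u x) * T⁻¹) =
            ((D * Ma x * D⁻¹) * (D * M x * D⁻¹) * (D * Zr I hs hss lam M hab (ν x) * D⁻¹))⁻¹ *
              ((D * T * D⁻¹) * (D * M x * D⁻¹) * (D * T * D⁻¹)⁻¹) := by
          rw [e1, e2, e3, e0]
        rw [e6, e7, e4, e8]
        group
      rw [e5, mem_center_iff.1 (hc α β h) D, mul_inv_cancel_right]
  have h1 := hdef α β h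
  rw [hmain, mul_one] at h1
  exact h1

/-- The commutator of `T` with a root element. -/
theorem ss_lift {v : Kˣ} (hv : (I.nU v : k) ≠ 1) {r : kˣ} (hr : (r : k) ≠ 1) (x : K) :
    lam (TT hab 1) * Zr I hs hss lam M hab x * (lam (TT hab 1))⁻¹ =
      Zr I hs hss lam M hab x * MJ lam M a b a (Inc I hs hss (uu (I.tr (σ x)))) := by
  have hMa := pi_MJ I hlam hM hab (a := a) a
  have hσ := I.invol
  set T := lam (TT hab 1) with hT
  let Ma := MJ lam M a b a
  let Y : k → Γ := fun t => Ma (Inc I hs hss (uu t))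
  have hYadd : ∀ t t', Y (t + t') = Y t * Y t' := by
    intro t t'
    simp only [Y, uu_add, map_mul]
  let E : K → Γ := fun x => (Zr I hs hss lam M hab x * Y (I.tr (σ x)))⁻¹ * (T * Zr I hs hss lam M hab x * T⁻¹)
  have hker : ∀ x, π (E x) = 1 := by
    intro x
    simp only [E, Y, map_mul, map_inv]
    have h1 : lvO I.invol (TT hab 1) * (MS b (Inc I hs hss wn) * lvO I.invol (TT hab x) * (MS b (Inc I hs hss wn))⁻¹) *
        (lvO I.invol (TT hab 1))⁻¹ = (MS b (Inc I hs hss wn) * lvO I.invol (TT hab x) * (MS b (Inc I hs hss wn))⁻¹) *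
          MS a (Inc I hs hss (uu (I.tr (σ x)))) := by
      have := congrArg (exH σ ι) (ss_tgt I hs hss hab (1 : K) x)
      simp only [map_mul, map_inv, one_mul, ← MS_Inc I hs hss] at this
      exact this
    rw [pi_Zr I hs hss hlam hM hab, hMa, hT, hlam]
    change (MS b (Inc I hs hss wn) * (lvO I.invol) (TT hab x) * (MS b (Inc I hs hss wn))⁻¹ * (MS a) (Inc I hs hss (uu (I.tr (σ x)))))⁻¹ *
      ((lvO I.invol) (TT hab 1) * (MS b (Inc I hs hss wn) * (lvO I.invol) (TT hab x) * (MS b (Inc I hs hss wn))⁻¹) * ((lvO I.invol) (TT hab 1))⁻¹) = 1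
    rw [h1]
    group
  have hc : ∀ x, E x ∈ center Γ := fun x => hcen (hker x)
  have hdef : ∀ x, T * Zr I hs hss lam M hab x * T⁻¹ = Zr I hs hss lam M hab x * Y (I.tr (σ x)) * E x := by
    intro x
    simp only [E]
    group
  have hcomm : ∀ t z, Y t * Zr I hs hss lam M hab z = Zr I hs hss lam M hab z * Y t := by
    intro t z
    simp only [Y, Inc_uu]
    exact comm_Ma_Zr I hs hss hcen hsurj hlam hpl hpg hM hab hr _ _ _ z
  have hadd : ∀ x y, E (x + y) = E x * E y := by
    intro x y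
    have e := E_mul₄ (hdef x) (hdef y) (hcomm _ _) (fun g => mem_center_iff.1 (hc x) g)
    have e2 : I.tr (σ (x + y)) = I.tr (σ x) + I.tr (σ y) := by
      rw [map_add, I.tr_add]
    have e4 : E (x + y) = (Zr I hs hss lam M hab (x + y) * Y (I.tr (σ (x + y))))⁻¹ *
        (T * Zr I hs hss lam M hab (x + y) * T⁻¹) := rfl
    rw [e4, e2, Zr_add, hYadd, e]
    group
  have h0 := v.ne_zero
  have h1' := (map_ne_zero σ).2 h0
  set w : K := σ v * (v : K) with hw
  have hwne : w - 1 ≠ 0 := by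
    intro h
    apply hv
    apply j.injective
    rw [map_one, I.j_nU, mul_comm]
    exact sub_eq_zero.1 h
  have hinv : ∀ x, E (w * x) = E x := by
    intro x
    set D := M (ttG I.invol v) * Ma (ttG I.invol v) with hD
    have e0 : D * T * D⁻¹ = T := D_T I hcen hsurj hlam hpl hpg hM hab v 1
    have e3 : ∀ z, D * Zr I hs hss lam M hab z * D⁻¹ = Zr I hs hss lam M hab (w * z) := by
      intro z
      rw [hD]
      have := D_Z I hs hss hcen hsurj hlam hpl hpg hM hab v z
      rw [this, hw, mul_assoc]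
    have e1 : ∀ t, D * Y t * D⁻¹ = Y ((I.nU v : k) * t) := by
      intro t
      have e5 : ∀ D₁ D₂ x : Γ, (D₁ * D₂) * x * (D₁ * D₂)⁻¹ = D₁ * (D₂ * x * D₂⁻¹) * D₁⁻¹ := by
        intro D₁ D₂ x
        group
      have e6 : Ma (ttG I.invol v) * Y t * (Ma (ttG I.invol v))⁻¹ = Y ((I.nU v : k) * t) := by
        simp only [Y]
        rw [← map_inv, ← map_mul, ← map_mul, tt_uu]
      rw [hD, e5, e6]
      simp only [Y]
      rw [N_conjO I hcen hpg hMa hab.symm (hM _), del_Inc_of_nm I hs hss (nm_rU I.invol v)]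
    have e4 : I.tr (σ (w * x)) = (I.nU v : k) * I.tr (σ x) := by
      apply j.injective
      rw [I.j_tr, map_mul j, I.j_tr, I.j_nU, hw]
      simp only [map_mul, hσ]
      ring
    have e6 : E (w * x) = (Zr I hs hss lam M hab (w * x) * Y (I.tr (σ (w * x))))⁻¹ *
        (T * Zr I hs hss lam M hab (w * x) * T⁻¹) := rfl
    have e7 : E x = (Zr I hs hss lam M hab x * Y (I.tr (σ x)))⁻¹ * (T * Zr I hs hss lam M hab x * T⁻¹) := rfl
    have e8 : (Zr I hs hss lam M hab (w * x) * Y ((I.nU v : k) * I.tr (σ x)))⁻¹ * (T * Zr I hs hss lam M hab (w * x) * T⁻¹) =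
        ((D * Zr I hs hss lam M hab x * D⁻¹) * (D * Y (I.tr (σ x)) * D⁻¹))⁻¹ *
          ((D * T * D⁻¹) * (D * Zr I hs hss lam M hab x * D⁻¹) * (D * T * D⁻¹)⁻¹) := by
      rw [e0, e1, e3]
    have e9 : E (w * x) = D * E x * D⁻¹ := by
      rw [e6, e4, e8, e7]
      group
    rw [e9, mem_center_iff.1 (hc x) D, mul_inv_cancel_right]
  have hE : E x = 1 := by
    set y : K := x / (w - 1) with hy
    have e : w * y = y + x := by
      rw [hy]
      field_simp
      ring
    have h5 := hinv y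
    rw [e, hadd] at h5
    exact mul_eq_left.1 h5
  have h1 := hdef x
  rw [hE, mul_one] at h1
  exact h1

/-- The relation `r8`. -/
theorem r8_lift {v : Kˣ} (hv : (I.nU v : k) ≠ 1) :
    Commute (M (Inc I hs hss (uu 1))) (MJ lam M a b a (Inc I hs hss (uu 1))) := by
  have hMa := pi_MJ I hlam hM hab (a := a) a
  refine comm_scale hcen hsurj (A := M (Inc I hs hss (uu 1))) (D := MJ lam M a b a (ttG I.invol v))
    (L := fun t : k => MJ lam M a b a (Inc I hs hss (uu t))) (fun x y => by simp only [uu_add, map_mul]) (fun t => ?_)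
    hv ?_ (fun t => ?_) 1
  · rw [hM, hMa]
    apply SUg_ext
    change MOm b (incM j s (uu 1)) * MOm a (incM j s (uu t)) = MOm a (incM j s (uu t)) * MOm b (incM j s (uu 1))
    exact MOm_comm hab.symm (incM_sub_one_Pv s _) (Pv_incM_sub_one s _)
  · rw [N_conjO I hcen hpg hM hab (hMa _), del_Inc_of_nm I hs hss (nm_rU I.invol v)]
  · rw [← map_inv, ← map_mul, ← map_mul, tt_uu]

/-- The relation `r11`. -/
theorem r11_lift {u₀ : K} (hu0 : u₀ ≠ 0) (hu1 : 1 + u₀ ≠ 0) :
    Zr I hs hss lam M hab 1 = Zr I hs hss lam (MJ lam M a b a) hab.symm 1 := by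
  have hMa := pi_MJ I hlam hM hab (a := a) a
  have hσ := I.invol
  let e : K → Γ := fun c => (Zr I hs hss lam M hab c)⁻¹ * Zr I hs hss lam (MJ lam M a b a) hab.symm (σ c)
  have hek : ∀ c, π (e c) = 1 := by
    intro c
    simp only [e, map_mul, map_inv]
    rw [pi_Zr I hs hss hlam hM hab, pi_Zr I hs hss hlam hMa hab.symm, inv_mul_eq_one]
    apply SUg_ext
    rw [Zr_tgt, Zr_tgt, hσ, add_comm]
  have hadd : ∀ x y, e (x + y) = e x * e y := by
    intro x y
    have h1 : e (x + y) = (Zr I hs hss lam M hab y)⁻¹ * e x * Zr I hs hss lam (MJ lam M a b a) hab.symm (σ y) := by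
      simp only [e, map_add, Zr_add]
      group
    rw [h1, Cfsg.Agent.Lib.Schur.SLnStem.central_ker hcen (hek x) (Zr I hs hss lam M hab y)⁻¹]
    simp only [e]
    group
  have hscale : ∀ u : K, u ≠ 0 → ∀ c, e (u * c) = e c := by
    intro u hu c
    let U : Kˣ := Units.mk0 u hu
    have hγ := hMa (ttG I.invol U)
    have h1 := Zr_conj₁ I hs hss hcen hlam hpl hpg hM hab hγ c
    have h2 := Zr_conj₂ I hs hss hcen hlam hpl hMa hab.symm U (σ c)
    have e1 : ((U : Kˣ) : K) = u := rfl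
    rw [e1] at h1 h2
    have h3 : e (u * c) = MJ lam M a b a (ttG I.invol U) * e c * (MJ lam M a b a (ttG I.invol U))⁻¹ := by
      simp only [e, map_mul]
      rw [← h1, ← h2]
      group
    rw [h3, Cfsg.Agent.Lib.Schur.SLnStem.central_ker hcen (hek c) _, mul_inv_cancel_right]
  have h1 := trivial_of_scale hadd hu0 hu1 hscale 1
  have h2 : (Zr I hs hss lam M hab 1)⁻¹ * Zr I hs hss lam (MJ lam M a b a) hab.symm (σ 1) = 1 := h1
  rw [map_one] at h2
  exact inv_mul_eq_one.1 h2

/-- The relations. -/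
theorem oHyp_of_lifts {ζ : Kˣ} (hζ : ∀ u : Kˣ, ∃ n : ℕ, ζ ^ n = u) (hk : ∀ u : kˣ, ∃ n : ℕ, I.nU ζ ^ n = u)
    {θ b₁ b₂ : K} (hθ : σ θ ≠ θ) (h₁ : b₁ + σ b₁ + 1 * σ 1 = 0) (h₂ : b₂ + σ b₂ + θ * σ θ = 0)
    (htr : ∀ a : K, ∃ b, b + σ b + a * σ a = 0) {r : kˣ} (hr : (r : k) ≠ 1) {u₀ : K} (hu0 : u₀ ≠ 0) (hu1 : 1 + u₀ ≠ 0) :
    OHyp0 I hs hss lam M hab ζ h₁ h₂ := by
  have T := oHyp_target I hs hss hab hζ hk hθ h₁ h₂
  have hMa := pi_MJ I hlam hM hab (a := a) a
  obtain ⟨n, hn⟩ := hk r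
  have hv : (I.nU (ζ ^ n) : k) ≠ 1 := by
    rw [map_pow, hn]
    exact hr
  refine ⟨hζ, hk, hθ, ?_, ?_, ?_, ?_, ?_, ?_, r8_lift I hs hss hcen hsurj hlam hpl hpg hM hab hv,
    r11_lift I hs hss hcen hsurj hlam hpl hpg hM hab hu0 hu1,
    f5_lift I hs hss hcen hsurj hlam hpl hpg hM hab hr _ _ _ _, f5_lift I hs hss hcen hsurj hlam hpl hpg hM hab hr _ _ _ _,
    f2_lift I hs hss hcen hsurj hlam hpl hpg hM hab hθ htr hr _ _ _ _ _ _,
    f2_lift I hs hss hcen hsurj hlam hpl hpg hM hab hθ htr hr _ _ _ _ _ _,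
    f1_lift I hs hss hcen hsurj hlam hpl hpg hM hab hθ htr hr _ _ _,
    f1_lift I hs hss hcen hsurj hlam hpl hpg hM hab hθ htr hr _ _ _,
    ss_lift I hs hss hcen hsurj hlam hpl hpg hM hab hv hr 1,
    ss_lift I hs hss hcen hsurj hlam hpl hpg hM hab hv hr θ⟩
  · -- theta
    intro l h1 h2 g
    exact commute_lift hcen hpg M (lam l) (fun k => by
      rw [hlam, hM]
      exact (T.theta l h1 h2 k).eq) g
  · -- tw
    intro g
    exact conj_lift hcen hpg M (M.comp (del I.invol ζ⁻¹)) (lam (tt hab ζ)) (fun k => by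
      rw [hlam, hM, MonoidHom.comp_apply, hM]
      exact T.tw k) g
  · -- f6
    intro g
    exact N_conjO I hcen hpg hMa hab.symm (hM _) g
  · -- wa
    intro g
    exact commute_lift hcen hpg M (MJ lam M a b a (Inc I hs hss wn)) (fun k => by
      rw [hMa, hM, ← MJ_tgt I hab a]
      exact (T.wa k).eq) g
  · -- r2
    have h := lam_conjO I hcen hlam hpl (hM (ttG I.invol ζ)) (TT hab 1)
    rw [cdg_T, ev1_self, ev1_ne hab] at h
    rw [h]
    congr 2
    simp
  · -- r4
    set p := (pj a b a : SpecialLinearGroup ι K) with hp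
    have h1 := lam_conjO I hcen hlam hpl (hM (ttG I.invol ζ)) p⁻¹
    have h2 : p * cdg (ev1 b ζ) p⁻¹ = tt hab ζ := by
      apply lvO_injD I.invol
      have h3 := T.r4
      rw [MJ_apply] at h3
      rw [map_mul, ← MS_tt_lv, map_inv]
      have h4 : lvO I.invol p * (MS b (ttG I.invol ζ) * (lvO I.invol p)⁻¹ * (MS b (ttG I.invol ζ))⁻¹) =
          (lvO I.invol p * MS b (ttG I.invol ζ) * (lvO I.invol p)⁻¹) * (MS b (ttG I.invol ζ))⁻¹ := by group
      rw [h4, h3, mul_inv_cancel_right]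
    rw [MJ_apply]
    calc lam p * M (ttG I.invol ζ) * (lam p)⁻¹ = lam p * (M (ttG I.invol ζ) * lam p⁻¹ * (M (ttG I.invol ζ))⁻¹) * M (ttG I.invol ζ) := by
          rw [map_inv]
          group
      _ = lam (tt hab ζ) * M (ttG I.invol ζ) := by
          rw [h1, ← map_mul, h2]

end rel

end Cfsg.Agent.Lib.SUStem
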