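import Cfsg.Agent.Lib.SUStem.Count
import Cfsg.Agent.Lib.PresU.OGg

/-!
# The stabiliser of the last basis vector in `SU₃`: it is isomorphic to `SL₂` of the fixed field
-/

set_option autoImplicit false
set_option linter.unusedSectionVars false
set_option linter.unusedVariables false
set_option linter.unusedSimpArgs false

namespace Cfsg.Agent.Lib.SUStem

open Cfsg Subgroup Matrix
open Cfsg.Agent.Lib.PresSU3 (GG fw PP3 herm_P GG_ext)
open Cfsg.Agent.Lib.PresU (Inv Inc incM coe_Inc M2_det)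
open Cfsg.Agent.Lib.PresSp.M2 (M2)
open Cfsg.Agent.Lib.HermCount.Field

universe u

section range

variable {K : Type*} [Field K] {k : Type*} [Field k] {σ : K →+* K} {j : k →+* K} (I : Inv σ j)
  {s : K} (hs : s ≠ 0) (hss : σ s = -s)

include I hs hss in
/-- An element of the group fixing the middle vector comes from `SL₂` of the fixed field. -/
theorem mem_range_Inc (g : GG σ) (h : g.1.1 *ᵥ Pi.single 1 1 = Pi.single 1 1) :
    ∃ m : M2 k, Inc I hs hss m = g := by
  have hcol : ∀ i, g.1.1 i 1 = (Pi.single 1 1 : Fin 3 → K) i := by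
    intro i
    have := congrFun h i
    rwa [mulVec_single_one] at this
  have h01 : g.1.1 0 1 = 0 := by simpa using hcol 0
  have h11 : g.1.1 1 1 = 1 := by simpa using hcol 1
  have h21 : g.1.1 2 1 = 0 := by simpa using hcol 2
  have hform : ∀ x y, fw σ (g.1.1 *ᵥ x) (g.1.1 *ᵥ y) = fw σ x y := g.2
  have hrow : ∀ i, g.1.1 1 i = (Pi.single 1 1 : Fin 3 → K) i := by
    intro i
    have h1 := hform (Pi.single i 1) (Pi.single 1 1)
    rw [h, mulVec_single_one] at h1
    simp only [fw, map_one] at h1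
    have e1 : ∀ l, ((Pi.single (1 : Fin 3) 1 : Fin 3 → K) l) = if l = 1 then 1 else 0 := by
      intro l
      simp [Pi.single_apply]
    fin_cases i <;> simp [Pi.single_apply, Matrix.col, map_one, map_zero] at h1 ⊢ <;> exact h1
  have h10 : g.1.1 1 0 = 0 := by simpa using hrow 0
  have h12 : g.1.1 1 2 = 0 := by simpa using hrow 2
  set A := g.1.1 0 0 with hA
  set B := g.1.1 0 2 with hB
  set C := g.1.1 2 0 with hC
  set D := g.1.1 2 2 with hD
  have hdet : A * D - B * C = 1 := by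
    have := g.1.2
    rw [det_fin_three, h01, h11, h21, h10, h12] at this
    linear_combination this
  have c0 : ∀ i, (g.1.1 *ᵥ Pi.single 0 1) i = g.1.1 i 0 := fun i => by rw [mulVec_single_one]; rfl
  have c2 : ∀ i, (g.1.1 *ᵥ Pi.single 2 1) i = g.1.1 i 2 := fun i => by rw [mulVec_single_one]; rfl
  have f00 : A * σ C + C * σ A = 0 := by
    have h1 := hform (Pi.single 0 1) (Pi.single 0 1)
    simp only [fw, c0, h10] at h1
    simpa [Pi.single_apply, map_zero] using h1
  have f22 : B * σ D + D * σ B = 0 := by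
    have h1 := hform (Pi.single 2 1) (Pi.single 2 1)
    simp only [fw, c2, h12] at h1
    simpa [Pi.single_apply, map_zero] using h1
  have f02 : A * σ D + C * σ B = 1 := by
    have h1 := hform (Pi.single 0 1) (Pi.single 2 1)
    simp only [fw, c0, c2, h10, h12] at h1
    simpa [Pi.single_apply, map_zero] using h1
  have f20 : B * σ C + D * σ A = 1 := by
    have h1 := hform (Pi.single 2 1) (Pi.single 0 1)
    simp only [fw, c0, c2, h10, h12] at h1
    simpa [Pi.single_apply, map_zero] using h1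
  have hσD : σ D = D := by linear_combination D * f02 - C * f22 + (-σ D) * hdet
  have hσB : σ B = -B := by linear_combination A * f22 - B * f02 + (-σ B) * hdet
  have hσA : σ A = A := by linear_combination A * f20 - B * f00 + (-σ A) * hdet
  have hσC : σ C = -C := by linear_combination D * f00 - C * f20 + (-σ C) * hdet
  obtain ⟨a, ha⟩ := I.surj A hσA
  obtain ⟨d, hd⟩ := I.surj D hσD
  obtain ⟨b, hb⟩ := I.surj (B / s) (by rw [map_div₀, hσB, hss, neg_div_neg_eq])
  obtain ⟨c, hc⟩ := I.surj (C * s) (by rw [map_mul, hσC, hss]; ring)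
  have hdet' : a * d - b * c = 1 := by
    apply j.injective
    rw [map_sub, map_mul, map_mul, ha, hd, hb, hc, map_one]
    field_simp
    linear_combination hdet
  let m : M2 k := ⟨!![a, b; c, d], by rw [det_fin_two_of]; exact hdet'⟩
  refine ⟨m, ?_⟩
  apply GG_ext
  change incM j s m = g.1.1
  have e00 : m.1 0 0 = a := rfl
  have e01 : m.1 0 1 = b := rfl
  have e10 : m.1 1 0 = c := rfl
  have e11 : m.1 1 1 = d := rfl
  ext r t
  fin_cases r <;> fin_cases t <;> simp [incM, e00, e01, e10, e11, ha, hb, hc, hd, h01, h11, h21, h10, h12, hs]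
  all_goals first | exact hA | exact hB | exact hC | exact hD

include hs in
/-- The embedding is injective. -/
theorem Inc_inj : Function.Injective (Inc I hs hss) := by
  intro m m' h
  have h1 : incM j s m = incM j s m' := congrArg (fun g : GG σ => g.1.1) h
  apply Subtype.ext
  ext r t
  apply j.injective
  have e00 := congrFun (congrFun h1 0) 0
  have e01 := congrFun (congrFun h1 0) 2
  have e10 := congrFun (congrFun h1 2) 0
  have e11 := congrFun (congrFun h1 2) 2
  simp only [incM, of_apply, cons_val_zero, cons_val_one, cons_val] at e00 e01 e10 e11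
  fin_cases r <;> fin_cases t
  · exact e00
  · exact mul_right_cancel₀ hs e01
  · exact mul_right_cancel₀ (inv_ne_zero hs) e10
  · exact e11

end range

section iso

variable {F : Type u} [Field F] [Fintype F] {q : ℕ} (hF : Fintype.card F = q ^ 2)

include hF

/-- The isomorphism with the standard special unitary group, with the middle vector going to the last one. -/
theorem exists_iso_P (hq : 2 ≤ q) : ∃ (P Q : Matrix (Fin 3) (Fin 3) F) (E : GG (frobHom hF) ≃* ↥(Cfsg.SU 3 F q)),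
    P * Q = 1 ∧ Q * P = 1 ∧ (∀ g, (E g).1.1 = P * g.1.1 * Q) ∧ P *ᵥ Pi.single 1 1 = Pi.single 2 1 := by
  classical
  open Cfsg.Agent.Lib.PresSU3 in
  obtain ⟨ζ, hgen, hord⟩ := exists_gen_units hF
  open Cfsg.Agent.Lib.PresSU3 in
  obtain ⟨t, ht⟩ := exists_nrm hF (-1) (by simp [map_neg]) (by
    simp only [ne_eq, neg_eq_zero, one_ne_zero, not_false_eq_true])
  set l : F := (t : F) with hl
  have hN : l * frobHom hF l = -1 := ht
  set e : F := ((ζ ^ (q - 1) : Fˣ) : F) with he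
  have hnorm : e * frobHom hF e = 1 := Cfsg.Agent.Lib.PresSU3.c0_norm hF hord ζ hq
  have he1 : e ≠ 1 := by
    intro h
    apply Cfsg.Agent.Lib.PresSU3.c0_ne hF hord hq
    apply Units.ext
    exact h
  have hse1 : 1 - frobHom hF e ≠ 0 := by
    intro h
    apply he1
    apply (frobHom hF).injective
    rw [map_one]
    linear_combination -h
  set α : F := (1 - e)⁻¹ with hα
  have h1 : α * (1 - e) = 1 := inv_mul_cancel₀ (sub_ne_zero.2 he1.symm)
  have h2 : frobHom hF α * (1 - frobHom hF e) = 1 := by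
    rw [hα, map_inv₀, map_sub, map_one]
    exact inv_mul_cancel₀ hse1
  set P := PP3 α l e with hP
  have hl0 : l ≠ 0 := t.ne_zero
  have hdet : P.det = l := by
    rw [hP, PP3, det_fin_three]
    simp only [of_apply, cons_val_zero, cons_val_one, cons_val]
    linear_combination l * h1
  have hPu : IsUnit P.det := by
    rw [hdet]
    exact isUnit_iff_ne_zero.2 hl0
  have hPc : ∀ x y, hermForm 3 F q (P *ᵥ x) (P *ᵥ y) = fw (frobHom hF) x y := herm_P hF hN hnorm h1 h2
  have hPP : ∀ u : Fin 3 → F, P *ᵥ (P⁻¹ *ᵥ u) = u := by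
    intro u
    rw [mulVec_mulVec, mul_nonsing_inv _ hPu, one_mulVec]
  have hi1 : P⁻¹ * P = 1 := nonsing_inv_mul _ hPu
  have hi2 : P * P⁻¹ = 1 := mul_nonsing_inv _ hPu
  refine ⟨P, P⁻¹,
    { toFun := fun g => ⟨⟨P * g.1.1 * P⁻¹, by rw [det_conj_of_mul_eq_one hi2 hi1]; exact g.1.2⟩, fun u v => ?_⟩
      invFun := fun g => ⟨⟨P⁻¹ * g.1.1 * P, ?_⟩, fun u v => ?_⟩
      left_inv := fun g => ?_
      right_inv := fun g => ?_
      map_mul' := fun a b => ?_ }, hi2, hi1, fun g => rfl, ?_⟩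
  · change hermForm 3 F q ((P * g.1.1 * P⁻¹) *ᵥ u) ((P * g.1.1 * P⁻¹) *ᵥ v) = _
    have e1 : ∀ w : Fin 3 → F, (P * g.1.1 * P⁻¹) *ᵥ w = P *ᵥ (g.1.1 *ᵥ (P⁻¹ *ᵥ w)) := by
      intro w
      rw [mulVec_mulVec, mulVec_mulVec, mul_assoc]
    rw [e1, e1, hPc]
    have h3 := g.2 (P⁻¹ *ᵥ u) (P⁻¹ *ᵥ v)
    change fw (frobHom hF) (g.1.1 *ᵥ (P⁻¹ *ᵥ u)) (g.1.1 *ᵥ (P⁻¹ *ᵥ v)) = _ at h3
    rw [h3, ← hPc, hPP, hPP]
  · rw [det_conj_of_mul_eq_one hi1 hi2]
    exact g.1.2
  · change fw (frobHom hF) ((P⁻¹ * g.1.1 * P) *ᵥ u) ((P⁻¹ * g.1.1 * P) *ᵥ v) = _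
    rw [← hPc, ← hPc u v]
    have e1 : ∀ w : Fin 3 → F, P *ᵥ ((P⁻¹ * g.1.1 * P) *ᵥ w) = g.1.1 *ᵥ (P *ᵥ w) := by
      intro w
      rw [mulVec_mulVec, mulVec_mulVec]
      have : P * (P⁻¹ * g.1.1 * P) = (P * P⁻¹) * g.1.1 * P := by simp only [mul_assoc]
      rw [this, hi2, one_mul]
    rw [e1, e1]
    exact g.2 (P *ᵥ u) (P *ᵥ v)
  · apply GG_ext
    change P⁻¹ * (P * g.1.1 * P⁻¹) * P = g.1.1
    have : P⁻¹ * (P * g.1.1 * P⁻¹) * P = (P⁻¹ * P) * g.1.1 * (P⁻¹ * P) := by simp only [mul_assoc]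
    rw [this, hi1, one_mul, mul_one]
  · apply Subtype.ext
    apply Subtype.ext
    change P * (P⁻¹ * g.1.1 * P) * P⁻¹ = g.1.1
    have : P * (P⁻¹ * g.1.1 * P) * P⁻¹ = (P * P⁻¹) * g.1.1 * (P * P⁻¹) := by simp only [mul_assoc]
    rw [this, hi2, one_mul, mul_one]
  · apply Subtype.ext
    apply Subtype.ext
    change P * (a.1.1 * b.1.1) * P⁻¹ = P * a.1.1 * P⁻¹ * (P * b.1.1 * P⁻¹)
    have : P * a.1.1 * P⁻¹ * (P * b.1.1 * P⁻¹) = P * a.1.1 * (P⁻¹ * P) * b.1.1 * P⁻¹ := by
      simp only [mul_assoc]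
    rw [this, hi1, mul_one]
    simp only [mul_assoc]
  · rw [hP, Cfsg.Agent.Lib.PresSU3.PP3_apply]
    ext i
    fin_cases i <;> simp [Pi.single_apply]

/-- The stabiliser of the last basis vector. -/
def LL (q : ℕ) (F : Type u) [Field F] : Subgroup ↥(Cfsg.SU 3 F q) where
  carrier := {g | g.1.1 *ᵥ Pi.single 2 1 = Pi.single 2 1}
  mul_mem' := by
    intro a b ha hb
    change (a.1.1 * b.1.1) *ᵥ _ = _
    rw [← mulVec_mulVec]
    have ha' : a.1.1 *ᵥ Pi.single 2 1 = Pi.single 2 1 := ha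
    have hb' : b.1.1 *ᵥ Pi.single 2 1 = Pi.single 2 1 := hb
    rw [hb', ha']
  one_mem' := by
    change (1 : Matrix (Fin 3) (Fin 3) F) *ᵥ _ = _
    rw [one_mulVec]
  inv_mem' := by
    intro a ha
    have ha' : a.1.1 *ᵥ Pi.single 2 1 = Pi.single 2 1 := ha
    have h1 : (a⁻¹).1.1 * a.1.1 = 1 := congrArg (fun g : ↥(Cfsg.SU 3 F q) => g.1.1) (inv_mul_cancel a)
    change (a⁻¹).1.1 *ᵥ _ = _
    conv_lhs => rw [← ha', mulVec_mulVec, h1, one_mulVec]

/-- The subgroup `LL` is isomorphic to `SL₂` of the fixed field. -/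
theorem exists_equiv_LL (hq : 2 ≤ q) : Nonempty (M2 (Cfsg.Agent.Lib.PresU.kF hF) ≃* LL q F) := by
  classical
  obtain ⟨P, Q, E, h1, h2, hE, hP⟩ := exists_iso_P hF hq
  have I := Cfsg.Agent.Lib.PresU.inv_F hF
  obtain ⟨θ, hθ'⟩ := exists_frob_ne hF
  have hθ : frobHom hF θ ≠ θ := hθ'
  have hs : θ - frobHom hF θ ≠ 0 := sub_ne_zero.2 hθ.symm
  have hss : frobHom hF (θ - frobHom hF θ) = -(θ - frobHom hF θ) := by
    rw [map_sub, Cfsg.Agent.Lib.PresSU3.hσ_frob hF]
    ring
  have hfix : ∀ g : GG (frobHom hF), E g ∈ LL q F ↔ g.1.1 *ᵥ Pi.single 1 1 = Pi.single 1 1 := by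
    intro g
    have hPi : Q *ᵥ (Pi.single 2 1 : Fin 3 → F) = Pi.single 1 1 := by
      rw [← hP, mulVec_mulVec, h2, one_mulVec]
    change (E g).1.1 *ᵥ _ = _ ↔ _
    rw [hE, ← mulVec_mulVec, ← mulVec_mulVec, hPi]
    constructor
    · intro h
      have h3 : g.1.1 *ᵥ Pi.single 1 1 = Q *ᵥ (P *ᵥ (g.1.1 *ᵥ Pi.single 1 1)) := by
        rw [mulVec_mulVec, h2, one_mulVec]
      rw [h3, h, hPi]
    · intro h
      rw [h, hP]
  let f : M2 (Cfsg.Agent.Lib.PresU.kF hF) →* LL q F :=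
    { toFun := fun m => ⟨E (Inc I hs hss m), by
        rw [hfix]
        rw [mulVec_single_one]
        ext i
        fin_cases i <;> simp [coe_Inc, incM, Pi.single_apply]⟩
      map_one' := by
        apply Subtype.ext
        simp
      map_mul' := by
        intro a b
        apply Subtype.ext
        simp }
  refine ⟨MulEquiv.ofBijective f ⟨?_, ?_⟩⟩
  · intro a b hab
    have h3 : E (Inc I hs hss a) = E (Inc I hs hss b) := congrArg Subtype.val hab
    exact Inc_inj I hs hss (E.injective h3)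
  · rintro ⟨g, hg⟩
    have hg' : E (E.symm g) ∈ LL q F := by simpa using hg
    obtain ⟨m, hm⟩ := mem_range_Inc I hs hss (E.symm g) ((hfix _).1 hg')
    refine ⟨m, ?_⟩
    apply Subtype.ext
    change E (Inc I hs hss m) = g
    rw [hm, E.apply_symm_apply]

end iso

end Cfsg.Agent.Lib.SUStem
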