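import Cfsg.Agent.Lib.SUStem.URelB
import Cfsg.Agent.Lib.PresU.Conc2
import Cfsg.Agent.S2117

/-!
# The stem extensions of the unitary group in even degree are trivial for `q ≥ 4`
-/

set_option autoImplicit false
set_option linter.unusedSectionVars false
set_option linter.unusedVariables false
set_option linter.unusedSimpArgs false
set_option linter.style.haveILetI false

namespace Cfsg.Agent.Lib.SUStem

open Cfsg Subgroup Matrix
open scoped commutatorElement MatrixGroups
open Cfsg.Agent.Lib.PresSp.M2 Cfsg.Agent.Lib.PresSp.Mono Cfsg.Agent.Lib.PresSLn.TwoGen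
open Cfsg.Agent.Lib.PresU Cfsg.Agent.Lib.PresSU3 Cfsg.Agent.Lib.HermCount.Field
open Cfsg.Agent.Lib.Schur.SpStem (sl2_perfect exists_unit_sq ne_one_of_sq exists_section_of_inj exists_section
  pull_stem pull_map pullF pullG sl2_trivial_of_comm upS_eq_uu upS_eq_TT)
open Cfsg.Agent.Lib.Classical.SL2Sylow

universe u

section Exists

variable {ι : Type*} [Fintype ι] [DecidableEq ι] {K : Type*} [Field K] [Finite K] {k : Type*} [Field k] [Fintype k]
  {σ : K →+* K} {j : k →+* K} (I : Inv σ j) {s : K} (hs : s ≠ 0) (hss : σ s = -s)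
  {Γ : Type*} [Group Γ] {π : Γ →* GE σ ι} {a b : ι}

/-- The section over a long root `SL₂`. -/
theorem exists_muU [Finite Γ] (hcen : π.ker ≤ center Γ) (hsur : Function.Surjective π) (hab : a ≠ b)
    (hF : 4 ≤ Fintype.card k) : ∃ mu : M2 k →* Γ, ∀ g, π (mu g) = lgS I hs hss b g := by
  obtain ⟨w, hw⟩ := exists_unit_sq (F := k) hF
  have hK := sl2_perfect (F := k) hF
  refine exists_section_of_inj hsur hcen hK ?_
  intro z hz
  have hstem := pull_stem (ρ := lgS I hs hss b) hsur hcen hK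
  refine sl2_trivial_of_comm hstem ?_ hz
  intro x y hx hy
  obtain ⟨t, ht⟩ := mem_US_iff.1 hx
  obtain ⟨t', ht'⟩ := mem_US_iff.1 hy
  have h1 : π (pullG π (lgS I hs hss b) x) = lgS I hs hss b (uu t) := by
    rw [pull_map, ← ht]
    rfl
  have h2 : π (pullG π (lgS I hs hss b) y) = lgS I hs hss b (uu t') := by
    rw [pull_map, ← ht']
    rfl
  have h3 := comm_U_same I hs hss hcen hsur hab (ne_one_of_sq hw) h1 h2
  apply Subtype.ext
  apply Subtype.ext
  apply Prod.ext
  · exact h3
  · change pullF π (lgS I hs hss b) x * pullF π (lgS I hs hss b) y = pullF π (lgS I hs hss b) y * pullF π (lgS I hs hss b) x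
    rw [← ht, ← ht', ← Cfsg.Agent.Lib.Classical.SL2Sylow.upS_add, ← Cfsg.Agent.Lib.Classical.SL2Sylow.upS_add, add_comm]

end Exists

section Lam

variable {K Γ : Type u} [Field K] [Fintype K] [Group Γ] [Finite Γ]
  {k : Type*} [Field k] {σ : K →+* K} {j : k →+* K} (I : Inv σ j)

/-- The section over the Levi subgroup. -/
theorem exists_lamU {m : ℕ} {π : Γ →* GE σ (Fin m)} (hcen : π.ker ≤ center Γ) (hsur : Function.Surjective π)
    (hm : 2 ≤ m) (hF : 10 ≤ Fintype.card K) :
    commutator (SpecialLinearGroup (Fin m) K) = ⊤ ∧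
      ∃ lam : SpecialLinearGroup (Fin m) K →* Γ, ∀ l, π (lam l) = levS I.invol l := by
  by_cases h2 : m = 2
  · subst h2
    have hK := sl2_perfect (F := K) (by omega)
    refine ⟨hK, exists_section_of_inj hsur hcen hK (fun z hz => ?_)⟩
    have hstem := pull_stem (ρ := levS (σ := σ) (ι := Fin 2) I.invol) hsur hcen hK
    obtain ⟨ρ, hρ⟩ := (Cfsg.Agent.S2117.result (F := K) (by omega) (by omega)).2 _ _ hstem
    obtain ⟨y, hy⟩ := hρ ⟨z, hz⟩
    have hy1 : y = 1 := by
      have hsub : Subsingleton (Multiplicative (ZMod 1)) :=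
        inferInstanceAs (Subsingleton (ZMod 1))
      exact Subsingleton.elim _ _
    rw [hy1, map_one] at hy
    exact (congrArg Subtype.val hy).symm
  · have h3 : 3 ≤ Fintype.card (Fin m) := by
      rw [Fintype.card_fin]
      omega
    have hpl := Cfsg.Agent.Lib.Classical.Transvections.commutator_sl_eq_top (F := K) h3
    refine ⟨hpl, ?_⟩
    exact exists_section (ρ := levS (σ := σ) (ι := Fin m) I.invol) hsur hcen hpl
      (fun Δ _ _ τ hτ z hz => Cfsg.Agent.Lib.Schur.SLnStem.stem_sl_trivial hτ h3 (fun _ => by omega)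
        (fun _ => by omega) hz)

end Lam

section Hyp

variable {ι : Type*} [Fintype ι] [DecidableEq ι] {K : Type*} [Field K] [Finite K] {k : Type*} [Field k] [Finite k]
  {σ : K →+* K} {j : k →+* K} {I : Inv σ j} {s : K} (hs : s ≠ 0) (hss : σ s = -s)
  {Γ : Type*} [Group Γ] {π : Γ →* GE σ ι} {a b : ι} {lam : SpecialLinearGroup ι K →* Γ} {mu : M2 k →* Γ}

/-- The relations imply that a stem extension is trivial. -/
theorem trivial_of_hypU (hπ : IsStemExtension π) {hab : a ≠ b} {ζ : Kˣ} (H : UHyp I lam mu hab ζ)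
    (hlam : ∀ l, π (lam l) = levS I.invol l) (hmu : ∀ g, π (mu g) = lgS I hs hss b g)
    (hT : Subgroup.closure {g : GE σ ι | ∃ w c, fJ σ (JE ι K) w w = 0 ∧ IsTv (JE ι K) g w c} = ⊤)
    {z : Γ} (hz : π z = 1) : z = 1 := by
  let S : Subgroup Γ := Subgroup.closure (Set.range lam ∪ Set.range mu)
  have hlS : ∀ l, lam l ∈ S := fun l => Subgroup.subset_closure (Or.inl ⟨l, rfl⟩)
  have hmS : ∀ g, mu g ∈ S := fun g => Subgroup.subset_closure (Or.inr ⟨g, rfl⟩)
  let lam' : SpecialLinearGroup ι K →* S := lam.codRestrict S hlS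
  let mu' : M2 k →* S := mu.codRestrict S hmS
  have H0 := H.toUHyp0
  have H' : UHyp I lam' mu' hab ζ :=
    { gen := H0.gen
      genk := H0.genk
      theta := fun l h1 h2 g => Subtype.ext (H0.theta l h1 h2 g)
      r1 := Subtype.ext H0.r1
      r2 := Subtype.ext H0.r2
      r3 := Subtype.ext H0.r3
      r4 := Subtype.ext H0.r4
      r5 := Subtype.ext H0.r5
      r6 := Subtype.ext H0.r6
      r7 := Subtype.ext H0.r7
      r8 := Subtype.ext H0.r8
      r9 := Subtype.ext H0.r9
      r10 := Subtype.ext H0.r10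
      r11 := Subtype.ext H0.r11
      s4g := fun c d => Subtype.ext (H.s4g c d) }
  let φ : S →* GE σ ι := π.comp S.subtype
  have hgen : Subgroup.closure (Set.range lam' ∪ Set.range mu') = ⊤ := by
    have h := Subgroup.closure_closure_coe_preimage (k := Set.range lam ∪ Set.range mu)
    rw [← h]
    congr 1
    ext x
    constructor
    · rintro (⟨l, rfl⟩ | ⟨g, rfl⟩)
      · exact Or.inl ⟨l, rfl⟩
      · exact Or.inr ⟨g, rfl⟩
    · rintro (⟨l, hl⟩ | ⟨g, hg⟩)
      · exact Or.inl ⟨l, Subtype.ext hl⟩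
      · exact Or.inr ⟨g, Subtype.ext hg⟩
  have hinj0 := UHyp.injective H' hs ((geCoe σ ι).comp φ)
    (fun l => by
      change (π (lam l)).1.1 = _
      rw [hlam]
      rfl)
    (fun g => by
      change (π (mu g)).1.1 = _
      rw [hmu]
      rfl) hgen
  have hinj : Function.Injective φ := by
    intro x y hxy
    exact hinj0 (by
      change (φ x).1.1 = (φ y).1.1
      rw [hxy])
  have htop : φ.range = ⊤ := by
    rw [eq_top_iff, ← gen_even I hs hss hab hT, Subgroup.closure_le]
    rintro _ (⟨l, rfl⟩ | ⟨g, rfl⟩)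
    · exact ⟨lam' l, hlam l⟩
    · exact ⟨mu' g, hmu g⟩
  have hle := Cfsg.Agent.Lib.Schur.SLnStem.commutator_le_range_of_central (σ := π) hπ.2.1 S.subtype (fun g => by
    have h1 : π g ∈ φ.range := by rw [htop]; trivial
    exact h1)
  obtain ⟨q, hq⟩ := hle (hπ.2.2 hz)
  have h1 : φ q = 1 := by
    change π (q : Γ) = 1
    have h2 : (q : Γ) = z := hq
    rw [h2, hz]
  have h2 : q = 1 := hinj (by rw [h1, map_one])
  rw [← show (q : Γ) = z from hq, h2]
  rfl

end Hyp

section Main

variable {F : Type u} [Field F] [Fintype F] {q : ℕ} (hF : Fintype.card F = q ^ 2)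

/-- The fixed field has at least `q` elements. -/
lemma card_kF_ge : q ≤ Nat.card (kF hF) := by
  classical
  have hq2 := two_le hF
  have hcardU : Nat.card Fˣ = (q - 1) * (q + 1) := by
    rw [Nat.card_eq_fintype_card, Fintype.card_units, hF]
    obtain ⟨q', rfl⟩ : ∃ q', q = q' + 1 := ⟨q - 1, by omega⟩
    simp only [Nat.add_sub_cancel]
    have : (q' + 1) ^ 2 = q' * (q' + 1 + 1) + 1 := by ring
    omega
  have hker : Nat.card (powMonoidHom (α := Fˣ) (q - 1)).ker = q - 1 := by
    rw [IsCyclic.card_powMonoidHom_ker, hcardU]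
    exact Nat.gcd_eq_right (Dvd.intro _ rfl)
  have hfix : ∀ u : (powMonoidHom (α := Fˣ) (q - 1)).ker, (((u : Fˣ) : F)) ∈ kF hF := by
    intro u
    have h1 : (u : Fˣ) ^ (q - 1) = 1 := u.2
    have h2 : ((u : Fˣ) : F) ^ (q - 1) = 1 := by
      rw [← Units.val_pow_eq_pow_val, h1, Units.val_one]
    change ((u : Fˣ) : F) ^ q = ((u : Fˣ) : F)
    obtain ⟨q', rfl⟩ : ∃ q', q = q' + 1 := ⟨q - 1, by omega⟩
    simp only [Nat.add_sub_cancel] at h2
    rw [pow_succ, h2, one_mul]
  let f : Option (powMonoidHom (α := Fˣ) (q - 1)).ker → kF hF := fun o =>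
    match o with
    | none => 0
    | some u => ⟨((u : Fˣ) : F), hfix u⟩
  have hf : Function.Injective f := by
    intro x y hxy
    rcases x with _ | x <;> rcases y with _ | y
    · rfl
    · exfalso
      have h : (0 : F) = (((y : Fˣ) : F)) := congrArg Subtype.val hxy
      exact (y : Fˣ).ne_zero h.symm
    · exfalso
      have h : (((x : Fˣ) : F)) = 0 := congrArg Subtype.val hxy
      exact (x : Fˣ).ne_zero h
    · have h : (((x : Fˣ) : F)) = (((y : Fˣ) : F)) := congrArg Subtype.val hxy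
      congr 1
      exact Subtype.ext (Units.ext h)
  have h3 := Nat.card_le_card_of_injective f hf
  rw [Finite.card_option, hker] at h3
  omega

/-- Even degree, `q ≥ 4`. -/
theorem stemGE_q4 (hq : 4 ≤ q) (m : ℕ) (hm : 2 ≤ m) : StemTriv (GE (frobHom hF) (Fin m)) := by
  classical
  intro Γ _ _ π hπ z hz
  obtain ⟨hsur, hcen, -⟩ := id hπ
  haveI : Fintype (kF hF) := Fintype.ofFinite _
  obtain ⟨ζ, hgen, -⟩ := Cfsg.Agent.Lib.PresSU3.exists_gen_units hF
  have I := inv_F hF
  obtain ⟨θ, hθ'⟩ := exists_frob_ne hF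
  have hθ : frobHom hF θ ≠ θ := hθ'
  have hs : θ - frobHom hF θ ≠ 0 := sub_ne_zero.2 hθ.symm
  have hss : frobHom hF (θ - frobHom hF θ) = -(θ - frobHom hF θ) := by
    rw [map_sub, Cfsg.Agent.Lib.PresSU3.hσ_frob hF]
    ring
  have hab : (⟨0, by omega⟩ : Fin m) ≠ ⟨1, by omega⟩ := by simp [Fin.ext_iff]
  have hcard : 4 ≤ Fintype.card (kF hF) := by
    rw [← Nat.card_eq_fintype_card]
    exact hq.trans (card_kF_ge hF)
  obtain ⟨w, hw⟩ := exists_unit_sq (F := kF hF) hcard
  have hpm := sl2_perfect (F := kF hF) hcard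
  obtain ⟨mu, hmu⟩ := exists_muU I hs hss hcen hsur hab hcard
  have hF10 : 10 ≤ Fintype.card F := by
    rw [hF]
    nlinarith
  obtain ⟨hpl, lam, hlam⟩ := exists_lamU I hcen hsur hm hF10
  have H := uHyp_of_lifts I hs hss hcen hsur hlam hmu hpl hpm hab hgen (gen_kF hF hgen) hw
  obtain ⟨P, P', h1, h2, hP⟩ := gram_even hF (Fin m) (n := m + m) (by simp)
  have hT := closure_tv hF h1 h2 hP (by omega) (by omega)
  exact trivial_of_hypU hs hss hπ H hlam hmu hT hz

end Main

end Cfsg.Agent.Lib.SUStem
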