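import Cfsg.Agent.Lib.SUStem.Defs
import Cfsg.Agent.Lib.PresU.Conc2
import Cfsg.Agent.Lib.Schur.SpStem.Q4

/-!
# The unitary group in even degree: torus over the fixed field, lifts of root elements
-/

set_option autoImplicit false
set_option linter.unusedSectionVars false
set_option linter.unusedVariables false
set_option linter.unusedSimpArgs false
set_option linter.style.haveILetI false

namespace Cfsg.Agent.Lib.SUStem

open Cfsg Subgroup Matrix
open scoped commutatorElement MatrixGroups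
open Cfsg.Agent.Lib.PresSp.M2 Cfsg.Agent.Lib.PresSp.Mono Cfsg.Agent.Lib.PresSLn.TwoGen
open Cfsg.Agent.Lib.PresSp.Tgt (sj sj_mul sj_add sj_zero sj_tr sj_ne sj_sub one_sj_mul one_sj_mul_sj
  sj_mul_one_sj upM upM_mul upM_zero)
open Cfsg.Agent.Lib.PresU
open Cfsg.Agent.Lib.Schur.SpStem (dgM dgM_mul dgM_one dgM_inv_mul dgM_mul_inv dgM_tr dgM_single single_dgM cdg coe_cdg
  cdg_T ev1 ev1_self ev1_ne dd_conj_coe dd_one_conj uu_conj ll_conj comm_of_scale conj_lift commute_lift comm_of_prod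
  conj_simp dd_wn_conj)
open Cfsg.Agent.Lib.Schur.SLnStem (comm_comm comm_ker map_comm central_ker)

variable {ι : Type*} [Fintype ι] [DecidableEq ι] {K : Type*} [Field K] {k : Type*} [Field k]
variable {σ : K →+* K} {j : k →+* K}

/-- The units of `K` from a vector of units of the fixed field. -/
def torW (j : k →+* K) (v : ι → kˣ) : ι → Kˣ := fun i => jU j (v i)

lemma torW_mul (v w : ι → kˣ) : torW j (v * w) = torW j v * torW j w := by
  funext i
  simp [torW]

lemma torW_inv (v : ι → kˣ) : (torW j v)⁻¹ = torW j v⁻¹ := by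
  funext i
  simp [torW]

lemma torW_one : torW j (1 : ι → kˣ) = 1 := by
  funext i
  simp [torW]

lemma torW_val (v : ι → kˣ) (i : ι) : ((torW j v i : Kˣ) : K) = j (v i : k) := rfl

lemma dgM_map (I : Inv σ j) (v : ι → kˣ) : (dgM (torW j v)).map σ = dgM (torW j v) := by
  ext r t
  by_cases h : r = t
  · subst h
    simp [dgM, torW_val, I.fix]
  · simp [dgM, h, diagonal_apply_ne]

lemma hh_dgM (I : Inv σ j) (v : ι → kˣ) : hh σ (dgM (torW j v)) = dgM (torW j v) := by
  rw [hh, dgM_map I, dgM_tr]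

/-- The torus of the even unitary group over the fixed field. -/
def torU (I : Inv σ j) : (ι → kˣ) →* GE σ ι where
  toFun v := ⟨⟨fromBlocks (dgM (torW j v)) 0 0 (dgM (torW j v)⁻¹), by
      rw [det_fromBlocks_zero₂₁, ← det_mul, dgM_mul_inv, det_one]⟩, by
      change IsU σ (JE ι K) _
      rw [IsU, JE, fromBlocks_transpose, fromBlocks_map, fromBlocks_multiply, fromBlocks_multiply, torW_inv, dgM_map I,
        dgM_map I, dgM_tr, dgM_tr]
      simp only [transpose_zero, zero_mul, mul_zero, add_zero, zero_add, mul_one, one_mul, map_zero]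
      have e1 : dgM (torW j v) * dgM (torW j v⁻¹) = 1 := by rw [← torW_inv, dgM_mul_inv]
      have e2 : dgM (torW j v⁻¹) * dgM (torW j v) = 1 := by rw [← torW_inv, dgM_inv_mul]
      rw [e1, e2]
      simp⟩
  map_one' := by
    apply SUg_ext
    change fromBlocks (dgM (torW j (1 : ι → kˣ))) 0 0 (dgM (torW j (1 : ι → kˣ))⁻¹) = 1
    rw [torW_one, inv_one, dgM_one, fromBlocks_one]
  map_mul' v w := by
    apply SUg_ext
    change fromBlocks (dgM (torW j (v * w))) 0 0 (dgM (torW j (v * w))⁻¹) =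
      fromBlocks (dgM (torW j v)) 0 0 (dgM (torW j v)⁻¹) * fromBlocks (dgM (torW j w)) 0 0 (dgM (torW j w)⁻¹)
    rw [fromBlocks_multiply, torW_mul, _root_.mul_inv, dgM_mul, dgM_mul]
    simp

lemma coe_torU (I : Inv σ j) (v : ι → kˣ) :
    (torU I v).1.1 = fromBlocks (dgM (torW j v)) 0 0 (dgM (torW j v)⁻¹) := rfl

section conj

variable [Finite K] [Finite k] (I : Inv σ j)

/-- The torus on the Levi subgroup. -/
lemma torU_lev (v : ι → kˣ) (l : SpecialLinearGroup ι K) :
    torU I v * levS I.invol l * (torU I v)⁻¹ = levS I.invol (cdg (torW j v) l) := by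
  apply conj_coe'
  change fromBlocks (dgM (torW j v)) 0 0 (dgM (torW j v)⁻¹) * levM σ l =
    levM σ (cdg (torW j v) l) * fromBlocks (dgM (torW j v)) 0 0 (dgM (torW j v)⁻¹)
  rw [levM, levM, fromBlocks_multiply, fromBlocks_multiply]
  simp only [zero_mul, mul_zero, add_zero, zero_add]
  refine fromBlocks_inj.2 ⟨?_, rfl, rfl, ?_⟩
  · rw [coe_cdg, Matrix.mul_assoc, dgM_inv_mul, mul_one]
  · rw [← map_inv, coe_cdg, hh_mul, hh_mul, torW_inv, hh_dgM I, hh_dgM I, ← torW_inv]
    simp only [Matrix.mul_assoc, dgM_mul_inv, mul_one]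

/-- The torus on a long root `SL₂`. -/
lemma torU_lg {s : K} (hs : s ≠ 0) (hss : σ s = -s) (v : ι → kˣ) (i : ι) (g : M2 k) :
    torU I v * lgS I hs hss i g * (torU I v)⁻¹ = lgS I hs hss i (dd (v i) * g * (dd (v i))⁻¹) := by
  apply conj_coe'
  change fromBlocks (dgM (torW j v)) 0 0 (dgM (torW j v)⁻¹) * lgM j s i g =
    lgM j s i (dd (v i) * g * (dd (v i))⁻¹) * fromBlocks (dgM (torW j v)) 0 0 (dgM (torW j v)⁻¹)
  obtain ⟨e1, e2, e3, e4⟩ := dd_conj_coe (v i) g
  have hu : j ((v i : kˣ) : k) * j (((v i)⁻¹ : kˣ) : k) = 1 := by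
    rw [← map_mul]
    simp
  have hu' : j (((v i)⁻¹ : kˣ) : k) * j ((v i : kˣ) : k) = 1 := by
    rw [← map_mul]
    simp
  have hval : (((torW j v)⁻¹ i : Kˣ) : K) = j (((v i)⁻¹ : kˣ) : k) := by
    rw [torW_inv]
    simp [torW_val]
  rw [lgM, lgM, e1, e2, e3, e4, fromBlocks_multiply, fromBlocks_multiply]
  simp only [zero_mul, mul_zero, add_zero, zero_add, sj, mul_add, add_mul, mul_one, one_mul, dgM_single, single_dgM,
    hval, torW_val, map_mul]
  refine fromBlocks_inj.2 ⟨?_, ?_, ?_, ?_⟩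
  · rw [mul_comm]
  · congr 1
    linear_combination (-(j (g.1 0 1) * s * j ((v i : kˣ) : k))) * hu
  · congr 1
    linear_combination (-(j (g.1 1 0) * s⁻¹ * j (((v i)⁻¹ : kˣ) : k))) * hu'
  · rw [mul_comm]

/-- The torus of a long root `SL₂` is part of the torus. -/
lemma lg_dd_eq {s : K} (hs : s ≠ 0) (hss : σ s = -s) (i : ι) (u : kˣ) :
    lgS I hs hss i (dd u) = torU I (Function.update 1 i u) := by
  apply SUg_ext
  change lgM j s i (dd u) = fromBlocks (dgM _) 0 0 (dgM _)
  rw [lgM_dd]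
  have h1 : ∀ w : kˣ, (1 : Matrix ι ι K) + sj i (j (w : k) - 1) = dgM (torW j (Function.update 1 i w)) := by
    intro w
    ext r t
    by_cases hrs : r = t
    · subst hrs
      by_cases h : r = i
      · subst h
        simp [dgM, sj, torW_val]
      · simp [dgM, sj, h, single_apply, Ne.symm h, Function.update_of_ne, torW_val]
    · have h1 : ¬(i = r ∧ i = t) := fun h => hrs (h.1.symm.trans h.2)
      simp [dgM, sj, hrs, single_apply, h1]
  have h2 : (torW j (Function.update (1 : ι → kˣ) i u))⁻¹ = torW j (Function.update (1 : ι → kˣ) i u⁻¹) := by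
    rw [torW_inv]
    congr 1
    funext x
    by_cases h : x = i
    · subst h
      simp
    · simp [h, Function.update_of_ne]
  rw [h2, ← h1, ← h1]

/-- Conjugation fixes long root `SL₂`s where the torus element is trivial. -/
lemma torU_lg_fix {s : K} (hs : s ≠ 0) (hss : σ s = -s) {v : ι → kˣ} {i : ι} (h : v i = 1) (g : M2 k) :
    torU I v * lgS I hs hss i g * (torU I v)⁻¹ = lgS I hs hss i g := by
  rw [torU_lg, h, dd_one_conj]

/-- The torus on the upper unipotent elements. -/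
lemma torU_up (v : ι → kˣ) (S : Matrix ι ι K) :
    (torU I v).1.1 * upM S = upM (dgM (torW j v) * S * dgM (torW j v)) * (torU I v).1.1 := by
  rw [coe_torU, upM, upM, fromBlocks_multiply, fromBlocks_multiply]
  simp only [zero_mul, mul_zero, add_zero, zero_add, mul_one, one_mul]
  refine fromBlocks_inj.2 ⟨rfl, ?_, rfl, rfl⟩
  rw [Matrix.mul_assoc, dgM_mul_inv, mul_one]

variable {s : K} (hs : s ≠ 0) (hss : σ s = -s)

/-- The short root elements `ε_i + ε_i'`. -/
noncomputable def Zu {i i' : ι} (h : i ≠ i') (c : K) : GE σ ι :=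
  lgS I hs hss i' wn * levS I.invol (TT h c) * (lgS I hs hss i' wn)⁻¹

lemma Zu_coe {i i' : ι} (h : i ≠ i') (c : K) :
    (Zu I hs hss h c).1.1 = upM (single i i' (c * s) + single i' i (σ c * s)) :=
  zS_coe I hs hss h c

lemma Zu_add {i i' : ι} (h : i ≠ i') (c d : K) :
    Zu I hs hss h (c + d) = Zu I hs hss h c * Zu I hs hss h d := by
  simp only [Zu, TT_add, map_mul]
  group

lemma Zu_symm {i i' : ι} (h : i ≠ i') (c : K) : Zu I hs hss h.symm (σ c) = Zu I hs hss h c := by
  apply SUg_ext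
  rw [Zu_coe, Zu_coe, I.invol, add_comm]

lemma torU_Zu (v : ι → kˣ) {i i' : ι} (h : i ≠ i') (c : K) :
    torU I v * Zu I hs hss h c * (torU I v)⁻¹ = Zu I hs hss h (j (v i : k) * j (v i' : k) * c) := by
  apply conj_coe'
  rw [Zu_coe, torU_up, Zu_coe]
  congr 2
  rw [mul_add, add_mul, dgM_single, dgM_single, single_dgM, single_dgM, map_mul, map_mul, I.fix, I.fix]
  simp only [torW_val]
  congr 2 <;> ring

lemma upU_comm {x y : GE σ ι} {S T : Matrix ι ι K} (hx : x.1.1 = upM S) (hy : y.1.1 = upM T) : x * y = y * x := by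
  apply SUg_ext
  change x.1.1 * y.1.1 = y.1.1 * x.1.1
  rw [hx, hy, upM_mul, upM_mul, add_comm]

lemma levS_inj : Function.Injective (levS (σ := σ) (ι := ι) I.invol) := by
  intro l l' h
  have h1 : levM σ l = levM σ l' := congrArg (fun x : GE σ ι => x.1.1) h
  rw [levM, levM] at h1
  exact Subtype.ext (fromBlocks_inj.1 h1).1

end conj

section lifts

variable [Finite K] [Finite k] {Γ : Type*} [Group Γ] (I : Inv σ j) {s : K} (hs : s ≠ 0) (hss : σ s = -s) {π : Γ →* GE σ ι} {a b : ι}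
  (hcen : π.ker ≤ center Γ) (hsur : Function.Surjective π)
include hcen hsur

/-- Lifts of a long root element and of a short root element commute. -/
theorem comm_U_Z (hab : a ≠ b) {w : kˣ} (hw : (w : k) ≠ 1) {f : k} {e : K} {A B : Γ}
    (hA : π A = lgS I hs hss b (uu f)) (hB : π B = Zu I hs hss hab e) : A * B = B * A := by
  have hw' : j (w : k) ≠ 1 := fun h => hw (j.injective (by rw [h, map_one]))
  refine comm_of_scale hcen hsur (g := Zu I hs hss hab) (Zu_add I hs hss hab) ?_ hw' ?_ hB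
  · intro t
    rw [hA]
    exact upU_comm (yS_coe I hs hss b f) (Zu_coe I hs hss hab t)
  · intro t
    refine ⟨torU I (ev1 a w), ?_, ?_⟩
    · rw [hA]
      exact torU_lg_fix I hs hss (ev1_ne hab.symm w) _
    · rw [torU_Zu, ev1_self, ev1_ne hab.symm]
      congr 1
      simp

/-- Lifts of long root elements at different indices commute. -/
theorem comm_U_U (hab : a ≠ b) {w : kˣ} (hw : (w : k) ^ 2 ≠ 1) {x : M2 k} {A : Γ} {f : k}
    {B : Γ} (hA : π A = lgS I hs hss b x) (hB : π B = lgS I hs hss a (uu f)) : A * B = B * A := by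
  refine comm_of_scale hcen hsur (g := fun t => lgS I hs hss a (uu t)) (fun s t => by rw [uu_add, map_mul]) ?_ hw ?_ hB
  · intro t
    rw [hA]
    exact (lgS_comm I hs hss hab.symm _ _).eq
  · intro t
    refine ⟨torU I (ev1 a w), ?_, ?_⟩
    · rw [hA]
      exact torU_lg_fix I hs hss (ev1_ne hab.symm w) _
    · rw [torU_lg, ev1_self, uu_conj]

/-- Lifts of a long root element and of a lower long root element at different indices commute. -/
theorem comm_U_L (hab : a ≠ b) {w : kˣ} (hw : (w : k) ^ 2 ≠ 1) {x : M2 k} {A : Γ} {f : k}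
    {B : Γ} (hA : π A = lgS I hs hss b x) (hB : π B = lgS I hs hss a (ll f)) : A * B = B * A := by
  have hw' : ((w⁻¹ : kˣ) : k) ^ 2 ≠ 1 := by
    intro h
    apply hw
    have h1 : (w : k) * ((w⁻¹ : kˣ) : k) = 1 := by simp
    calc (w : k) ^ 2 = (w : k) ^ 2 * ((w⁻¹ : kˣ) : k) ^ 2 := by rw [h, mul_one]
      _ = ((w : k) * ((w⁻¹ : kˣ) : k)) ^ 2 := by ring
      _ = 1 := by rw [h1, one_pow]
  refine comm_of_scale hcen hsur (g := fun t => lgS I hs hss a (ll t)) (fun s t => by rw [ll_add, map_mul]) ?_ hw' ?_ hB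
  · intro t
    rw [hA]
    exact (lgS_comm I hs hss hab.symm _ _).eq
  · intro t
    refine ⟨torU I (ev1 a w), ?_, ?_⟩
    · rw [hA]
      exact torU_lg_fix I hs hss (ev1_ne hab.symm w) _
    · rw [torU_lg, ev1_self, ll_conj]

/-- Lifts of elements of the same long root group commute. -/
theorem comm_U_same (hab : a ≠ b) {w : kˣ} (hw : (w : k) ≠ 1) {f f' : k} {D C : Γ}
    (hD : π D = lgS I hs hss b (uu f')) (hC : π C = lgS I hs hss b (uu f)) : D * C = C * D := by
  obtain ⟨A, hA⟩ := hsur (levS I.invol (TT hab.symm 1))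
  obtain ⟨B, hB⟩ := hsur (lgS I hs hss a (uu f))
  obtain ⟨C₁, hC₁⟩ := hsur (Zu I hs hss hab.symm (j f))
  have h1 : D * ⁅A, B⁆ = ⁅A, B⁆ * D := by
    refine comm_comm hcen ?_ ?_
    · rw [hD, hA]
      exact SUg_ext (lg_comm_U_ba hab s f' 1)
    · rw [hD, hB]
      exact (lgS_comm I hs hss hab.symm _ _).eq
  have hC₁' : π C₁ = Zu I hs hss hab (j f) := by
    rw [hC₁, ← Zu_symm I hs hss hab (j f), I.fix]
  have h2 : D * C₁ = C₁ * D := comm_U_Z I hs hss hcen hsur hab hw hD hC₁'
  have e1 : π ⁅A, B⁆ = π A * π B * (π A)⁻¹ * (π B)⁻¹ := map_comm A B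
  rw [hA, hB] at e1
  have e2 := s4_tgt I hs hss hab.symm (1 : K) f
  have hnm : I.nm (1 : K) = 1 := I.nm_one
  rw [one_mul, hnm, one_mul] at e2
  change _ = lgS I hs hss a (uu f) * Zu I hs hss hab.symm (j f) * lgS I hs hss b (uu f) at e2
  have h3 : lgS I hs hss a (uu f) * Zu I hs hss hab.symm (j f) = Zu I hs hss hab.symm (j f) * lgS I hs hss a (uu f) :=
    upU_comm (yS_coe I hs hss a f) (Zu_coe I hs hss _ _)
  have h4 : lgS I hs hss a (uu f) * lgS I hs hss b (uu f) = lgS I hs hss b (uu f) * lgS I hs hss a (uu f) :=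
    (lgS_comm I hs hss hab _ _).eq
  have e3 := conj_simp e2 h3 h4
  rw [← hC₁, ← hC] at e3
  exact comm_of_prod hcen (X := ⁅A, B⁆) (e1.trans e3) h1 h2

end lifts

end Cfsg.Agent.Lib.SUStem
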