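import Cfsg.Agent.Lib.SUStem.URelA
import Cfsg.Agent.Lib.PresU.Even

/-!
# The unitary group in even degree: the relations between the lifts
-/

set_option autoImplicit false
set_option linter.unusedSectionVars false
set_option linter.unusedVariables false
set_option linter.unusedSimpArgs false
set_option linter.style.haveILetI false

namespace Cfsg.Agent.Lib.SUStem

open Cfsg Subgroup Matrix
open scoped commutatorElement MatrixGroups
open Cfsg.Agent.Lib.PresSp.M2 Cfsg.Agent.Lib.PresSp.Mono Cfsg.Agent.Lib.PresSLn.TwoGen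
open Cfsg.Agent.Lib.PresSp.Tgt (sj sj_mul sj_add sj_zero sj_tr sj_ne sj_sub one_sj_mul one_sj_mul_sj
  sj_mul_one_sj upM upM_mul upM_zero)
open Cfsg.Agent.Lib.PresU
open Cfsg.Agent.Lib.Schur.SpStem (dgM dgM_mul dgM_one dgM_inv_mul dgM_mul_inv dgM_tr dgM_single single_dgM cdg coe_cdg
  cdg_T ev1 ev1_self ev1_ne dd_conj_coe dd_one_conj uu_conj ll_conj comm_of_scale conj_lift commute_lift comm_of_prod
  conj_simp dd_wn_conj trivial_of_scale)
open Cfsg.Agent.Lib.Schur.SLnStem (comm_comm comm_ker map_comm central_ker)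

variable {ι : Type*} [Fintype ι] [DecidableEq ι] {K : Type*} [Field K] {k : Type*} [Field k]
variable {σ : K →+* K} {j : k →+* K}

/-- The twist as a homomorphism. -/
def twH (n : kˣ) : M2 k →* M2 k where
  toFun := tw n
  map_one' := by
    apply Subtype.ext
    ext x y
    fin_cases x <;> fin_cases y <;> simp [tw]
  map_mul' g g' := by
    have e : ∀ (h h' : M2 k) (x y : Fin 2), (h * h').1 x y = h.1 x 0 * h'.1 0 y + h.1 x 1 * h'.1 1 y := by
      intro h h' x y
      rw [Cfsg.Agent.Lib.PresSp.M2.coe_mul, mul_apply, Fin.sum_univ_two]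
    have hn : ((n⁻¹ : kˣ) : k) * (n : k) = 1 := by simp
    have e00 : ∀ h : M2 k, (tw n h).1 0 0 = h.1 0 0 := fun h => rfl
    have e01 : ∀ h : M2 k, (tw n h).1 0 1 = (n : k) * h.1 0 1 := fun h => rfl
    have e10 : ∀ h : M2 k, (tw n h).1 1 0 = ((n⁻¹ : kˣ) : k) * h.1 1 0 := fun h => rfl
    have e11 : ∀ h : M2 k, (tw n h).1 1 1 = h.1 1 1 := fun h => rfl
    apply Subtype.ext
    ext x y
    rw [e]
    fin_cases x <;> fin_cases y
    · change (tw n (g * g')).1 0 0 = (tw n g).1 0 0 * (tw n g').1 0 0 + (tw n g).1 0 1 * (tw n g').1 1 0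
      rw [e00, e00, e00, e01, e10, e]
      linear_combination (-(g.1 0 1 * g'.1 1 0)) * hn
    · change (tw n (g * g')).1 0 1 = (tw n g).1 0 0 * (tw n g').1 0 1 + (tw n g).1 0 1 * (tw n g').1 1 1
      rw [e00, e01, e01, e01, e11, e]
      ring
    · change (tw n (g * g')).1 1 0 = (tw n g).1 1 0 * (tw n g').1 0 0 + (tw n g).1 1 1 * (tw n g').1 1 0
      rw [e10, e10, e10, e00, e11, e]
      ring
    · change (tw n (g * g')).1 1 1 = (tw n g).1 1 0 * (tw n g').1 0 1 + (tw n g).1 1 1 * (tw n g').1 1 1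
      rw [e11, e11, e11, e10, e01, e]
      linear_combination (-(g.1 1 0 * g'.1 0 1)) * hn

lemma twH_apply (n : kˣ) (g : M2 k) : twH n g = tw n g := rfl

section Conj

variable [Finite K] [Finite k] {Γ : Type*} [Group Γ] (I : Inv σ j) {s : K} (hs : s ≠ 0) (hss : σ s = -s)
  {π : Γ →* GE σ ι} {lam : SpecialLinearGroup ι K →* Γ}

/-- Conjugation by a lift of a torus element on the section over the Levi subgroup. -/
theorem lam_conjU (hcen : π.ker ≤ center Γ) (hlam : ∀ l, π (lam l) = levS I.invol l)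
    (hpl : commutator (SpecialLinearGroup ι K) = ⊤) {γ : Γ} {v : ι → kˣ} (hγ : π γ = torU I v)
    (l : SpecialLinearGroup ι K) : γ * lam l * γ⁻¹ = lam (cdg (torW j v) l) :=
  conj_lift hcen hpl lam (lam.comp (cdg (torW j v))) γ (fun l' => by
    rw [hγ, hlam, MonoidHom.comp_apply, hlam, torU_lev]) l

/-- Conjugation by a lift of a torus element on a section over a long root `SL₂`. -/
theorem mm_conjU (hcen : π.ker ≤ center Γ) (hpm : commutator (M2 k) = ⊤) {m : M2 k →* Γ} {i : ι}
    (hm : ∀ g, π (m g) = lgS I hs hss i g) {γ : Γ} {v : ι → kˣ} (hγ : π γ = torU I v) (g : M2 k) :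
    γ * m g * γ⁻¹ = m (dd (v i) * g * (dd (v i))⁻¹) :=
  conj_lift hcen hpm m (m.comp (MulAut.conj (dd (v i))).toMonoidHom) γ (fun g' => by
    rw [hγ, hm, MonoidHom.comp_apply, hm, torU_lg]
    rfl) g

/-- The root elements `ε_i + ε_j` in terms of the sections. -/
noncomputable def ZmU (lam : SpecialLinearGroup ι K →* Γ) (m : M2 k →* Γ) {i i' : ι} (h : i ≠ i') (c : K) : Γ :=
  m wn * lam (TT h c) * (m wn)⁻¹

lemma ZmU_add (m : M2 k →* Γ) {i i' : ι} (h : i ≠ i') (c d : K) :
    ZmU lam m h (c + d) = ZmU lam m h c * ZmU lam m h d := by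
  simp only [ZmU, TT_add, map_mul]
  group

lemma ZmU_sig (hlam : ∀ l, π (lam l) = levS I.invol l) {m : M2 k →* Γ} {i i' : ι} (h : i ≠ i')
    (hm : ∀ g, π (m g) = lgS I hs hss i' g) (c : K) : π (ZmU lam m h c) = Zu I hs hss h c := by
  simp only [ZmU, Zu, map_mul, map_inv, hm, hlam]

theorem ZmU_conj (hcen : π.ker ≤ center Γ) (hlam : ∀ l, π (lam l) = levS I.invol l)
    (hpl : commutator (SpecialLinearGroup ι K) = ⊤) (hpm : commutator (M2 k) = ⊤) {m : M2 k →* Γ} {i i' : ι}
    (h : i ≠ i') (hm : ∀ g, π (m g) = lgS I hs hss i' g) {γ : Γ} {v : ι → kˣ} (hγ : π γ = torU I v) (c : K) :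
    γ * ZmU lam m h c * γ⁻¹ = ZmU lam m h (j (v i : k) * j (v i' : k) * c) := by
  set x : kˣ := (v i')⁻¹ * (v i')⁻¹ with hx
  have hne : j (v i' : k) ≠ 0 := (map_ne_zero j).2 (v i').ne_zero
  have e1 : γ * m wn * γ⁻¹ = m wn * m (dd x) := by
    rw [mm_conjU I hs hss hcen hpm hm hγ, dd_wn_conj, map_mul]
  have e2 : γ * lam (TT h c) * γ⁻¹ = lam (TT h (j (v i : k) * c * (j (v i' : k))⁻¹)) := by
    rw [lam_conjU I hcen hlam hpl hγ, cdg_T]
    congr 2
    simp [torW]
  have hγ' : π (m (dd x)) = torU I (Function.update 1 i' x) := by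
    rw [hm, lg_dd_eq]
  have e3 : ∀ e : K, m (dd x) * lam (TT h e) * (m (dd x))⁻¹ = lam (TT h (e * (j (v i' : k) * j (v i' : k)))) := by
    intro e
    rw [lam_conjU I hcen hlam hpl hγ', cdg_T]
    congr 2
    simp [torW, Function.update_of_ne, h, hx]
  have e4 : j (v i : k) * c * (j (v i' : k))⁻¹ * (j (v i' : k) * j (v i' : k)) =
      j (v i : k) * j (v i' : k) * c := by
    field_simp
  calc γ * ZmU lam m h c * γ⁻¹ = (γ * m wn * γ⁻¹) * (γ * lam (TT h c) * γ⁻¹) * (γ * m wn * γ⁻¹)⁻¹ := by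
        simp only [ZmU]
        group
    _ = m wn * (m (dd x) * lam (TT h (j (v i : k) * c * (j (v i' : k))⁻¹)) * (m (dd x))⁻¹) * (m wn)⁻¹ := by
        rw [e1, e2]
        group
    _ = ZmU lam m h (j (v i : k) * j (v i' : k) * c) := by
        rw [e3, e4]
        rfl

end Conj

section Hyp

variable [Finite K] [Finite k] {Γ : Type*} [Group Γ] (I : Inv σ j) {s : K} (hs : s ≠ 0) (hss : σ s = -s)
  {π : Γ →* GE σ ι} {a b : ι} {lam : SpecialLinearGroup ι K →* Γ} {mu : M2 k →* Γ}

/-- A central additive function invariant under a scalar different from `1` vanishes. -/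
lemma trivial_of_scale1 {F : Type*} [Field F] {A : Type*} [Group A] {e : F → A} (hadd : ∀ x y, e (x + y) = e x * e y)
    {r : F} (hr : r ≠ 1) (hscale : ∀ c, e (r * c) = e c) (c : F) : e c = 1 := by
  have hne : r - 1 ≠ 0 := sub_ne_zero.2 hr
  set x : F := c / (r - 1) with hx
  have e1 : r * x = x + c := by
    rw [hx]
    field_simp
    ring
  have h5 := hscale x
  rw [e1, hadd] at h5
  exact mul_eq_left.1 h5

/-- The sections satisfy the relations, if `q ≥ 4`. -/
theorem uHyp_of_lifts (hcen : π.ker ≤ center Γ) (hsur : Function.Surjective π)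
    (hlam : ∀ l, π (lam l) = levS I.invol l) (hmu : ∀ g, π (mu g) = lgS I hs hss b g)
    (hpl : commutator (SpecialLinearGroup ι K) = ⊤) (hpm : commutator (M2 k) = ⊤)
    (hab : a ≠ b) {ζ : Kˣ} (hζ : ∀ u : Kˣ, ∃ n : ℕ, ζ ^ n = u) (hk : ∀ u : kˣ, ∃ n : ℕ, I.nU ζ ^ n = u)
    {w : kˣ} (hw : (w : k) ^ 2 ≠ 1) :
    UHyp I lam mu hab ζ := by
  classical
  have T := uHyp0_target I hs hss hab hζ hk
  have hw1 : (w : k) ≠ 1 := fun h => hw (by rw [h, one_pow])
  have hw1' : j (w : k) ≠ 1 := fun h => hw1 (j.injective (by rw [h, map_one]))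
  have hw2' : j (w : k) * j (w : k) ≠ 1 := by
    intro h
    apply hw
    apply j.injective
    rw [map_pow, map_one, sq, h]
  set n : kˣ := I.nU ζ with hn
  set p : SpecialLinearGroup ι K := pj a b a with hp
  let ma : M2 k →* Γ := (MulAut.conj (lam p)).toMonoidHom.comp mu
  have hmae : ∀ g, ma g = lam p * mu g * (lam p)⁻¹ := fun g => rfl
  have hma : ∀ g, π (ma g) = lgS I hs hss a g := by
    intro g
    rw [hmae, map_mul, map_mul, map_inv, hlam, hmu]
    exact lgS_conj I hs hss (mv_pj hab a) g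
  have htt : ∀ (v : Kˣ) (g : M2 k), lam (tt hab v) * mu g * (lam (tt hab v))⁻¹ = mu (tw (I.nU v)⁻¹ g) := by
    intro v g
    refine conj_lift hcen hpm mu (mu.comp (twH (I.nU v)⁻¹)) _ (fun g' => ?_) g
    rw [hlam, hmu, MonoidHom.comp_apply, hmu, twH_apply, mul_inv_eq_iff_eq_mul]
    apply SUg_ext
    exact lev_tt_lg I hab v g'
  have hddz : ∀ u : kˣ, π (mu (dd u)) = torU I (Function.update 1 b u) := by
    intro u
    rw [hmu, lg_dd_eq]
  have hr1 : Commute (mu (dd n)) (lam (tt hab ζ)) := by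
    have h1 := htt ζ (dd n)
    rw [tw_dd, mul_inv_eq_iff_eq_mul] at h1
    exact h1.symm
  have hr4 : lam p * mu (dd n) * (lam p)⁻¹ = lam (tt hab (jU j n)) * mu (dd n) := by
    have h1 := lam_conjU I hcen hlam hpl (hddz n) p⁻¹
    have h2 : p * cdg (torW j (Function.update 1 b n)) p⁻¹ = tt hab (jU j n) := by
      apply levS_inj (σ := σ) (ι := ι) I
      have h3 := T.r4
      rw [map_mul, ← torU_lev I, ← lg_dd_eq I hs hss, map_inv]
      have h4 : levS I.invol p * (lgS I hs hss b (dd n) * (levS I.invol p)⁻¹ * (lgS I hs hss b (dd n))⁻¹) =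
          (levS I.invol p * lgS I hs hss b (dd n) * (levS I.invol p)⁻¹) * (lgS I hs hss b (dd n))⁻¹ := by group
      rw [h4, h3, mul_inv_cancel_right]
    calc lam p * mu (dd n) * (lam p)⁻¹ = lam p * (mu (dd n) * lam p⁻¹ * (mu (dd n))⁻¹) * mu (dd n) := by
          rw [map_inv]
          group
      _ = lam (tt hab (jU j n)) * mu (dd n) := by
          rw [h1, ← map_mul, h2]
  have hr5 : mu wn * lam (tt hab ζ) * (mu wn)⁻¹ = lam (tt hab ζ) * mu (dd n) := by
    have h1 := htt ζ (dd n * wn)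
    rw [tw_dd_wn, map_mul, mul_inv_eq_iff_eq_mul] at h1
    rw [mul_inv_eq_iff_eq_mul, ← h1]
    group
  have hZsig : ∀ c, π (ZmU lam mu hab c) = Zu I hs hss hab c := ZmU_sig I hs hss hlam hab hmu
  have hZgsig : ∀ c, π (ZmU lam ma hab.symm c) = Zu I hs hss hab.symm c := ZmU_sig I hs hss hlam hab.symm hma
  have hZconj : ∀ {γ : Γ} {v : ι → kˣ} (hγ : π γ = torU I v) (c : K),
      γ * ZmU lam mu hab c * γ⁻¹ = ZmU lam mu hab (j (v a : k) * j (v b : k) * c) :=
    fun hγ c => ZmU_conj I hs hss hcen hlam hpl hpm hab hmu hγ c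
  have hZgconj : ∀ {γ : Γ} {v : ι → kˣ} (hγ : π γ = torU I v) (c : K),
      γ * ZmU lam ma hab.symm c * γ⁻¹ = ZmU lam ma hab.symm (j (v b : k) * j (v a : k) * c) :=
    fun hγ c => ZmU_conj I hs hss hcen hlam hpl hpm hab.symm hma hγ c
  have hr11 : ZmU lam mu hab 1 = ZmU lam ma hab.symm 1 := by
    let e : K → Γ := fun c => (ZmU lam mu hab c)⁻¹ * ZmU lam ma hab.symm (σ c)
    have hek : ∀ c, π (e c) = 1 := by
      intro c
      simp only [e, map_mul, map_inv, hZsig, hZgsig, Zu_symm I hs hss hab, inv_mul_cancel]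
    have hadd : ∀ x y, e (x + y) = e x * e y := by
      intro x y
      have h1 : e (x + y) = (ZmU lam mu hab y)⁻¹ * e x * ZmU lam ma hab.symm (σ y) := by
        simp only [e, ZmU_add, map_add]
        group
      rw [h1, central_ker hcen (hek x) (ZmU lam mu hab y)⁻¹]
      simp only [e]
      group
    have hscale : ∀ c, e (j (w : k) * c) = e c := by
      intro c
      obtain ⟨γ, hγ⟩ := hsur (torU I (ev1 a w))
      have h1 := hZconj hγ c
      have h2 := hZgconj hγ (σ c)
      rw [ev1_self, ev1_ne hab.symm] at h1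
      rw [ev1_self, ev1_ne hab.symm] at h2
      have e1 : j (w : k) * j ((1 : kˣ) : k) * c = j (w : k) * c := by simp
      have e2 : j ((1 : kˣ) : k) * j (w : k) * σ c = σ (j (w : k) * c) := by
        rw [map_mul, I.fix]
        simp
      rw [e1] at h1
      rw [e2] at h2
      have h3 : e (j (w : k) * c) = γ * e c * γ⁻¹ := by
        simp only [e]
        rw [← h1, ← h2]
        group
      rw [h3, central_ker hcen (hek c) γ, mul_inv_cancel_right]
    have h1 := trivial_of_scale1 hadd hw1' hscale 1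
    have h2 : e 1 = (ZmU lam mu hab 1)⁻¹ * ZmU lam ma hab.symm 1 := by
      simp only [e, map_one]
    rw [h2] at h1
    exact inv_mul_eq_one.1 h1
  let y : k → Γ := fun d => mu (uu d)
  let Y : k → Γ := fun d => ma (uu d)
  let Tt : Γ := lam (TT hab 1)
  have hysig : ∀ d, π (y d) = lgS I hs hss b (uu d) := fun d => hmu _
  have hYsig : ∀ d, π (Y d) = lgS I hs hss a (uu d) := fun d => hma _
  have hyadd : ∀ d d', y (d + d') = y d * y d' := fun d d' => by simp only [y, uu_add, map_mul]
  have hYadd : ∀ d d', Y (d + d') = Y d * Y d' := fun d d' => by simp only [Y, uu_add, map_mul]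
  -- the torus scaling by `w` at both indices
  have hsc : ∃ γ : Γ, γ * Tt * γ⁻¹ = Tt ∧ (∀ d, γ * y d * γ⁻¹ = y ((w : k) ^ 2 * d)) ∧
      (∀ d, γ * Y d * γ⁻¹ = Y ((w : k) ^ 2 * d)) ∧
      ∀ c, γ * ZmU lam mu hab c * γ⁻¹ = ZmU lam mu hab (j (w : k) * j (w : k) * c) := by
    obtain ⟨γ, hγ⟩ := hsur (torU I (ev1 a w * ev1 b w))
    have hva : (ev1 a w * ev1 b w) a = w := by simp [ev1, hab, Function.update_of_ne]
    have hvb : (ev1 a w * ev1 b w) b = w := by simp [ev1, hab.symm, Function.update_of_ne]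
    refine ⟨γ, ?_, ?_, ?_, ?_⟩
    · change γ * lam (TT hab 1) * γ⁻¹ = lam (TT hab 1)
      rw [lam_conjU I hcen hlam hpl hγ, cdg_T, torW_val, hva]
      congr 2
      have h0 : j (w : k) ≠ 0 := (map_ne_zero j).2 w.ne_zero
      have : (((torW j (ev1 a w * ev1 b w) b)⁻¹ : Kˣ) : K) = (j (w : k))⁻¹ := by
        simp [torW, hvb]
      rw [this]
      field_simp
    · intro d
      simp only [y]
      rw [mm_conjU I hs hss hcen hpm hmu hγ, hvb, dd_uu]
    · intro d
      simp only [Y]
      rw [mm_conjU I hs hss hcen hpm hma hγ, hva, dd_uu]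
    · intro c
      rw [hZconj hγ, hva, hvb]
  obtain ⟨γ, gT, gy, gY, gZ⟩ := hsc
  have c1 : ∀ (d : K) (d' : k), y d' * ZmU lam mu hab d = ZmU lam mu hab d * y d' := fun d d' =>
    comm_U_Z I hs hss hcen hsur hab hw1 (hysig d') (hZsig d)
  have c2 : ∀ d d', y d' * Y d = Y d * y d' := fun d d' =>
    comm_U_U I hs hss hcen hsur hab hw (hysig d') (hYsig d)
  have c3 : ∀ (d' : K) (d : k), ZmU lam mu hab d' * Y d = Y d * ZmU lam mu hab d' := fun d' d =>
    (comm_U_Z I hs hss hcen hsur hab.symm hw1 (e := σ d') (hYsig d)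
      (by rw [hZsig]; exact (Zu_symm I hs hss hab d').symm)).symm
  -- S4 for `c = 1`
  have hs1 : ∀ d : k, Tt * y d * Tt⁻¹ = y d * ZmU lam mu hab (j d) * Y d := by
    let Q : k → Γ := fun d => Tt * y d * Tt⁻¹
    let A : k → Γ := fun d => y d * ZmU lam mu hab (j d) * Y d
    have hQsig : ∀ d, π (Q d) = lgS I hs hss b (uu d) * Zu I hs hss hab (j d) * lgS I hs hss a (uu d) := by
      intro d
      simp only [Q, Tt, map_mul, map_inv, hlam, hysig]
      have := s4_tgt I hs hss hab (1 : K) d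
      simpa [I.nm_one, Zu] using this
    have hQadd : ∀ d d', Q (d + d') = Q d * Q d' := fun d d' => by
      simp only [Q, hyadd]
      group
    have hAadd : ∀ d d', A (d + d') = A d * A d' := by
      intro d d'
      simp only [A, hyadd, hYadd, map_add, ZmU_add]
      calc y d * y d' * (ZmU lam mu hab (j d) * ZmU lam mu hab (j d')) * (Y d * Y d')
          = y d * (y d' * ZmU lam mu hab (j d)) * ZmU lam mu hab (j d') * Y d * Y d' := by group
        _ = y d * ZmU lam mu hab (j d) * y d' * (ZmU lam mu hab (j d') * Y d) * Y d' := by rw [c1]; group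
        _ = y d * ZmU lam mu hab (j d) * (y d' * Y d) * ZmU lam mu hab (j d') * Y d' := by rw [c3]; group
        _ = y d * ZmU lam mu hab (j d) * Y d * (y d' * ZmU lam mu hab (j d') * Y d') := by rw [c2]; group
    let E : k → Γ := fun d => (A d)⁻¹ * Q d
    have hAsig : ∀ d, π (A d) = lgS I hs hss b (uu d) * Zu I hs hss hab (j d) * lgS I hs hss a (uu d) := by
      intro d
      simp only [A, map_mul, hysig, hYsig, hZsig]
    have hEk : ∀ d, π (E d) = 1 := by
      intro d
      simp only [E, map_mul, map_inv, hAsig, hQsig, inv_mul_cancel]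
    have hEadd : ∀ d d', E (d + d') = E d * E d' := by
      intro d d'
      have h1 : E (d + d') = (A d')⁻¹ * E d * Q d' := by
        simp only [E, hAadd, hQadd]
        group
      rw [h1, central_ker hcen (hEk d) (A d')⁻¹]
      simp only [E]
      group
    have g5 : ∀ d, γ * Q d * γ⁻¹ = Q ((w : k) ^ 2 * d) := by
      intro d
      calc γ * Q d * γ⁻¹ = (γ * Tt * γ⁻¹) * (γ * y d * γ⁻¹) * (γ * Tt * γ⁻¹)⁻¹ := by
            simp only [Q]
            group
        _ = Q ((w : k) ^ 2 * d) := by rw [gT, gy]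
    have g6 : ∀ d, γ * A d * γ⁻¹ = A ((w : k) ^ 2 * d) := by
      intro d
      have e : j (w : k) * j (w : k) * j d = j ((w : k) ^ 2 * d) := by
        rw [map_mul, map_pow, sq]
      simp only [A]
      rw [← gy, ← gY, ← e, ← gZ]
      group
    have hscale : ∀ d, E ((w : k) ^ 2 * d) = E d := by
      intro d
      have h3 : E ((w : k) ^ 2 * d) = γ * E d * γ⁻¹ := by
        simp only [E]
        rw [← g5, ← g6]
        group
      rw [h3, central_ker hcen (hEk d) γ, mul_inv_cancel_right]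
    intro d
    have h5 := trivial_of_scale1 hEadd hw hscale d
    exact (inv_mul_eq_one.1 h5).symm
  -- the commutator of two short root elements
  have hs2 : ∀ x : K, Tt * ZmU lam mu hab x * Tt⁻¹ = ZmU lam mu hab x * Y (I.tr (σ x)) := by
    let Q : K → Γ := fun x => Tt * ZmU lam mu hab x * Tt⁻¹
    let A : K → Γ := fun x => ZmU lam mu hab x * Y (I.tr (σ x))
    have hQsig : ∀ x, π (Q x) = Zu I hs hss hab x * lgS I hs hss a (uu (I.tr (σ x))) := by
      intro x
      simp only [Q, Tt, map_mul, map_inv, hlam, hZsig]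
      have := ss_tgt I hs hss hab (1 : K) x
      simpa [Zu] using this
    have hQadd : ∀ d d', Q (d + d') = Q d * Q d' := fun d d' => by
      simp only [Q, ZmU_add]
      group
    have hAadd : ∀ d d', A (d + d') = A d * A d' := by
      intro d d'
      simp only [A, hYadd, map_add, ZmU_add, I.tr_add]
      calc ZmU lam mu hab d * ZmU lam mu hab d' * (Y (I.tr (σ d)) * Y (I.tr (σ d')))
          = ZmU lam mu hab d * (ZmU lam mu hab d' * Y (I.tr (σ d))) * Y (I.tr (σ d')) := by group
        _ = _ := by rw [c3]; group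
    let E : K → Γ := fun d => (A d)⁻¹ * Q d
    have hAsig : ∀ d, π (A d) = Zu I hs hss hab d * lgS I hs hss a (uu (I.tr (σ d))) := by
      intro d
      simp only [A, map_mul, hYsig, hZsig]
    have hEk : ∀ d, π (E d) = 1 := by
      intro d
      simp only [E, map_mul, map_inv, hAsig, hQsig, inv_mul_cancel]
    have hEadd : ∀ d d', E (d + d') = E d * E d' := by
      intro d d'
      have h1 : E (d + d') = (A d')⁻¹ * E d * Q d' := by
        simp only [E, hAadd, hQadd]
        group
      rw [h1, central_ker hcen (hEk d) (A d')⁻¹]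
      simp only [E]
      group
    have g5 : ∀ d, γ * Q d * γ⁻¹ = Q (j (w : k) * j (w : k) * d) := by
      intro d
      calc γ * Q d * γ⁻¹ = (γ * Tt * γ⁻¹) * (γ * ZmU lam mu hab d * γ⁻¹) * (γ * Tt * γ⁻¹)⁻¹ := by
            simp only [Q]
            group
        _ = Q (j (w : k) * j (w : k) * d) := by rw [gT, gZ]
    have g6 : ∀ d, γ * A d * γ⁻¹ = A (j (w : k) * j (w : k) * d) := by
      intro d
      have e : I.tr (σ (j (w : k) * j (w : k) * d)) = (w : k) ^ 2 * I.tr (σ d) := by
        apply j.injective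
        rw [I.j_tr, map_mul j, map_pow j, I.j_tr]
        simp only [map_mul σ, I.fix, I.invol]
        ring
      simp only [A]
      rw [e, ← gY, ← gZ]
      group
    have hscale : ∀ d, E (j (w : k) * j (w : k) * d) = E d := by
      intro d
      have h3 : E (j (w : k) * j (w : k) * d) = γ * E d * γ⁻¹ := by
        simp only [E]
        rw [← g5, ← g6]
        group
      rw [h3, central_ker hcen (hEk d) γ, mul_inv_cancel_right]
    intro d
    have h5 := trivial_of_scale1 hEadd hw2' hscale d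
    exact (inv_mul_eq_one.1 h5).symm
  have H0 : UHyp0 I lam mu hab ζ := by
    refine ⟨hζ, hk, ?_, hr1, ?_, ?_, hr4, hr5, ?_, ?_, ?_, ?_, ?_, ?_⟩
    · -- theta
      intro l h1 h2 g
      exact commute_lift hcen hpm mu (lam l) (fun g' => by
        rw [hlam, hmu]
        exact (T.theta l h1 h2 g').eq) g
    · -- r2
      rw [lam_conjU I hcen hlam hpl (hddz n), cdg_T]
      congr 2
      have e1 : ((torW j (Function.update 1 b n) a : Kˣ) : K) = 1 := by
        simp [torW, hab, Function.update_of_ne]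
      have e2 : (((torW j (Function.update 1 b n) b)⁻¹ : Kˣ) : K) = j ((n⁻¹ : kˣ) : k) := by
        simp [torW]
      rw [e1, e2]
      ring
    · -- r3
      rw [htt, tw_uu, mul_one]
    · -- r6
      refine comm_of_scale hcen hsur (g := fun t => levS I.invol (TT hab.symm t)) (fun s t => by rw [TT_add, map_mul])
        (fun t => ?_) hw1' (fun t => ?_) (hlam _)
      · rw [hmu]
        exact SUg_ext (lg_comm_U_ba hab s 1 t)
      · refine ⟨torU I (ev1 a w⁻¹), ?_, ?_⟩
        · rw [hmu]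
          exact torU_lg_fix I hs hss (ev1_ne hab.symm _) _
        · rw [torU_lev, cdg_T]
          congr 2
          simp [torW, ev1, hab.symm, hab, Function.update_of_ne, mul_comm]
    · -- r7
      refine comm_of_scale hcen hsur (g := fun t => levS I.invol (TT hab t)) (fun s t => by rw [TT_add, map_mul])
        (fun t => ?_) hw1' (fun t => ?_) (hlam _)
      · rw [hmu]
        exact SUg_ext (lg_comm_L_ab hab s 1 t)
      · refine ⟨torU I (ev1 a w), ?_, ?_⟩
        · rw [hmu]
          exact torU_lg_fix I hs hss (ev1_ne hab.symm _) _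
        · rw [torU_lev, cdg_T]
          congr 2
          simp [torW, ev1, hab.symm, hab, Function.update_of_ne]
    · -- r8
      exact comm_U_U I hs hss hcen hsur hab hw (hmu (uu 1)) (hma (uu 1))
    · -- r9
      exact comm_U_U I hs hss hcen hsur hab hw (hmu (ll 1)) (hma (uu 1))
    · -- r10
      exact comm_U_L I hs hss hcen hsur hab hw (hmu (ll 1)) (hma (ll 1))
    · -- r11
      exact hr11
  have hs1' : ∀ d : k, lam (TT hab 1) * mu (uu d) * (lam (TT hab 1))⁻¹ =
      mu (uu d) * zz lam mu a b hab (j d) * yy lam mu a b a d := by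
    intro d
    rw [zz_ab, yy, muJ_apply]
    exact hs1 d
  have hs2' : ∀ x, lam (TT hab 1) * zz lam mu a b hab x * (lam (TT hab 1))⁻¹ =
      zz lam mu a b hab x * yy lam mu a b a (I.tr (σ x)) := by
    intro x
    rw [zz_ab, yy, muJ_apply]
    exact hs2 x
  have hss' := H0.ss_ab hs2'
  refine ⟨H0, fun c d => ?_⟩
  have := H0.s4_of hs1' hss' c d
  rwa [zz_ab, yy, muJ_apply] at this

end Hyp

end Cfsg.Agent.Lib.SUStem
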